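import Mathlib
import Cfsg.Agent.Helper1.Class2

set_option autoImplicit false
open scoped commutatorElement

namespace Cfsg.Agent.Helper1

section class3

variable {G : Type*} [Group G]

/-- the elementwise form of "class at most three" -/
theorem class3_of_commutator_eq_bot
    (h : ⁅⁅commutator G, (⊤ : Subgroup G)⁆, (⊤ : Subgroup G)⁆ = ⊥) :
    ∀ u ∈ commutator G, ∀ g k : G, Commute ⁅u, g⁆ k := by
  intro u hu g k
  have h1 : ⁅commutator G, (⊤ : Subgroup G)⁆ ≤ Subgroup.centralizer ((⊤ : Subgroup G) : Set G) :=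
    Subgroup.commutator_eq_bot_iff_le_centralizer.mp h
  have h3 : ⁅u, g⁆ ∈ ⁅commutator G, (⊤ : Subgroup G)⁆ :=
    Subgroup.commutator_mem_commutator hu (Subgroup.mem_top g)
  exact (Subgroup.mem_centralizer_iff.mp (h1 h3) k (Subgroup.mem_top k)).symm

variable (h3 : ∀ u ∈ commutator G, ∀ g k : G, Commute ⁅u, g⁆ k)
include h3

theorem comm3_mul {u : G} (hu : u ∈ commutator G) (a b : G) :
    ⁅u, a * b⁆ = ⁅u, a⁆ * ⁅u, b⁆ := by
  have hc := h3 u hu b a
  have e : ⁅u, a * b⁆ = ⁅u, a⁆ * (a * ⁅u, b⁆ * a⁻¹) := by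
    simp only [commutatorElement_def]; group
  rw [e, ← hc.eq, mul_inv_cancel_right]

theorem comm3_pow {u : G} (hu : u ∈ commutator G) (a : G) (n : ℕ) :
    ⁅u, a ^ n⁆ = ⁅u, a⁆ ^ n := by
  induction n with
  | zero => simp
  | succ n ih => rw [pow_succ, comm3_mul h3 hu, ih, pow_succ]

theorem comm3_inv {u : G} (hu : u ∈ commutator G) (a : G) : ⁅u, a⁻¹⁆ = ⁅u, a⁆⁻¹ := by
  have h1 := comm3_mul h3 hu a a⁻¹
  rw [mul_inv_cancel, commutatorElement_one_right] at h1
  exact eq_inv_of_mul_eq_one_right h1.symm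

/-- in class three the derived subgroup is abelian -/
theorem commute_of_mem_commutator_class3 {u v : G} (hu : u ∈ commutator G)
    (hv : v ∈ commutator G) : Commute u v := by
  have key : ∀ w ∈ commutator G, ⁅u, w⁆ = 1 := by
    intro w hw
    rw [commutator_eq_closure] at hw
    induction hw using Subgroup.closure_induction with
    | mem c hc =>
      obtain ⟨a, b, rfl⟩ := hc
      rw [commutatorElement_def a b, comm3_mul h3 hu, comm3_mul h3 hu, comm3_mul h3 hu,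
        comm3_inv h3 hu, comm3_inv h3 hu, ← commutatorElement_def,
        commutatorElement_eq_one_iff_commute]
      exact h3 u hu a _
    | one => exact commutatorElement_one_right u
    | mul x y _ _ ihx ihy => rw [comm3_mul h3 hu, ihx, ihy, one_mul]
    | inv x _ ih => rw [comm3_inv h3 hu, ih, inv_one]
  exact commutatorElement_eq_one_iff_commute.mp (key v hv)

/-- conjugation of a derived element -/
theorem conj_eq_mul_comm3 (u g : G) : g * u * g⁻¹ = u * ⁅u⁻¹, g⁆ := by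
  simp only [commutatorElement_def]; group

/-- in class three, `⁅a, b⁆ ^ p = 1` when `a ^ p = 1` and `p` is odd -/
theorem commutatorElement_pow_eq_one_of_pow_eq_one {p : ℕ} [hp : Fact p.Prime] (hp2 : p ≠ 2)
    (a b : G) (ha : a ^ p = 1) : ⁅a, b⁆ ^ p = 1 := by
  have hcN : ⁅a, b⁆ ∈ commutator G :=
    Subgroup.commutator_mem_commutator (Subgroup.mem_top a) (Subgroup.mem_top b)
  have hcN' : ⁅a, b⁆⁻¹ ∈ commutator G := inv_mem hcN
  have hd : ∀ g : G, Commute ⁅⁅a, b⁆⁻¹, a⁆ g := h3 _ hcN' a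
  have hconj : a * ⁅a, b⁆ * a⁻¹ = ⁅a, b⁆ * ⁅⁅a, b⁆⁻¹, a⁆ := conj_eq_mul_comm3 h3 _ _
  have hdconj : a * ⁅⁅a, b⁆⁻¹, a⁆ * a⁻¹ = ⁅⁅a, b⁆⁻¹, a⁆ := by
    rw [← (hd a).eq, mul_inv_cancel_right]
  have key : ∀ n : ℕ, ⁅a ^ n, b⁆ = ⁅a, b⁆ ^ n * ⁅⁅a, b⁆⁻¹, a⁆ ^ (n.choose 2) := by
    intro n
    induction n with
    | zero => simp
    | succ n ih =>
      have h1 : ⁅a ^ (n + 1), b⁆ = a * ⁅a ^ n, b⁆ * a⁻¹ * ⁅a, b⁆ := by
        rw [pow_succ']; simp only [commutatorElement_def]; group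
      have h2 : (n + 1).choose 2 = n + n.choose 2 := by
        rw [Nat.choose_succ_succ' n 1, Nat.choose_one_right]
      have hcd : Commute ⁅a, b⁆ ⁅⁅a, b⁆⁻¹, a⁆ := (hd _).symm
      have hdc : (⁅⁅a, b⁆⁻¹, a⁆ ^ n * ⁅⁅a, b⁆⁻¹, a⁆ ^ n.choose 2) * ⁅a, b⁆ =
          ⁅a, b⁆ * (⁅⁅a, b⁆⁻¹, a⁆ ^ n * ⁅⁅a, b⁆⁻¹, a⁆ ^ n.choose 2) :=
        (((hd ⁅a, b⁆).pow_left n).mul_left ((hd ⁅a, b⁆).pow_left _)).eq
      calc ⁅a ^ (n + 1), b⁆ = a * ⁅a ^ n, b⁆ * a⁻¹ * ⁅a, b⁆ := h1
        _ = a * (⁅a, b⁆ ^ n * ⁅⁅a, b⁆⁻¹, a⁆ ^ (n.choose 2)) * a⁻¹ * ⁅a, b⁆ := by rw [ih]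
        _ = (a * ⁅a, b⁆ * a⁻¹) ^ n * (a * ⁅⁅a, b⁆⁻¹, a⁆ * a⁻¹) ^ (n.choose 2) * ⁅a, b⁆ := by
            rw [conj_pow, conj_pow]; group
        _ = (⁅a, b⁆ * ⁅⁅a, b⁆⁻¹, a⁆) ^ n * ⁅⁅a, b⁆⁻¹, a⁆ ^ (n.choose 2) * ⁅a, b⁆ := by
            rw [hconj, hdconj]
        _ = ⁅a, b⁆ ^ n * ⁅⁅a, b⁆⁻¹, a⁆ ^ n * ⁅⁅a, b⁆⁻¹, a⁆ ^ (n.choose 2) * ⁅a, b⁆ := by
            rw [hcd.mul_pow]
        _ = ⁅a, b⁆ ^ n * ((⁅⁅a, b⁆⁻¹, a⁆ ^ n * ⁅⁅a, b⁆⁻¹, a⁆ ^ (n.choose 2)) * ⁅a, b⁆) := by
            simp only [mul_assoc]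
        _ = ⁅a, b⁆ ^ n * (⁅a, b⁆ * (⁅⁅a, b⁆⁻¹, a⁆ ^ n * ⁅⁅a, b⁆⁻¹, a⁆ ^ (n.choose 2))) := by
            rw [hdc]
        _ = ⁅a, b⁆ ^ (n + 1) * ⁅⁅a, b⁆⁻¹, a⁆ ^ ((n + 1).choose 2) := by
            rw [← mul_assoc, ← pow_succ, ← pow_add, h2]
  have hkey := key p
  rw [ha, commutatorElement_one_left] at hkey
  have hdp : ⁅⁅a, b⁆⁻¹, a⁆ ^ p = 1 := by
    rw [← comm3_pow h3 hcN', ha, commutatorElement_one_right]
  have h2p : 2 < p := lt_of_le_of_ne hp.out.two_le (Ne.symm hp2)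
  obtain ⟨k, hk⟩ := hp.out.dvd_choose_self (k := 2) (by norm_num) h2p
  rw [hk, pow_mul, hdp, one_pow, mul_one] at hkey
  exact hkey.symm

variable {p : ℕ} [hp : Fact p.Prime]
  (hgen : ∀ g : G, g ∈ Subgroup.closure {x : G | x ^ p = 1})
include hgen

theorem comm3_pow_eq_one {u : G} (hu : u ∈ commutator G) (g : G) : ⁅u, g⁆ ^ p = 1 := by
  have hg := hgen g
  induction hg using Subgroup.closure_induction with
  | mem x hx =>
    have hx' : x ^ p = 1 := hx
    rw [← comm3_pow h3 hu, hx', commutatorElement_one_right]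
  | one => rw [commutatorElement_one_right, one_pow]
  | mul x y _ _ ihx ihy =>
    rw [comm3_mul h3 hu, (h3 u hu x _).mul_pow, ihx, ihy, one_mul]
  | inv x _ ih => rw [comm3_inv h3 hu, inv_pow, ih, inv_one]

theorem commutatorElement_pow_eq_one_class3 (hp2 : p ≠ 2) (g k : G) : ⁅g, k⁆ ^ p = 1 := by
  have hg := hgen g
  induction hg using Subgroup.closure_induction with
  | mem x hx => exact commutatorElement_pow_eq_one_of_pow_eq_one h3 hp2 x k hx
  | one => rw [commutatorElement_one_left, one_pow]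
  | mul x y _ _ ihx ihy =>
    have hvN : ⁅y, k⁆ ∈ commutator G :=
      Subgroup.commutator_mem_commutator (Subgroup.mem_top y) (Subgroup.mem_top k)
    have hwN : ⁅x, k⁆ ∈ commutator G :=
      Subgroup.commutator_mem_commutator (Subgroup.mem_top x) (Subgroup.mem_top k)
    have hz : ∀ g : G, Commute ⁅⁅y, k⁆⁻¹, x⁆ g := h3 _ (inv_mem hvN) x
    have e : ⁅x * y, k⁆ = x * ⁅y, k⁆ * x⁻¹ * ⁅x, k⁆ := by
      simp only [commutatorElement_def]; group
    rw [e, conj_eq_mul_comm3 h3]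
    have hc1 : Commute ⁅y, k⁆ ⁅⁅y, k⁆⁻¹, x⁆ := (hz _).symm
    have hc2 : Commute (⁅y, k⁆ * ⁅⁅y, k⁆⁻¹, x⁆) ⁅x, k⁆ :=
      (commute_of_mem_commutator_class3 h3 hvN hwN).mul_left (hz _)
    rw [hc2.mul_pow, hc1.mul_pow, ihy, ihx, comm3_pow_eq_one h3 hgen (inv_mem hvN), one_mul,
      one_mul]
  | inv x _ ih =>
    have e : ⁅x⁻¹, k⁆ = x⁻¹ * ⁅x, k⁆⁻¹ * x⁻¹⁻¹ := by
      simp only [commutatorElement_def]; group
    rw [e, conj_pow, inv_pow, ih, inv_one, mul_one, mul_inv_cancel]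

/-- class three, generated by elements of order `p` (odd): the derived subgroup has exponent
`p` -/
theorem pow_eq_one_of_mem_commutator_class3 (hp2 : p ≠ 2) {u : G} (hu : u ∈ commutator G) :
    u ^ p = 1 := by
  have hu' := hu
  rw [commutator_eq_closure] at hu'
  induction hu' using Subgroup.closure_induction with
  | mem c hc =>
    obtain ⟨a, b, rfl⟩ := hc
    exact commutatorElement_pow_eq_one_class3 h3 hgen hp2 a b
  | one => exact one_pow _
  | mul x y hx hy ihx ihy =>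
    have hx' : x ∈ commutator G := by rw [commutator_eq_closure]; exact hx
    have hy' : y ∈ commutator G := by rw [commutator_eq_closure]; exact hy
    rw [(commute_of_mem_commutator_class3 h3 hx' hy').mul_pow, ihx hx', ihy hy', one_mul]
  | inv x hx ih =>
    have hx' : x ∈ commutator G := by rw [commutator_eq_closure]; exact hx
    rw [inv_pow, ih hx', inv_one]

end class3

section power

variable {G : Type*} [Group G]

open scoped IsMulCommutative in
/-- the power formula in class three: for `p > 3` and derived subgroup of exponent `p`, the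
`p`-th power map is multiplicative -/
theorem mul_pow_class3 (h3 : ∀ u ∈ commutator G, ∀ g k : G, Commute ⁅u, g⁆ k) {p : ℕ}
    [hp : Fact p.Prime] (hp3 : 3 < p) (hexp : ∀ u ∈ commutator G, u ^ p = 1) (x y : G) :
    (x * y) ^ p = x ^ p * y ^ p := by
  have hNc : IsMulCommutative ↥(commutator G) :=
    ⟨⟨fun a b => Subtype.ext (commute_of_mem_commutator_class3 h3 a.2 b.2).eq⟩⟩
  have hNexp : ∀ w : ↥(commutator G), w ^ p = 1 := fun w => Subtype.ext (hexp w w.2)
  obtain ⟨u, hu⟩ : ∃ u : ↥(commutator G), (u : G) = ⁅x⁻¹, y⁆ :=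
    ⟨⟨⁅x⁻¹, y⁆, Subgroup.commutator_mem_commutator (Subgroup.mem_top _) (Subgroup.mem_top _)⟩, rfl⟩
  obtain ⟨η, hη⟩ : ∃ η : MulAut ↥(commutator G), η = MulAut.conjNormal y := ⟨_, rfl⟩
  obtain ⟨ξ, hξ⟩ : ∃ ξ : MulAut ↥(commutator G), ξ = MulAut.conjNormal x⁻¹ := ⟨_, rfl⟩
  have hηc : ∀ w : ↥(commutator G), ((η w : ↥(commutator G)) : G) = y * w * y⁻¹ := by
    intro w; rw [hη, MulAut.conjNormal_apply]
  have hξc : ∀ w : ↥(commutator G), ((ξ w : ↥(commutator G)) : G) = x⁻¹ * w * x⁻¹⁻¹ := by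
    intro w; rw [hξ, MulAut.conjNormal_apply]
  obtain ⟨t, ht⟩ : ∃ t : ↥(commutator G), t = u⁻¹ * η u := ⟨_, rfl⟩
  obtain ⟨s, hs⟩ : ∃ s : ↥(commutator G), s = u⁻¹ * ξ u := ⟨_, rfl⟩
  have hηu : η u = u * t := by rw [ht, mul_inv_cancel_left]
  have hξu : ξ u = u * s := by rw [hs, mul_inv_cancel_left]
  have htc : ∀ g : G, Commute (t : G) g := by
    intro g
    have h1 : (t : G) = ⁅(u : G)⁻¹, y⁆ := by
      rw [ht, Subgroup.coe_mul, Subgroup.coe_inv, hηc, commutatorElement_def]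
      simp only [inv_inv, mul_assoc]
    rw [h1]
    exact h3 _ (inv_mem u.2) y g
  have hsc : ∀ g : G, Commute (s : G) g := by
    intro g
    have h1 : (s : G) = ⁅(u : G)⁻¹, x⁻¹⁆ := by
      rw [hs, Subgroup.coe_mul, Subgroup.coe_inv, hξc, commutatorElement_def]
      simp only [inv_inv, mul_assoc]
    rw [h1]
    exact h3 _ (inv_mem u.2) x⁻¹ g
  have hfix : ∀ (c : ↥(commutator G)), (∀ g : G, Commute (c : G) g) →
      η c = c ∧ ξ c = c := by
    intro c hc
    constructor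
    · apply Subtype.ext
      rw [hηc, ← (hc y).eq, mul_inv_cancel_right]
    · apply Subtype.ext
      rw [hξc, ← (hc x⁻¹).eq, mul_inv_cancel_right]
  have hηt : η t = t := (hfix t htc).1
  have hξt : ξ t = t := (hfix t htc).2
  have hξs : ξ s = s := (hfix s hsc).2
  -- recurrences in the commutative group
  have hv : ∀ n : ℕ, u * η (u ^ n * t ^ (n.choose 2)) = u ^ (n + 1) * t ^ ((n + 1).choose 2) := by
    intro n
    have h2 : (n + 1).choose 2 = n + n.choose 2 := by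
      rw [Nat.choose_succ_succ' n 1, Nat.choose_one_right]
    rw [h2]
    simp only [map_mul, map_pow, hηu, hηt, mul_pow, pow_add, pow_succ]
    ac_rfl
  have hU : ∀ n : ℕ, ξ (u ^ (n.choose 2) * (t * s) ^ (n.choose 3)) * (u ^ n * t ^ (n.choose 2)) =
      u ^ ((n + 1).choose 2) * (t * s) ^ ((n + 1).choose 3) := by
    intro n
    have h2 : (n + 1).choose 2 = n + n.choose 2 := by
      rw [Nat.choose_succ_succ' n 1, Nat.choose_one_right]
    have h3' : (n + 1).choose 3 = n.choose 2 + n.choose 3 := Nat.choose_succ_succ' n 2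
    rw [h2, h3']
    simp only [map_mul, map_pow, hξu, hξt, hξs, mul_pow, pow_add]
    simp only [mul_assoc, mul_comm, mul_left_comm]
  have hv' : ∀ n : ℕ, ((u ^ (n + 1) * t ^ ((n + 1).choose 2) : ↥(commutator G)) : G) =
      ⁅x⁻¹, y⁆ * (y * ((u ^ n * t ^ (n.choose 2) : ↥(commutator G)) : G) * y⁻¹) := by
    intro n
    rw [← hv n, Subgroup.coe_mul, hηc, hu]
  have hU' : ∀ n : ℕ,
      ((u ^ ((n + 1).choose 2) * (t * s) ^ ((n + 1).choose 3) : ↥(commutator G)) : G) =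
      x⁻¹ * ((u ^ (n.choose 2) * (t * s) ^ (n.choose 3) : ↥(commutator G)) : G) * x⁻¹⁻¹ *
        ((u ^ n * t ^ (n.choose 2) : ↥(commutator G)) : G) := by
    intro n
    rw [← hU n, Subgroup.coe_mul, hξc]
  -- link to the ambient group
  have hV : ∀ n : ℕ, y ^ n * x =
      x * ((u ^ n * t ^ (n.choose 2) : ↥(commutator G)) : G) * y ^ n := by
    intro n
    induction n with
    | zero => simp
    | succ n ih =>
      rw [pow_succ', mul_assoc, ih, hv' n, commutatorElement_def]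
      group
  have hW : ∀ n : ℕ, (x * y) ^ n =
      x ^ n * ((u ^ (n.choose 2) * (t * s) ^ (n.choose 3) : ↥(commutator G)) : G) * y ^ n := by
    intro n
    induction n with
    | zero => simp
    | succ n ih =>
      have e1 : (x * y) ^ (n + 1) = x ^ n *
          ((u ^ (n.choose 2) * (t * s) ^ (n.choose 3) : ↥(commutator G)) : G) * (y ^ n * x) * y := by
        rw [pow_succ, ih]; simp only [mul_assoc]
      rw [e1, hV n, hU' n, pow_succ x n, pow_succ y n]
      group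
  have hp2 : p.choose 2 = p * (p.choose 2 / p) :=
    (Nat.mul_div_cancel' (hp.out.dvd_choose_self (by norm_num) (by omega))).symm
  have hp3' : p.choose 3 = p * (p.choose 3 / p) :=
    (Nat.mul_div_cancel' (hp.out.dvd_choose_self (by norm_num) hp3)).symm
  have hfin : (u ^ (p.choose 2) * (t * s) ^ (p.choose 3) : ↥(commutator G)) = 1 := by
    rw [hp2, hp3', pow_mul, pow_mul, hNexp, hNexp, one_pow, one_pow, one_mul]
  rw [hW p, hfin, Subgroup.coe_one, mul_one]

/-- class three, `p > 3`, generated by elements of order `p`: exponent `p` -/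
theorem pow_eq_one_of_generated_class3 (h3 : ∀ u ∈ commutator G, ∀ g k : G, Commute ⁅u, g⁆ k)
    {p : ℕ} [hp : Fact p.Prime] (hp3 : 3 < p)
    (hgen : ∀ g : G, g ∈ Subgroup.closure {x : G | x ^ p = 1}) (g : G) : g ^ p = 1 := by
  have hexp : ∀ u ∈ commutator G, u ^ p = 1 := fun u hu =>
    pow_eq_one_of_mem_commutator_class3 h3 hgen (by omega) hu
  have hg := hgen g
  induction hg using Subgroup.closure_induction with
  | mem x hx => exact hx
  | one => exact one_pow _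
  | mul x y _ _ ihx ihy => rw [mul_pow_class3 h3 hp3 hexp, ihx, ihy, one_mul]
  | inv x _ ih => rw [inv_pow, ih, inv_one]

/-- the class three condition passes to subgroups -/
theorem class3_subgroup (h3 : ∀ u ∈ commutator G, ∀ g k : G, Commute ⁅u, g⁆ k)
    (W : Subgroup G) : ∀ u ∈ commutator W, ∀ g k : W, Commute ⁅u, g⁆ k := by
  have hmap : (commutator W).map W.subtype ≤ commutator G := by
    rw [commutator_def, commutator_def, Subgroup.map_commutator]
    exact Subgroup.commutator_mono le_top le_top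
  intro u hu a b
  have hu' : (u : G) ∈ commutator G := hmap (Subgroup.mem_map_of_mem _ hu)
  have := h3 (u : G) hu' a b
  exact Subtype.ext this.eq

/-- a subgroup generated by elements of order dividing `p` is generated by them as a group -/
theorem closure_pow_eq_one_subtype (W : Subgroup G) (p : ℕ) (S : Set G)
    (hS : ∀ x ∈ S, x ^ p = 1) (hW : W = Subgroup.closure S) (w : W) :
    w ∈ Subgroup.closure {x : W | x ^ p = 1} := by
  subst hW
  have h1 : Subgroup.closure (((↑) : Subgroup.closure S → G) ⁻¹' S) ≤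
      Subgroup.closure {x : Subgroup.closure S | x ^ p = 1} := by
    apply Subgroup.closure_mono
    intro x hx
    exact Subtype.ext (hS x hx)
  rw [Subgroup.closure_closure_coe_preimage] at h1
  exact h1 (Subgroup.mem_top w)

/-- class three, `p > 3`: the elements of order dividing `p` generate a subgroup of exponent
dividing `p` -/
theorem pow_eq_one_of_mem_closure_class3 (h3 : ∀ u ∈ commutator G, ∀ g k : G, Commute ⁅u, g⁆ k)
    {p : ℕ} [hp : Fact p.Prime] (hp3 : 3 < p) (g : G)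
    (hg : g ∈ Subgroup.closure {x : G | x ^ p = 1}) : g ^ p = 1 := by
  have key := pow_eq_one_of_generated_class3 (class3_subgroup h3 (Subgroup.closure {x : G | x ^ p = 1}))
    hp3 (closure_pow_eq_one_subtype _ p {x : G | x ^ p = 1} (fun x hx => hx) rfl) ⟨g, hg⟩
  exact congrArg Subtype.val key

/-- statement S0123 in elementwise form -/
theorem mul_pow_of_small_class {p : ℕ} [hp : Fact p.Prime]
    (hcl : (p ≠ 2 ∧ ⁅commutator G, (⊤ : Subgroup G)⁆ = ⊥) ∨
      (3 < p ∧ ⁅⁅commutator G, (⊤ : Subgroup G)⁆, (⊤ : Subgroup G)⁆ = ⊥))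
    (hder : commutator G ≤ Subgroup.closure {x : G | x ^ p = 1}) (x y : G) :
    (x * y) ^ p = x ^ p * y ^ p := by
  rcases hcl with ⟨hp2, h2⟩ | ⟨hp3, h3⟩
  · have hcen := commute_commutator_of_class_two h2
    obtain ⟨t, ht, hpow⟩ := exists_mul_pow_eq x y (hcen y x) p
    have hc : ⁅y, x⁆ ^ p = 1 := by
      apply pow_eq_one_of_mem_closure_of_class_two hp2 hcen
      exact hder (Subgroup.commutator_mem_commutator (Subgroup.mem_top y) (Subgroup.mem_top x))
    have hpt : p ∣ t := by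
      have h2' : p ∣ 2 * t := by rw [ht]; exact dvd_mul_right p (p - 1)
      have hcop : Nat.Coprime p 2 := (Nat.coprime_primes hp.out Nat.prime_two).mpr hp2
      exact hcop.dvd_of_dvd_mul_left h2'
    obtain ⟨s, rfl⟩ := hpt
    rw [hpow, pow_mul, hc, one_pow, one_mul]
  · have h3' := class3_of_commutator_eq_bot h3
    apply mul_pow_class3 h3' hp3
    intro u hu
    exact pow_eq_one_of_mem_closure_class3 h3' hp3 u (hder hu)

end power

end Cfsg.Agent.Helper1
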