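import Mathlib
import Cfsg.Prelude.Def_Transfer
import Cfsg.Agent.Helper1.Extra2Iso

set_option autoImplicit false

/-!
Helper library (seat helper1): the number of elements of square `1` in an extraspecial `2`-group
of order `2 ^ (2m+1)` is `2 ^ (2m) ± 2 ^ m`, and it determines the group up to isomorphism.
-/

namespace Cfsg.Agent.Helper1

open scoped commutatorElement

universe u v

/-- splitting off a dihedral pair: the number of elements of square `1` -/
theorem es2_count_split {E : Type*} [Group E] [Finite E] {z x y : E} (es : ESData 2 E z)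
    (hxy : ⁅y, x⁆ = z) (hx2 : x ^ 2 = 1) (hy2 : y ^ 2 = 1) :
    Nat.card {e : E // e ^ 2 = 1} =
      2 * Nat.card {c : Subgroup.centralizer ({x, y} : Set E) // c ^ 2 = 1} +
        Nat.card (Subgroup.centralizer ({x, y} : Set E)) := by
  classical
  let h : Fin 4 → E := ![1, x, y, x * y]
  let Φ : Fin 4 × Subgroup.centralizer ({x, y} : Set E) → E := fun t => h t.1 * (t.2 : E)
  have hz2 : z⁻¹ = z := inv_eq_of_mul_eq_one_left (by rw [← sq]; exact es.hzp)
  have hker : ∀ g : E, pairHom es x y g = 1 → g ∈ Subgroup.centralizer ({x, y} : Set E) := by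
    intro g hg
    have h1 : g ∈ (pairHom es x y).ker := MonoidHom.mem_ker.mpr hg
    rwa [pairHom_ker] at h1
  have hpx : pairHom es x y x = (1, z) := by
    rw [pairHom_apply, commutatorElement_self, ← commutatorElement_inv, hxy, hz2]
  have hpy : pairHom es x y y = (z, 1) := by
    rw [pairHom_apply, hxy, commutatorElement_self]
  have hsurj : Function.Surjective Φ := by
    intro e
    have h1 := es.two_cases _ (es.hcomm e x)
    have h2 := es.two_cases _ (es.hcomm e y)
    have hpe : pairHom es x y e = (⁅e, x⁆, ⁅e, y⁆) := pairHom_apply es x y e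
    have key : ∀ i : Fin 4, pairHom es x y (h i) = pairHom es x y e → ∃ t, Φ t = e := by
      intro i hi
      refine ⟨(i, ⟨(h i)⁻¹ * e, hker _ (by rw [map_mul, map_inv, hi, inv_mul_cancel])⟩), ?_⟩
      show h i * ((h i)⁻¹ * e) = e
      rw [mul_inv_cancel_left]
    rcases h1 with h1 | h1 <;> rcases h2 with h2 | h2
    · exact key 0 (by rw [hpe, h1, h2]; exact map_one _)
    · exact key 1 (by rw [hpe, h1, h2]; exact hpx)
    · exact key 2 (by rw [hpe, h1, h2]; exact hpy)
    · refine key 3 ?_
      rw [hpe, h1, h2]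
      show pairHom es x y (x * y) = _
      rw [map_mul, hpx, hpy, Prod.mk_mul_mk, one_mul, mul_one]
  have hcard : Nat.card (Fin 4 × Subgroup.centralizer ({x, y} : Set E)) ≤ Nat.card E := by
    rw [Nat.card_prod, Nat.card_fin, split_card es hxy]
    omega
  have hbij : Function.Bijective Φ := hsurj.bijective_of_nat_card_le hcard
  let eΦ : Fin 4 × Subgroup.centralizer ({x, y} : Set E) ≃ E := Equiv.ofBijective Φ hbij
  have h1 : Nat.card {e : E // e ^ 2 = 1} =
      Nat.card {t : Fin 4 × Subgroup.centralizer ({x, y} : Set E) // (h t.1 * (t.2 : E)) ^ 2 = 1} :=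
    Nat.card_congr (eΦ.subtypeEquiv (fun t => Iff.rfl)).symm
  have h2 : Nat.card {t : Fin 4 × Subgroup.centralizer ({x, y} : Set E) //
        (h t.1 * (t.2 : E)) ^ 2 = 1} =
      ∑ i : Fin 4, Nat.card {c : Subgroup.centralizer ({x, y} : Set E) // (h i * (c : E)) ^ 2 = 1} :=
    (Nat.card_congr (Equiv.subtypeProdEquivSigmaSubtype
      (fun (i : Fin 4) (c : Subgroup.centralizer ({x, y} : Set E)) =>
        (h i * (c : E)) ^ 2 = 1))).trans Nat.card_sigma
  have hcoe : ∀ c : Subgroup.centralizer ({x, y} : Set E), (c : E) ^ 2 = 1 ↔ c ^ 2 = 1 := by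
    intro c
    rw [Subtype.ext_iff, Subgroup.coe_pow, Subgroup.coe_one]
  have hcx : ∀ c : Subgroup.centralizer ({x, y} : Set E), x * (c : E) = c * x := fun c =>
    Subgroup.mem_centralizer_iff.mp c.2 x (by simp)
  have hcy : ∀ c : Subgroup.centralizer ({x, y} : Set E), y * (c : E) = c * y := fun c =>
    Subgroup.mem_centralizer_iff.mp c.2 y (by simp)
  have hsq : ∀ (w c : E), w * c = c * w → (w * c) ^ 2 = w ^ 2 * c ^ 2 := by
    intro w c hwc
    rw [sq, sq, sq]
    calc w * c * (w * c) = w * (c * w) * c := by simp only [mul_assoc]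
      _ = w * (w * c) * c := by rw [hwc]
      _ = w * w * (c * c) := by simp only [mul_assoc]
  have hxyxy : (x * y) ^ 2 = z := by
    have hrel := split_rel hxy
    rw [sq]
    calc x * y * (x * y) = x * (y * x) * y := by simp only [mul_assoc]
      _ = x * (z * x * y) * y := by rw [hrel]
      _ = (x * z) * x * (y * y) := by simp only [mul_assoc]
      _ = (z * x) * x * (y * y) := by rw [es.central x]
      _ = z * (x * x) * (y * y) := by simp only [mul_assoc]
      _ = z := by rw [← sq, ← sq, hx2, hy2, mul_one, mul_one]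
  have t0 : Nat.card {c : Subgroup.centralizer ({x, y} : Set E) // (h 0 * (c : E)) ^ 2 = 1} =
      Nat.card {c : Subgroup.centralizer ({x, y} : Set E) // c ^ 2 = 1} :=
    Nat.card_congr (Equiv.subtypeEquivRight (fun c => by
      show ((1 : E) * (c : E)) ^ 2 = 1 ↔ c ^ 2 = 1
      rw [one_mul]; exact hcoe c))
  have t1 : Nat.card {c : Subgroup.centralizer ({x, y} : Set E) // (h 1 * (c : E)) ^ 2 = 1} =
      Nat.card {c : Subgroup.centralizer ({x, y} : Set E) // c ^ 2 = 1} :=
    Nat.card_congr (Equiv.subtypeEquivRight (fun c => by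
      show (x * (c : E)) ^ 2 = 1 ↔ c ^ 2 = 1
      rw [hsq x c (hcx c), hx2, one_mul]; exact hcoe c))
  have t2 : Nat.card {c : Subgroup.centralizer ({x, y} : Set E) // (h 2 * (c : E)) ^ 2 = 1} =
      Nat.card {c : Subgroup.centralizer ({x, y} : Set E) // c ^ 2 = 1} :=
    Nat.card_congr (Equiv.subtypeEquivRight (fun c => by
      show (y * (c : E)) ^ 2 = 1 ↔ c ^ 2 = 1
      rw [hsq y c (hcy c), hy2, one_mul]; exact hcoe c))
  have t3 : Nat.card {c : Subgroup.centralizer ({x, y} : Set E) // (h 3 * (c : E)) ^ 2 = 1} =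
      Nat.card {c : Subgroup.centralizer ({x, y} : Set E) // ¬ c ^ 2 = 1} :=
    Nat.card_congr (Equiv.subtypeEquivRight (fun c => by
      show (x * y * (c : E)) ^ 2 = 1 ↔ ¬ c ^ 2 = 1
      have hc : x * y * (c : E) = c * (x * y) := by
        rw [mul_assoc, hcy c, ← mul_assoc, hcx c, mul_assoc]
      rw [hsq (x * y) c hc, hxyxy, ← hcoe c]
      rcases es.two_cases _ (es.hpow (c : E)) with h5 | h5
      · rw [h5, mul_one]
        constructor
        · intro h6; exact absurd h6 es.hz1
        · intro h6; exact absurd rfl h6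
      · rw [h5, ← sq, es.hzp]
        constructor
        · intro _; exact es.hz1
        · intro _; rfl))
  have hsum : Nat.card {c : Subgroup.centralizer ({x, y} : Set E) // c ^ 2 = 1} +
      Nat.card {c : Subgroup.centralizer ({x, y} : Set E) // ¬ c ^ 2 = 1} =
      Nat.card (Subgroup.centralizer ({x, y} : Set E)) := by
    rw [← Nat.card_sum]
    exact Nat.card_congr (Equiv.sumCompl _)
  rw [h1, h2, Fin.sum_univ_four, t0, t1, t2, t3]
  omega

/-- the number of elements of square `1` in an extraspecial `2`-group -/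
theorem es2_count :
    ∀ (n : ℕ) (E : Type u) [Group E] [Finite E] (z : E), Nat.card E = n → ESData 2 E z →
      ∃ m : ℕ, n = 2 ^ (2 * m + 1) ∧
        (HasBigElemAb E → Nat.card {e : E // e ^ 2 = 1} = 2 ^ (2 * m) + 2 ^ m) ∧
        (¬ HasBigElemAb E → Nat.card {e : E // e ^ 2 = 1} = 2 ^ (2 * m) - 2 ^ m) := by
  intro n
  induction n using Nat.strong_induction_on with
  | _ n ih =>
  intro E _ _ z hn es
  by_cases hna : ∃ x : E, x ∉ Subgroup.center E
  · by_cases hb : HasBigElemAb E
    · obtain ⟨A, hA2, hA⟩ := hb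
      obtain ⟨x, hxA, hx⟩ := big_exists_noncentral es hna A hA
      have hx2 := hA2 x hxA
      obtain ⟨y, hxy, hy2⟩ := exists_invol_pair es x hx hx2
      have hCbig := big_down es hxy A hA2 hA hxA
      have hc := split_card es hxy
      have hlt : Nat.card (Subgroup.centralizer {x, y}) < n := by
        rw [← hn, hc]
        have := Nat.card_pos (α := Subgroup.centralizer {x, y})
        nlinarith
      obtain ⟨m', hm', hI, _⟩ := ih _ hlt (Subgroup.centralizer {x, y})
        ⟨z, z_mem_centralizer es _⟩ rfl (split_ES es hxy)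
      have hcount := es2_count_split es hxy hx2 hy2
      refine ⟨m' + 1, ?_, ?_, ?_⟩
      · rw [← hn, hc, hm']; ring
      · intro _
        rw [hcount, hI hCbig, hm']; ring
      · intro hnb
        exact absurd ⟨A, hA2, hA⟩ hnb
    · by_cases hinv : ∃ x : E, x ∉ Subgroup.center E ∧ x ^ 2 = 1
      · obtain ⟨x, hx, hx2⟩ := hinv
        obtain ⟨y, hxy, hy2⟩ := exists_invol_pair es x hx hx2
        have hCbig : ¬ HasBigElemAb (Subgroup.centralizer {x, y}) := fun hC =>
          hb (big_up es hxy hx2 hC)
        have hc := split_card es hxy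
        have hlt : Nat.card (Subgroup.centralizer {x, y}) < n := by
          rw [← hn, hc]
          have := Nat.card_pos (α := Subgroup.centralizer {x, y})
          nlinarith
        obtain ⟨m', hm', _, hI⟩ := ih _ hlt (Subgroup.centralizer {x, y})
          ⟨z, z_mem_centralizer es _⟩ rfl (split_ES es hxy)
        have hcount := es2_count_split es hxy hx2 hy2
        refine ⟨m' + 1, ?_, ?_, ?_⟩
        · rw [← hn, hc, hm']; ring
        · intro hb'
          exact absurd hb' hb
        · intro _
          rw [hcount, hI hCbig, hm']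
          have e1 : (2 : ℕ) ^ (2 * m') = 2 ^ m' * 2 ^ m' := by rw [← pow_add]; congr 1; ring
          have e2 : (2 : ℕ) ^ (2 * m' + 1) = 2 * (2 ^ m' * 2 ^ m') := by
            rw [pow_succ, e1]; ring
          have e3 : (2 : ℕ) ^ (2 * (m' + 1)) = 4 * (2 ^ m' * 2 ^ m') := by
            rw [show 2 * (m' + 1) = 2 * m' + 2 by ring, pow_add, e1]; ring
          have e4 : (2 : ℕ) ^ (m' + 1) = 2 * 2 ^ m' := by rw [pow_succ]; ring
          have e5 : 2 ^ m' ≤ 2 ^ m' * 2 ^ m' := Nat.le_mul_self _
          rw [e1, e2, e3, e4]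
          omega
      · push Not at hinv
        have h8 := card_ge_eight es hna
        have h8' : Nat.card E ≤ 8 := by
          by_contra hcon
          push Not at hcon
          obtain ⟨x, hx, hx2⟩ := exists_noncentral_invol es hcon
          exact hx (by
            by_contra hx'
            exact hinv x hx' hx2)
        refine ⟨1, by rw [← hn]; omega, fun hb' => absurd hb' hb, fun _ => ?_⟩
        have hiff : ∀ e : E, e ^ 2 = 1 ↔ e ∈ Subgroup.center E := by
          intro e
          constructor
          · intro he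
            by_contra hne
            exact hinv e hne he
          · intro he
            rw [es.hcen] at he
            rcases es.two_cases e he with h5 | h5
            · rw [h5, one_pow]
            · rw [h5]; exact es.hzp
        rw [Nat.card_congr (Equiv.subtypeEquivRight hiff)]
        show Nat.card (Subgroup.center E) = _
        rw [es.card_center]
        norm_num
  · push Not at hna
    have htop : Subgroup.center E = ⊤ := eq_top_iff.mpr (fun c _ => hna c)
    have hcardE : Nat.card E = 2 := by
      have h1 := es.card_center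
      rw [htop, Subgroup.card_top] at h1
      exact h1
    have hall : ∀ e : E, e ^ 2 = 1 := by
      intro e
      have he := hna e
      rw [es.hcen] at he
      rcases es.two_cases e he with h5 | h5
      · rw [h5, one_pow]
      · rw [h5]; exact es.hzp
    have hbig : HasBigElemAb E := ⟨⊤, fun a _ => hall a, by rw [Subgroup.card_top, hcardE]; norm_num⟩
    refine ⟨0, by rw [← hn, hcardE]; norm_num, fun _ => ?_, fun hb => absurd hbig hb⟩
    rw [Nat.card_congr (Equiv.subtypeUnivEquiv hall), hcardE]
    norm_num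

/-- extraspecial `2`-groups are classified by their order and their number of elements of
square `1` -/
theorem extraspecial_two_count (E : Type u) [Group E] [Finite E]
    (hE : Cfsg.IsExtraspecial 2 E) :
    (∃ m : ℕ, 1 ≤ m ∧ Nat.card E = 2 ^ (2 * m + 1) ∧
      (Nat.card {x : E // x ^ 2 = 1} = 2 ^ (2 * m) + 2 ^ m ∨
        Nat.card {x : E // x ^ 2 = 1} = 2 ^ (2 * m) - 2 ^ m)) ∧
    ∀ (E' : Type v) [Group E'] [Finite E'], Cfsg.IsExtraspecial 2 E' →
      Nat.card E' = Nat.card E →
      Nat.card {x : E' // x ^ 2 = 1} = Nat.card {x : E // x ^ 2 = 1} → Nonempty (E ≃* E') := by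
  obtain ⟨⟨z, es⟩, hna⟩ := esdata_two_of_extraspecial hE
  have h8 := card_ge_eight es hna
  obtain ⟨m, hm, hI1, hI2⟩ := es2_count _ E z rfl es
  have hm1 : 1 ≤ m := by
    by_contra hcon
    have h0 : m = 0 := by omega
    rw [h0] at hm
    norm_num at hm
    omega
  refine ⟨⟨m, hm1, hm, ?_⟩, ?_⟩
  · by_cases hb : HasBigElemAb E
    · exact Or.inl (hI1 hb)
    · exact Or.inr (hI2 hb)
  · intro E' _ _ hE' hcard hcount
    obtain ⟨⟨z', es'⟩, _⟩ := esdata_two_of_extraspecial hE'
    obtain ⟨m', hm', hI1', hI2'⟩ := es2_count _ E' z' rfl es'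
    have hmm : m' = m := by
      have h1 : (2 : ℕ) ^ (2 * m' + 1) = 2 ^ (2 * m + 1) := by rw [← hm', ← hm, hcard]
      have h2 := Nat.pow_right_injective (le_refl 2) h1
      omega
    rw [hmm] at hI1' hI2'
    have hpos : 0 < 2 ^ m := by positivity
    have hle : 2 ^ m ≤ 2 ^ (2 * m) := Nat.pow_le_pow_right (by norm_num) (by omega)
    have hb : HasBigElemAb E ↔ HasBigElemAb E' := by
      constructor
      · intro h
        by_contra h'
        have e1 := hI1 h
        have e2 := hI2' h'
        omega
      · intro h'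
        by_contra h
        have e1 := hI1' h'
        have e2 := hI2 h
        omega
    obtain ⟨φ, _⟩ := es2_iso _ E E' z z' rfl hcard es es' hna hb
    exact ⟨φ⟩

end Cfsg.Agent.Helper1
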