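import Mathlib
import Cfsg.Prelude.Def_Transfer
import Cfsg.Prelude.Def_CaseTheorems
import Cfsg.Agent.Helper1.Extra2Iso

set_option autoImplicit false

/-!
Helper library (seat helper1): the `2`-rank of an extraspecial `2`-group of order `2 ^ (2n+1)` is
`n` or `n + 1`, and it determines the group up to isomorphism.
-/

namespace Cfsg.Agent.Helper1

open scoped commutatorElement

universe u v

/-- an elementary abelian subgroup `A` of an extraspecial `2`-group satisfies `|A|² ≤ 2|E|` -/
theorem es2_elab_le :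
    ∀ (n : ℕ) (E : Type u) [Group E] [Finite E] (z : E), Nat.card E = n → ESData 2 E z →
      ∀ A : Subgroup E, (∀ a ∈ A, a ^ 2 = 1) → Nat.card A ^ 2 ≤ 2 * Nat.card E := by
  intro n
  induction n using Nat.strong_induction_on with
  | _ n ih =>
  intro E _ _ z hn es A hA2
  have hE2 : 2 ≤ Nat.card E := by
    have h1 : orderOf z ∣ Nat.card E := orderOf_dvd_natCard z
    rw [es.orderOf_z] at h1
    exact Nat.le_of_dvd Nat.card_pos h1
  by_cases hAZ : ∀ a ∈ A, a ∈ Subgroup.center E
  · have hle : A ≤ Subgroup.center E := hAZ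
    have h1 := Subgroup.card_le_of_le hle
    rw [es.card_center] at h1
    nlinarith
  · push Not at hAZ
    obtain ⟨x, hxA, hx⟩ := hAZ
    obtain ⟨y, hxy⟩ := es.exists_comm_eq x hx
    let B : Subgroup E := A ⊓ Subgroup.centralizer {y}
    have hBC : B ≤ Subgroup.centralizer {x, y} := by
      intro b hb
      rw [Subgroup.mem_centralizer_iff]
      intro t ht
      rcases ht with rfl | rfl
      · exact comm_of_sq_one_aux t b (hA2 t hxA) (hA2 b hb.1) (hA2 _ (mul_mem hxA hb.1))
      · exact Subgroup.mem_centralizer_iff.mp hb.2 t rfl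
    have hidx := index_centralizer_le_two es y
    have hrel : (Subgroup.centralizer {y}).relIndex A ≤ 2 := by
      have h1 := Subgroup.relIndex_le_of_le_right (H := Subgroup.centralizer {y})
        (le_top : A ≤ ⊤)
        (by rw [Subgroup.relIndex_top_right]; exact Subgroup.index_ne_zero_of_finite)
      rw [Subgroup.relIndex_top_right] at h1
      exact h1.trans hidx
    have hcardA : Nat.card A = Nat.card B * (Subgroup.centralizer {y}).relIndex A :=
      card_eq_card_inf_mul_relIndex A (Subgroup.centralizer {y})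
    have hAB : Nat.card A ≤ 2 * Nat.card B := by
      rw [hcardA, mul_comm 2]
      exact Nat.mul_le_mul_left _ hrel
    have hc := split_card es hxy
    have hlt : Nat.card (Subgroup.centralizer {x, y}) < n := by
      rw [← hn, hc]
      have := Nat.card_pos (α := Subgroup.centralizer {x, y})
      nlinarith
    have hIH := ih _ hlt (Subgroup.centralizer {x, y}) ⟨z, z_mem_centralizer es _⟩ rfl
      (split_ES es hxy) (B.subgroupOf (Subgroup.centralizer {x, y})) (fun a ha => by
        apply Subtype.ext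
        rw [Subgroup.coe_pow]
        exact hA2 _ (Subgroup.mem_subgroupOf.mp ha).1)
    have h1 : Nat.card (B.subgroupOf (Subgroup.centralizer {x, y})) = Nat.card B :=
      Nat.card_congr (Subgroup.subgroupOfEquivOfLe hBC).toEquiv
    rw [h1] at hIH
    have h2 : Nat.card A ^ 2 ≤ (2 * Nat.card B) ^ 2 := Nat.pow_le_pow_left hAB 2
    rw [hc]
    nlinarith

/-- an extraspecial `2`-group has an elementary abelian subgroup `A` with `|E| ≤ 2|A|²` -/
theorem es2_elab_exists :
    ∀ (n : ℕ) (E : Type u) [Group E] [Finite E] (z : E), Nat.card E = n → ESData 2 E z →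
      ∃ A : Subgroup E, (∀ a ∈ A, a ^ 2 = 1) ∧ Nat.card E ≤ 2 * Nat.card A ^ 2 := by
  intro n
  induction n using Nat.strong_induction_on with
  | _ n ih =>
  intro E _ _ z hn es
  by_cases h8 : Nat.card E ≤ 8
  · refine ⟨Subgroup.zpowers z, fun b hb => ?_, ?_⟩
    · rcases es.two_cases b hb with h | h
      · rw [h, one_pow]
      · rw [h]; exact es.hzp
    · rw [Nat.card_zpowers, es.orderOf_z]; omega
  · push Not at h8
    obtain ⟨x, hx, hx2⟩ := exists_noncentral_invol es h8
    obtain ⟨y, hxy⟩ := es.exists_comm_eq x hx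
    have hc := split_card es hxy
    have hlt : Nat.card (Subgroup.centralizer {x, y}) < n := by
      rw [← hn, hc]
      have := Nat.card_pos (α := Subgroup.centralizer {x, y})
      nlinarith
    obtain ⟨B, hB2, hB⟩ := ih _ hlt (Subgroup.centralizer {x, y}) ⟨z, z_mem_centralizer es _⟩ rfl
      (split_ES es hxy)
    let B' : Subgroup E := B.map (Subgroup.centralizer {x, y}).subtype
    have hB'2 : ∀ b ∈ B', b ^ 2 = 1 := by
      rintro _ ⟨b, hb, rfl⟩
      have h1 := congrArg Subtype.val (hB2 b hb)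
      rw [Subgroup.coe_pow] at h1
      exact h1
    have hcomm : ∀ b ∈ B', b * x = x * b := by
      rintro _ ⟨b, hb, rfl⟩
      exact (Subgroup.mem_centralizer_iff.mp b.2 x (by simp)).symm
    have hxB : x ∉ B' := by
      rintro ⟨b, hb, hbx⟩
      have h1 : (b : E) ∈ Subgroup.centralizer {x, y} := b.2
      have hbx' : (b : E) = x := hbx
      rw [hbx'] at h1
      have h2 : y * x = x * y := Subgroup.mem_centralizer_iff.mp h1 y (by simp)
      have h3 : ⁅y, x⁆ = 1 := commutatorElement_eq_one_iff_commute.mpr h2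
      exact es.hz1 (by rw [← hxy, h3])
    obtain ⟨A, hA2, hA⟩ := exp_two_adjoin B' hB'2 x hx2 hcomm hxB
    refine ⟨A, hA2, ?_⟩
    have h1 : Nat.card B' = Nat.card B :=
      Subgroup.card_map_of_injective (Subgroup.subtype_injective _)
    rw [h1] at hA
    have h2 : (2 * Nat.card B) ^ 2 ≤ Nat.card A ^ 2 := Nat.pow_le_pow_left hA 2
    rw [hc]
    nlinarith

theorem le_two_pow_of_sq_le {a m : ℕ} (h : a ^ 2 ≤ (2 ^ m) ^ 2) : a ≤ 2 ^ m := by
  by_contra hcon
  push Not at hcon
  have h1 := Nat.pow_lt_pow_left hcon (n := 2) (by norm_num)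
  omega

theorem isMulCommutative_of_exp_two {E : Type*} [Group E] (A : Subgroup E)
    (hA2 : ∀ a ∈ A, a ^ 2 = 1) : IsMulCommutative A :=
  ⟨⟨fun a b => Subtype.ext
    (comm_of_sq_one_aux a.1 b.1 (hA2 _ a.2) (hA2 _ b.2) (hA2 _ (mul_mem a.2 b.2)))⟩⟩

/-- having a large elementary abelian subgroup, in terms of the `2`-rank -/
theorem big_iff_not_prankLE {E : Type*} [Group E] [Finite E] (n : ℕ)
    (hn : Nat.card E = 2 ^ (2 * n + 1)) : HasBigElemAb E ↔ ¬ Cfsg.PRankLE 2 n E := by
  constructor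
  · rintro ⟨A, hA2, hA⟩ hrk
    have h1 := hrk A (isMulCommutative_of_exp_two A hA2) hA2
    rw [hn] at hA
    have h2 : Nat.card A ^ 2 ≤ (2 ^ n) ^ 2 := Nat.pow_le_pow_left h1 2
    have h3 : 2 * 2 ^ (2 * n + 1) = (2 ^ n) ^ 2 * 4 := by ring
    have h4 : 0 < (2 ^ n) ^ 2 := by positivity
    rw [h3] at hA
    linarith
  · intro hrk
    unfold Cfsg.PRankLE at hrk
    push Not at hrk
    obtain ⟨A, _, hA2, hA⟩ := hrk
    refine ⟨A, hA2, ?_⟩
    have hdvd : Nat.card A ∣ 2 ^ (2 * n + 1) := hn ▸ Subgroup.card_subgroup_dvd_card A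
    obtain ⟨k, hk, hkA⟩ := (Nat.dvd_prime_pow Nat.prime_two).mp hdvd
    rw [hkA] at hA ⊢
    have hkn : n + 1 ≤ k := by
      by_contra hcon
      push Not at hcon
      have h5 : 2 ^ k ≤ 2 ^ n := Nat.pow_le_pow_right (by norm_num) (by omega)
      omega
    rw [hn]
    calc 2 * 2 ^ (2 * n + 1) = (2 ^ (n + 1)) ^ 2 := by ring
      _ ≤ (2 ^ k) ^ 2 := Nat.pow_le_pow_left (Nat.pow_le_pow_right (by norm_num) hkn) 2

/-- the `2`-rank of an extraspecial `2`-group of order `2 ^ (2n+1)` is `n` or `n + 1` and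
determines the group -/
theorem extraspecial_two_rank {E : Type u} [Group E] [Finite E] (hE : Cfsg.IsExtraspecial 2 E)
    (n : ℕ) (hn : Nat.card E = 2 ^ (2 * n + 1)) :
    ((Cfsg.PRankLE 2 n E ∧ ¬ Cfsg.PRankLE 2 (n - 1) E) ∨
      (Cfsg.PRankLE 2 (n + 1) E ∧ ¬ Cfsg.PRankLE 2 n E)) ∧
    ∀ (E' : Type v) [Group E'] [Finite E'], Cfsg.IsExtraspecial 2 E' →
      Nat.card E' = Nat.card E →
      (∀ k : ℕ, Cfsg.PRankLE 2 k E ↔ Cfsg.PRankLE 2 k E') → Nonempty (E ≃* E') := by
  obtain ⟨⟨z, es⟩, hna⟩ := esdata_two_of_extraspecial hE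
  have h8 := card_ge_eight es hna
  have hn1 : 1 ≤ n := by
    by_contra hcon
    have h0 : n = 0 := by omega
    rw [h0] at hn
    norm_num at hn
    omega
  have hbig := big_iff_not_prankLE n hn
  refine ⟨?_, ?_⟩
  · by_cases hb : HasBigElemAb E
    · right
      refine ⟨?_, hbig.mp hb⟩
      intro A _ hA2
      have h1 := es2_elab_le _ E z rfl es A hA2
      rw [hn] at h1
      apply le_two_pow_of_sq_le
      calc Nat.card A ^ 2 ≤ 2 * 2 ^ (2 * n + 1) := h1
        _ = (2 ^ (n + 1)) ^ 2 := by ring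
    · left
      refine ⟨not_not.mp (fun h => hb (hbig.mpr h)), ?_⟩
      intro hrk
      obtain ⟨A, hA2, hA⟩ := es2_elab_exists _ E z rfl es
      have h1 := hrk A (isMulCommutative_of_exp_two A hA2) hA2
      rw [hn] at hA
      obtain ⟨m, rfl⟩ : ∃ m, n = m + 1 := ⟨n - 1, by omega⟩
      simp only [Nat.add_sub_cancel] at h1
      have h2 : Nat.card A ^ 2 ≤ (2 ^ m) ^ 2 := Nat.pow_le_pow_left h1 2
      have h3 : (2 : ℕ) ^ (2 * (m + 1) + 1) = 8 * (2 ^ m) ^ 2 := by ring
      have h4 : 0 < (2 ^ m) ^ 2 := by positivity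
      rw [h3] at hA
      linarith
  · intro E' _ _ hE' hcard hiff
    obtain ⟨⟨z', es'⟩, _⟩ := esdata_two_of_extraspecial hE'
    have hbig' := big_iff_not_prankLE (E := E') n (by rw [hcard, hn])
    have hb : HasBigElemAb E ↔ HasBigElemAb E' := by
      rw [hbig, hbig', hiff n]
    obtain ⟨φ, _⟩ := es2_iso _ E E' z z' rfl hcard es es' hna hb
    exact ⟨φ⟩

end Cfsg.Agent.Helper1
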