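import Mathlib
import Cfsg.Agent.S0014

set_option autoImplicit false

namespace Cfsg.Agent.Helper1

open scoped commutatorElement

/-- if all commutators `[g, x]` lie in `Z` then `|G : C_G(x)| ≤ |Z|` -/
theorem index_centralizer_singleton_le {G : Type*} [Group G] [Finite G] (Z : Subgroup G) (x : G)
    (h : ∀ g : G, g * x * g⁻¹ * x⁻¹ ∈ Z) : (Subgroup.centralizer {x}).index ≤ Nat.card Z := by
  rw [Subgroup.index_eq_card]
  have hwd : ∀ a b : G, a⁻¹ * b ∈ Subgroup.centralizer {x} ↔
      a * x * a⁻¹ * x⁻¹ = b * x * b⁻¹ * x⁻¹ := by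
    intro a b
    rw [Subgroup.mem_centralizer_iff]
    constructor
    · intro hab
      have h1 : x * (a⁻¹ * b) = a⁻¹ * b * x := hab x rfl
      have h2 : b * x * b⁻¹ = a * (a⁻¹ * b * x) * (a⁻¹ * b)⁻¹ * a⁻¹ := by group
      rw [h2, ← h1]
      group
    · intro hab y hy
      rw [Set.mem_singleton_iff] at hy
      subst hy
      have h1 : a * y * a⁻¹ = b * y * b⁻¹ := mul_right_cancel hab
      calc y * (a⁻¹ * b) = a⁻¹ * (a * y * a⁻¹) * b := by group
        _ = a⁻¹ * (b * y * b⁻¹) * b := by rw [h1]
        _ = a⁻¹ * b * y := by group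
  let f : G ⧸ Subgroup.centralizer {x} → Z := fun q =>
    Quotient.liftOn' q (fun g => (⟨g * x * g⁻¹ * x⁻¹, h g⟩ : Z)) (by
      intro a b hab
      rw [QuotientGroup.leftRel_apply] at hab
      exact Subtype.ext ((hwd a b).mp hab))
  apply Nat.card_le_card_of_injective f
  intro q₁ q₂
  refine Quotient.inductionOn₂' q₁ q₂ (fun a b hab => ?_)
  apply Quotient.sound'
  rw [QuotientGroup.leftRel_apply]
  exact (hwd a b).mpr (congrArg Subtype.val hab)

/-- a `p`-group `G` containing a subgroup `E` with `Φ(E) = Z(E)` of order `p` and `[G, E] ≤ Z(E)`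
is the product `E C_G(E)` -/
theorem sup_centralizer_eq_top_of_extraspecial {G : Type*} [Group G] [Finite G] {p : ℕ}
    [Fact p.Prime] (E : Subgroup G) (hEp : IsPGroup p E)
    (hfr : frattini E = Subgroup.center E) (hcard : Nat.card (Subgroup.center E) = p)
    (h : ⁅(⊤ : Subgroup G), E⁆ ≤ E ⊓ Subgroup.centralizer (E : Set G)) :
    E ⊔ Subgroup.centralizer (E : Set G) = ⊤ := by
  have hEn : E.Normal := by
    constructor
    intro e he g
    have h1 : ⁅g, e⁆ ∈ ⁅(⊤ : Subgroup G), E⁆ :=
      Subgroup.commutator_mem_commutator (Subgroup.mem_top g) he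
    have h2 : ⁅g, e⁆ ∈ E := (h h1).1
    have : g * e * g⁻¹ = ⁅g, e⁆ * e := by rw [commutatorElement_def]; group
    rw [this]; exact mul_mem h2 he
  have hCn : (Subgroup.centralizer (E : Set G)).Normal := Subgroup.normal_centralizer
  have hcenter : Subgroup.center E = (Subgroup.centralizer (E : Set G)).subgroupOf E := by
    ext z
    rw [Subgroup.mem_center_iff, Subgroup.mem_subgroupOf, Subgroup.mem_centralizer_iff]
    constructor
    · intro hz e he
      have := hz ⟨e, he⟩
      exact congrArg Subtype.val this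
    · intro hz e
      exact Subtype.ext (hz e e.2)
  have hZcard : Nat.card ↥(E ⊓ Subgroup.centralizer (E : Set G)) = p := by
    rw [← hcard, hcenter, ← Subgroup.inf_subgroupOf_left]
    exact (Nat.card_congr (Subgroup.subgroupOfEquivOfLe
      (inf_le_left : E ⊓ Subgroup.centralizer (E : Set G) ≤ E)).toEquiv).symm
  obtain ⟨k, hk⟩ := IsPGroup.iff_card.mp hEp
  obtain ⟨n, hn⟩ : ∃ n, (frattini E).index = p ^ n := by
    have h1 : (frattini E).index ∣ Nat.card E := Subgroup.index_dvd_card _
    rw [hk] at h1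
    obtain ⟨n, -, hn⟩ := (Nat.dvd_prime_pow Fact.out).mp h1
    exact ⟨n, hn⟩
  haveI : Fintype E := Fintype.ofFinite E
  obtain ⟨T, -, hTcard, hTgen⟩ := (Cfsg.Agent.S0014.result p n hEp hn).1 Finset.univ
    (by rw [Finset.coe_univ, Subgroup.closure_univ])
  have hE : E = Subgroup.closure ((fun t : E => (t : G)) '' (T : Set E)) := by
    have := congrArg (Subgroup.map E.subtype) hTgen
    rw [MonoidHom.map_closure, ← MonoidHom.range_eq_map, Subgroup.range_subtype] at this
    exact this.symm
  have hle : (⨅ t : T, Subgroup.centralizer {((t : E) : G)}) ≤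
      Subgroup.centralizer (E : Set G) := by
    intro c hc
    rw [Subgroup.mem_iInf] at hc
    have hEc : E ≤ Subgroup.centralizer {c} := by
      rw [hE, Subgroup.closure_le]
      rintro _ ⟨t, ht, rfl⟩
      have h1 := hc ⟨t, ht⟩
      rw [SetLike.mem_coe, Subgroup.mem_centralizer_iff]
      intro y hy
      rw [Set.mem_singleton_iff] at hy
      subst hy
      exact (Subgroup.mem_centralizer_iff.mp h1 (t : G) rfl).symm
    rw [Subgroup.mem_centralizer_iff]
    intro e he
    exact (Subgroup.mem_centralizer_iff.mp (hEc he) c rfl).symm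
  have hidxC : (Subgroup.centralizer (E : Set G)).index ≤ p ^ n := by
    calc (Subgroup.centralizer (E : Set G)).index
        ≤ (⨅ t : T, Subgroup.centralizer {((t : E) : G)}).index :=
          Nat.le_of_dvd (Nat.pos_of_ne_zero Subgroup.index_ne_zero_of_finite)
            (Subgroup.index_dvd_of_le hle)
      _ ≤ ∏ t : T, (Subgroup.centralizer {((t : E) : G)}).index := Subgroup.index_iInf_le _
      _ ≤ ∏ _t : T, p := by
          apply Finset.prod_le_prod (fun _ _ => Nat.zero_le _)
          intro t _
          rw [← hZcard]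
          apply index_centralizer_singleton_le
          intro g
          exact h (Subgroup.commutator_mem_commutator (Subgroup.mem_top g) (t : E).2)
      _ = p ^ n := by rw [Finset.prod_const, Finset.card_univ, Fintype.card_coe, hTcard]
  have h1 : (Subgroup.centralizer (E : Set G)).relIndex (E ⊔ Subgroup.centralizer (E : Set G)) *
      (E ⊔ Subgroup.centralizer (E : Set G)).index = (Subgroup.centralizer (E : Set G)).index :=
    Subgroup.relIndex_mul_index le_sup_right
  have h2 : (Subgroup.centralizer (E : Set G)).relIndex (E ⊔ Subgroup.centralizer (E : Set G)) =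
      p ^ n := by
    rw [Subgroup.relIndex_sup_right, Subgroup.relIndex, ← hcenter, ← hfr, hn]
  rw [h2] at h1
  rw [← Subgroup.index_eq_one]
  have h3 : (E ⊔ Subgroup.centralizer (E : Set G)).index ≠ 0 := Subgroup.index_ne_zero_of_finite
  have h4 : 0 < p ^ n := pow_pos (Fact.out : p.Prime).pos n
  have h5 : p ^ n * (E ⊔ Subgroup.centralizer (E : Set G)).index ≤ p ^ n * 1 := by
    rw [h1, mul_one]; exact hidxC
  have h6 := Nat.le_of_mul_le_mul_left h5 h4
  omega

end Cfsg.Agent.Helper1
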