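import Mathlib
import Cfsg.Prelude.Def_Transfer
import Cfsg.Prelude.Def_TwoFusion
import Cfsg.Agent.S0012
import Cfsg.Agent.Helper1.Grp
import Cfsg.Agent.Helper1.Fusion
import Cfsg.Agent.Helper1.Class2

/-!
Helper library (seat helper1): a Sylow `p`-subgroup that is extraspecial of order `p ^ 3` and
exponent `p ^ 2` (`p` odd) has strongly closed centre.
-/

set_option autoImplicit false

namespace Cfsg.Agent.Helper1

open scoped commutatorElement

/-- The data of a subgroup `P` of order `p ^ 3`, with centre `Z` of order `p` and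
`E = Ω₁(P)` elementary abelian of order `p ^ 2`, where `x ↦ x ^ p` is a non-trivial
homomorphism `P → Z`. -/
structure P3Data {G : Type*} [Group G] (p : ℕ) (P Z E : Subgroup G) : Prop where
  hZE : Z ≤ E
  hEP : E ≤ P
  hZc : ∀ z ∈ Z, ∀ x ∈ P, x * z = z * x
  hZcard : Nat.card Z = p
  hEcard : Nat.card E = p ^ 2
  hPcard : Nat.card P = p ^ 3
  hEexp : ∀ e ∈ E, e ^ p = 1
  hEmem : ∀ u ∈ P, u ^ p = 1 → u ∈ E
  hEcomm : ∀ a ∈ E, ∀ b ∈ E, a * b = b * a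
  hcomm : ∀ u ∈ P, ∀ v ∈ P, u * v * u⁻¹ * v⁻¹ ∈ Z
  hpowZ : ∀ u ∈ P, u ^ p ∈ Z
  hmul : ∀ u ∈ P, ∀ v ∈ P, (u * v) ^ p = u ^ p * v ^ p
  hx₀ : ∃ x ∈ P, x ^ p ≠ 1
  hcenter : ∀ u ∈ P, (∀ x ∈ P, x * u = u * x) → u ∈ Z

namespace P3Data

variable {G : Type*} [Group G] [Finite G] {p : ℕ} [Fact p.Prime] {P Z E : Subgroup G}

theorem gen (h : P3Data p P Z E) {z : G} (hz : z ∈ Z) (hz1 : z ≠ 1) :
    ∀ c ∈ Z, ∃ k : ℕ, c = z ^ k := by
  have hzp : z ^ p = 1 := h.hEexp z (h.hZE hz)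
  have hord : orderOf z = p := orderOf_eq_prime hzp hz1
  have hle : Subgroup.zpowers z ≤ Z := (Subgroup.zpowers_le).mpr hz
  have hcard : Nat.card (Subgroup.zpowers z) = p := by rw [Nat.card_zpowers, hord]
  have heq : Subgroup.zpowers z = Z :=
    Subgroup.eq_of_le_of_card_ge hle (by rw [hcard, h.hZcard])
  intro c hc
  rw [← heq] at hc
  obtain ⟨k, hk⟩ := (mem_powers_iff_mem_zpowers).mpr hc
  exact ⟨k, hk.symm⟩

theorem exists_conj (h : P3Data p P Z E) {u : G} (hu : u ∈ P) (huZ : u ∉ Z) :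
    ∀ c ∈ Z, ∃ s ∈ P, s * u * s⁻¹ = c * u := by
  have h1 : ∃ s₀ ∈ P, s₀ * u ≠ u * s₀ := by
    by_contra hcon
    push Not at hcon
    exact huZ (h.hcenter u hu hcon)
  obtain ⟨s₀, hs₀, hne⟩ := h1
  obtain ⟨c₁, hc₁⟩ : ∃ c₁, c₁ = s₀ * u * s₀⁻¹ * u⁻¹ := ⟨_, rfl⟩
  have hc1 : c₁ ∈ Z := by rw [hc₁]; exact h.hcomm s₀ hs₀ u hu
  have hc1ne : c₁ ≠ 1 := by
    intro h0
    apply hne
    have e : s₀ * u = (s₀ * u * s₀⁻¹ * u⁻¹) * (u * s₀) := by group
    rw [e, ← hc₁, h0, one_mul]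
  have e3 : s₀ * u * s₀⁻¹ = c₁ * u := by rw [hc₁]; group
  have hpow : ∀ k : ℕ, s₀ ^ k * u * (s₀ ^ k)⁻¹ = c₁ ^ k * u := by
    intro k
    induction k with
    | zero => simp
    | succ k ih =>
      have e1 : s₀ ^ (k + 1) * u * (s₀ ^ (k + 1))⁻¹ = s₀ * (s₀ ^ k * u * (s₀ ^ k)⁻¹) * s₀⁻¹ := by
        rw [pow_succ', mul_inv_rev]; simp only [mul_assoc]
      have e2 : s₀ * c₁ ^ k = c₁ ^ k * s₀ := h.hZc _ (Subgroup.pow_mem _ hc1 k) s₀ hs₀
      rw [e1, ih]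
      calc s₀ * (c₁ ^ k * u) * s₀⁻¹ = (s₀ * c₁ ^ k) * u * s₀⁻¹ := by simp only [mul_assoc]
        _ = c₁ ^ k * (s₀ * u * s₀⁻¹) := by rw [e2]; simp only [mul_assoc]
        _ = c₁ ^ (k + 1) * u := by rw [e3, pow_succ]; simp only [mul_assoc]
  intro c hc
  obtain ⟨k, hk⟩ := h.gen hc1 hc1ne c hc
  exact ⟨s₀ ^ k, Subgroup.pow_mem _ hs₀ k, by rw [hpow, hk]⟩

theorem closure_eq (h : P3Data p P Z E) {z u : G} (hz : z ∈ Z) (hz1 : z ≠ 1) (hu : u ∈ E)
    (huZ : u ∉ Z) : Subgroup.closure {z, u} = E := by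
  have hp : p.Prime := Fact.out
  have hle : Subgroup.closure {z, u} ≤ E := by
    rw [Subgroup.closure_le]
    intro x hx
    rcases hx with hx | hx
    · rw [hx]; exact h.hZE hz
    · rw [Set.mem_singleton_iff] at hx; rw [hx]; exact hu
  have hZle : Z ≤ Subgroup.closure {z, u} := by
    intro c hc
    obtain ⟨k, hk⟩ := h.gen hz hz1 c hc
    rw [hk]
    exact Subgroup.pow_mem _ (Subgroup.subset_closure (Set.mem_insert _ _)) k
  have hu' : u ∈ Subgroup.closure {z, u} :=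
    Subgroup.subset_closure (Set.mem_insert_of_mem _ rfl)
  have d1 : Nat.card Z ∣ Nat.card (Subgroup.closure {z, u}) := Subgroup.card_dvd_of_le hZle
  have d2 : Nat.card (Subgroup.closure {z, u}) ∣ Nat.card E := Subgroup.card_dvd_of_le hle
  rw [h.hZcard] at d1
  rw [h.hEcard] at d2
  obtain ⟨m, hm⟩ := d1
  rw [hm, pow_two] at d2
  have hm' : m ∣ p := Nat.dvd_of_mul_dvd_mul_left hp.pos d2
  rcases (Nat.dvd_prime hp).mp hm' with hm1 | hmp
  · exfalso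
    apply huZ
    have e : Z = Subgroup.closure {z, u} :=
      Subgroup.eq_of_le_of_card_ge hZle (by rw [hm, hm1, h.hZcard, mul_one])
    rw [e]; exact hu'
  · exact Subgroup.eq_of_le_of_card_ge hle (by rw [hm, hmp, h.hEcard, pow_two])

theorem inverts (h : P3Data p P Z E) {z u t : G} (hz : z ∈ Z) (hz1 : z ≠ 1) (hu : u ∈ E)
    (huZ : u ∉ Z) (htz : t * z * t⁻¹ = z⁻¹) (htu : t * u * t⁻¹ = u⁻¹) :
    ∀ e ∈ E, t * e * t⁻¹ = e⁻¹ := by
  intro e he
  have hcl := h.closure_eq hz hz1 hu huZ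
  have key : ∀ x ∈ Subgroup.closure {z, u}, x ∈ E ∧ t * x * t⁻¹ = x⁻¹ := by
    intro x hx
    refine Subgroup.closure_induction (p := fun x _ => x ∈ E ∧ t * x * t⁻¹ = x⁻¹) ?_ ?_ ?_ ?_ hx
    · intro y hy
      rcases hy with hy | hy
      · rw [hy]; exact ⟨h.hZE hz, htz⟩
      · rw [Set.mem_singleton_iff] at hy; rw [hy]; exact ⟨hu, htu⟩
    · exact ⟨Subgroup.one_mem _, by simp⟩
    · intro a b _ _ ha hb
      refine ⟨Subgroup.mul_mem _ ha.1 hb.1, ?_⟩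
      have e1 : t * (a * b) * t⁻¹ = (t * a * t⁻¹) * (t * b * t⁻¹) := by group
      rw [e1, ha.2, hb.2, mul_inv_rev]
      exact h.hEcomm _ (Subgroup.inv_mem _ ha.1) _ (Subgroup.inv_mem _ hb.1)
    · intro a _ ha
      refine ⟨Subgroup.inv_mem _ ha.1, ?_⟩
      have e1 : t * a⁻¹ * t⁻¹ = (t * a * t⁻¹)⁻¹ := by group
      rw [e1, ha.2]
  rw [← hcl] at he
  exact (key e he).2

theorem cent_E (h : P3Data p P Z E) {c : G} (hc : c ∈ P) (hcE : ∀ e ∈ E, c * e = e * c) :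
    c ∈ E := by
  have hp : p.Prime := Fact.out
  by_contra hcn
  obtain ⟨H, hH⟩ : ∃ H, H = Subgroup.closure (insert c (E : Set G)) := ⟨_, rfl⟩
  have hEH : E ≤ H := by
    intro e he
    rw [hH]
    exact Subgroup.subset_closure (Set.mem_insert_of_mem _ he)
  have hcH : c ∈ H := by rw [hH]; exact Subgroup.subset_closure (Set.mem_insert _ _)
  have hHP : H ≤ P := by
    rw [hH, Subgroup.closure_le]
    intro x hx
    rcases hx with hx | hx
    · rw [hx]; exact hc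
    · exact h.hEP hx
  have d1 : Nat.card E ∣ Nat.card H := Subgroup.card_dvd_of_le hEH
  have d2 : Nat.card H ∣ Nat.card P := Subgroup.card_dvd_of_le hHP
  rw [h.hEcard] at d1
  rw [h.hPcard] at d2
  obtain ⟨m, hm⟩ := d1
  have e3 : p ^ 3 = p ^ 2 * p := by ring
  rw [hm, e3] at d2
  have hm' : m ∣ p := Nat.dvd_of_mul_dvd_mul_left (pow_pos hp.pos 2) d2
  rcases (Nat.dvd_prime hp).mp hm' with hm1 | hmp
  · apply hcn
    have e : E = H := Subgroup.eq_of_le_of_card_ge hEH (by rw [hm, hm1, h.hEcard, mul_one])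
    rw [e]; exact hcH
  · have hHeq : H = P := Subgroup.eq_of_le_of_card_ge hHP (by rw [hm, hmp, h.hPcard, e3])
    apply hcn
    apply h.hZE
    apply h.hcenter c hc
    intro x hx
    rw [← hHeq, hH] at hx
    refine Subgroup.closure_induction (p := fun x _ => x * c = c * x) ?_ ?_ ?_ ?_ hx
    · intro y hy
      rcases hy with hy | hy
      · rw [hy]
      · exact (hcE y hy).symm
    · simp
    · intro a b _ _ ha hb
      rw [mul_assoc, hb, ← mul_assoc, ha, mul_assoc]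
    · intro a _ ha
      have e : a⁻¹ * c = a⁻¹ * (c * a) * a⁻¹ := by group
      rw [e, ← ha]; group

/-- Main argument: a conjugate of a central element lying in `P` is central. -/
theorem strongly_closed_aux (hp : p ≠ 2) (P : Sylow p G) {Z E : Subgroup G}
    (h : P3Data p (P : Subgroup G) Z E) (z g u : G) (hz : z ∈ Z) (hu_def : u = g * z * g⁻¹)
    (hu : u ∈ (P : Subgroup G)) (huZ : u ∉ Z) : False := by
  have hz1 : z ≠ 1 := by
    intro h1
    apply huZ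
    rw [hu_def, h1, mul_one, mul_inv_cancel]
    exact Subgroup.one_mem _
  have hzp : z ^ p = 1 := h.hEexp z (h.hZE hz)
  have hup : u ^ p = 1 := by
    rw [hu_def, conj_pow, hzp, mul_one, mul_inv_cancel]
  have huE : u ∈ E := h.hEmem u hu hup
  -- Step 2
  have hstep2 : ∃ g₂ : G, g₂ * z * g₂⁻¹ = u ∧ ∀ e ∈ E, g₂⁻¹ * e * g₂ ∈ E := by
    have hS : ((g • P : Sylow p G) : Subgroup G) ≤ Subgroup.centralizer {u} := by
      intro x hx
      have hx' : g⁻¹ * x * g ∈ P := (mem_sylow_smul_iff g x P).mp hx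
      rw [Subgroup.mem_centralizer_iff]
      intro y hy
      rw [Set.mem_singleton_iff] at hy
      rw [hy]
      have e1 := h.hZc z hz _ hx'
      have e2 : u * x = g * (z * (g⁻¹ * x * g)) * g⁻¹ := by rw [hu_def]; group
      have e3 : x * u = g * ((g⁻¹ * x * g) * z) * g⁻¹ := by rw [hu_def]; group
      rw [e2, e3, e1]
    have hR : E ≤ Subgroup.centralizer {u} := by
      intro e he
      rw [Subgroup.mem_centralizer_iff]
      intro y hy
      rw [Set.mem_singleton_iff] at hy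
      rw [hy]
      exact h.hEcomm u huE e he
    have hEp : IsPGroup p E := IsPGroup.of_card h.hEcard
    obtain ⟨c, hc, hcE⟩ :=
      exists_conj_mem_sylow_of_le (g • P) (Subgroup.centralizer {u}) E hS hR hEp
    refine ⟨c * g, ?_, ?_⟩
    · have hcu : u * c = c * u := Subgroup.mem_centralizer_iff.mp hc u rfl
      have e1 : c * g * z * (c * g)⁻¹ = c * u * c⁻¹ := by rw [hu_def]; group
      rw [e1, ← hcu]; group
    · intro e he
      have h1 : g⁻¹ * (c⁻¹ * e * c) * g ∈ P := (mem_sylow_smul_iff g _ P).mp (hcE e he)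
      have e1 : (c * g)⁻¹ * e * (c * g) = g⁻¹ * (c⁻¹ * e * c) * g := by group
      rw [e1]
      apply h.hEmem _ h1
      have e2 : g⁻¹ * (c⁻¹ * e * c) * g = (c * g)⁻¹ * e * ((c * g)⁻¹)⁻¹ := by group
      rw [e2, conj_pow, h.hEexp e he]; group
  obtain ⟨g₂, hg₂z, hg₂E⟩ := hstep2
  have hg₂N : g₂ ∈ Subgroup.normalizer (E : Set G) := mem_normalizer_of_conj_mem E g₂ hg₂E
  have hg₂E' : ∀ e ∈ E, g₂ * e * g₂⁻¹ ∈ E :=
    fun e he => (Subgroup.mem_normalizer_iff.mp hg₂N e).mp he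
  -- Step 3
  obtain ⟨v, hv_def⟩ : ∃ v, v = g₂⁻¹ * z * g₂ := ⟨_, rfl⟩
  have hvE : v ∈ E := by rw [hv_def]; exact hg₂E z (h.hZE hz)
  have e_gv : g₂ * v * g₂⁻¹ = z := by rw [hv_def]; group
  have hv1 : v ≠ 1 := by
    intro h1
    apply hz1
    rw [← e_gv, h1]; group
  have hvZ : v ∉ Z := by
    intro hvZ
    obtain ⟨k, hk⟩ := h.gen hvZ hv1 z hz
    apply huZ
    have e1 : u = (g₂ * v * g₂⁻¹) ^ k := by rw [conj_pow, ← hk, hg₂z]
    rw [e1, e_gv]
    exact Subgroup.pow_mem _ hz k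
  -- Step 4
  have hzinv : z⁻¹ ∈ Z := Subgroup.inv_mem _ hz
  obtain ⟨s₁, hs₁, hs₁u⟩ := h.exists_conj hu huZ z hz
  obtain ⟨s₂, hs₂, hs₂v⟩ := h.exists_conj (h.hEP hvE) hvZ z⁻¹ hzinv
  have hσz : s₁ * z * s₁⁻¹ = z := by
    rw [h.hZc z hz s₁ hs₁]; group
  obtain ⟨τ, hτ⟩ : ∃ τ, τ = g₂ * s₂ * g₂⁻¹ := ⟨_, rfl⟩
  have hτu : τ * u * τ⁻¹ = u := by
    have e1 : τ * u * τ⁻¹ = g₂ * (s₂ * (g₂⁻¹ * u * g₂) * s₂⁻¹) * g₂⁻¹ := by rw [hτ]; group
    have e2 : g₂⁻¹ * u * g₂ = z := by rw [← hg₂z]; group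
    rw [e1, e2, h.hZc z hz s₂ hs₂, ← hg₂z]; group
  have hτz : τ * z * τ⁻¹ = u⁻¹ * z := by
    have e1 : τ * z * τ⁻¹ = g₂ * (s₂ * v * s₂⁻¹) * g₂⁻¹ := by rw [hτ, hv_def]; group
    rw [e1, hs₂v]
    have e2 : g₂ * (z⁻¹ * v) * g₂⁻¹ = (g₂ * z * g₂⁻¹)⁻¹ * (g₂ * v * g₂⁻¹) := by group
    rw [e2, e_gv, hg₂z]
  obtain ⟨w, hw⟩ : ∃ w, w = s₁ * τ * s₁ := ⟨_, rfl⟩
  have hwz : w * z * w⁻¹ = u⁻¹ := by
    have e1 : w * z * w⁻¹ = s₁ * (τ * (s₁ * z * s₁⁻¹) * τ⁻¹) * s₁⁻¹ := by rw [hw]; group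
    rw [e1, hσz, hτz]
    have e2 : s₁ * (u⁻¹ * z) * s₁⁻¹ = (s₁ * u * s₁⁻¹)⁻¹ * (s₁ * z * s₁⁻¹) := by group
    rw [e2, hs₁u, hσz, mul_inv_rev]
    group
  have hwu : w * u * w⁻¹ = z := by
    have e1 : w * u * w⁻¹ = s₁ * (τ * (s₁ * u * s₁⁻¹) * τ⁻¹) * s₁⁻¹ := by rw [hw]; group
    rw [e1, hs₁u]
    have e2 : τ * (z * u) * τ⁻¹ = (τ * z * τ⁻¹) * (τ * u * τ⁻¹) := by group
    have e3 : u⁻¹ * z * u = z := by
      rw [mul_assoc, ← h.hZc z hz u hu, inv_mul_cancel_left]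
    rw [e2, hτz, hτu, e3, hσz]
  have htz : (w * w) * z * (w * w)⁻¹ = z⁻¹ := by
    have e1 : (w * w) * z * (w * w)⁻¹ = w * (w * z * w⁻¹) * w⁻¹ := by group
    have e2 : w * u⁻¹ * w⁻¹ = (w * u * w⁻¹)⁻¹ := by group
    rw [e1, hwz, e2, hwu]
  have htu : (w * w) * u * (w * w)⁻¹ = u⁻¹ := by
    have e1 : (w * w) * u * (w * w)⁻¹ = w * (w * u * w⁻¹) * w⁻¹ := by group
    rw [e1, hwu, hwz]
  obtain ⟨t, ht⟩ : ∃ t, t = w * w := ⟨_, rfl⟩
  rw [← ht] at htz htu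
  have hinv : ∀ e ∈ E, t * e * t⁻¹ = e⁻¹ := h.inverts hz hz1 huE huZ htz htu
  have hinv' : ∀ e ∈ E, t⁻¹ * e * t = e⁻¹ := by
    intro e he
    have h1 := hinv e⁻¹ (Subgroup.inv_mem _ he)
    rw [inv_inv] at h1
    calc t⁻¹ * e * t = t⁻¹ * (t * e⁻¹ * t⁻¹) * t := by rw [h1]
      _ = e⁻¹ := by group
  -- Step 5
  have hPE : ∀ s ∈ (P : Subgroup G), ∀ e ∈ E, s * e * s⁻¹ ∈ E := by
    intro s hs e he
    apply h.hEmem _ (Subgroup.mul_mem _ (Subgroup.mul_mem _ hs (h.hEP he)) (Subgroup.inv_mem _ hs))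
    rw [conj_pow, h.hEexp e he, mul_one, mul_inv_cancel]
  let K : Subgroup G :=
    { carrier := {k | ∃ s ∈ (P : Subgroup G), ∀ e ∈ E, k * e * k⁻¹ = s * e * s⁻¹}
      one_mem' := ⟨1, Subgroup.one_mem _, fun e _ => rfl⟩
      mul_mem' := by
        rintro a b ⟨a₁, ha₁, h₁⟩ ⟨a₂, ha₂, h₂⟩
        refine ⟨a₁ * a₂, Subgroup.mul_mem _ ha₁ ha₂, fun e he => ?_⟩
        have e1 : a * b * e * (a * b)⁻¹ = a * (b * e * b⁻¹) * a⁻¹ := by group
        rw [e1, h₂ e he, h₁ _ (hPE a₂ ha₂ e he)]; group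
      inv_mem' := by
        rintro a ⟨a₁, ha₁, h₁⟩
        refine ⟨a₁⁻¹, Subgroup.inv_mem _ ha₁, fun e he => ?_⟩
        have h0 : a₁⁻¹ * e * a₁ ∈ E := by
          have := hPE a₁⁻¹ (Subgroup.inv_mem _ ha₁) e he
          rwa [inv_inv] at this
        have h2 := h₁ (a₁⁻¹ * e * a₁) h0
        have h3 : a * (a₁⁻¹ * e * a₁) * a⁻¹ = e := by rw [h2]; group
        calc a⁻¹ * e * a⁻¹⁻¹ = a⁻¹ * (a * (a₁⁻¹ * e * a₁) * a⁻¹) * a⁻¹⁻¹ := by rw [h3]
          _ = a₁⁻¹ * e * a₁⁻¹⁻¹ := by group }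
  have hPK : (P : Subgroup G) ≤ K := fun s hs => ⟨s, hs, fun e _ => rfl⟩
  have htPK : ((t • P : Sylow p G) : Subgroup G) ≤ K := by
    intro y hy
    have hy' : t⁻¹ * y * t ∈ P := (mem_sylow_smul_iff t y P).mp hy
    obtain ⟨x, hx⟩ : ∃ x, x = t⁻¹ * y * t := ⟨_, rfl⟩
    rw [← hx] at hy'
    refine ⟨x, hy', fun e he => ?_⟩
    have e1 : y * e * y⁻¹ = t * (x * (t⁻¹ * e * t) * x⁻¹) * t⁻¹ := by rw [hx]; group
    have h2 : x * e⁻¹ * x⁻¹ ∈ E := hPE x hy' _ (Subgroup.inv_mem _ he)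
    rw [e1, hinv' e he, hinv _ h2]
    group
  obtain ⟨k, hk, hkP⟩ := exists_conj_mem_sylow_of_le P K ((t • P : Sylow p G) : Subgroup G)
    hPK htPK (t • P).isPGroup'
  obtain ⟨s, hs, hsE⟩ := K.inv_mem hk
  obtain ⟨t', ht'⟩ : ∃ t', t' = s⁻¹ * k⁻¹ * t := ⟨_, rfl⟩
  have ht'P : ∀ x ∈ (P : Subgroup G), t' * x * t'⁻¹ ∈ (P : Subgroup G) := by
    intro x hx
    have h1 : t * x * t⁻¹ ∈ ((t • P : Sylow p G) : Subgroup G) := by
      apply (mem_sylow_smul_iff t _ P).mpr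
      have e : t⁻¹ * (t * x * t⁻¹) * t = x := by group
      rw [e]; exact hx
    have h2 := hkP _ h1
    have e1 : t' * x * t'⁻¹ = s⁻¹ * (k⁻¹ * (t * x * t⁻¹) * k) * s := by rw [ht']; group
    rw [e1]
    exact Subgroup.mul_mem _ (Subgroup.mul_mem _ (Subgroup.inv_mem _ hs) h2) hs
  have ht'E : ∀ e ∈ E, t' * e * t'⁻¹ = e⁻¹ := by
    intro e he
    have e1 : t' * e * t'⁻¹ = s⁻¹ * (k⁻¹ * (t * e * t⁻¹) * k⁻¹⁻¹) * s := by rw [ht']; group
    rw [e1, hinv e he, hsE _ (Subgroup.inv_mem _ he)]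
    group
  have ht'E' : ∀ e ∈ E, t'⁻¹ * e * t' = e⁻¹ := by
    intro e he
    have h1 := ht'E e⁻¹ (Subgroup.inv_mem _ he)
    rw [inv_inv] at h1
    calc t'⁻¹ * e * t' = t'⁻¹ * (t' * e⁻¹ * t'⁻¹) * t' := by rw [h1]
      _ = e⁻¹ := by group
  -- Step 6
  obtain ⟨x, hx, hxp⟩ := h.hx₀
  obtain ⟨y, hy⟩ : ∃ y, y = t' * x * t'⁻¹ := ⟨_, rfl⟩
  have hyP : y ∈ (P : Subgroup G) := by rw [hy]; exact ht'P x hx
  have hcE : ∀ e ∈ E, (x⁻¹ * y) * e = e * (x⁻¹ * y) := by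
    intro e he
    have e1 : y * e * y⁻¹ = t' * (x * (t'⁻¹ * e * t') * x⁻¹) * t'⁻¹ := by rw [hy]; group
    have h2 : x * e⁻¹ * x⁻¹ ∈ E := hPE x hx _ (Subgroup.inv_mem _ he)
    have e2 : y * e * y⁻¹ = x * e * x⁻¹ := by
      rw [e1, ht'E' e he, ht'E _ h2]; group
    calc x⁻¹ * y * e = x⁻¹ * (y * e * y⁻¹) * y := by group
      _ = x⁻¹ * (x * e * x⁻¹) * y := by rw [e2]
      _ = e * (x⁻¹ * y) := by group
  have hc : x⁻¹ * y ∈ E := h.cent_E (Subgroup.mul_mem _ (Subgroup.inv_mem _ hx) hyP) hcE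
  have hyp : y ^ p = x ^ p := by
    calc y ^ p = (x * (x⁻¹ * y)) ^ p := by rw [mul_inv_cancel_left]
      _ = x ^ p := by rw [h.hmul x hx _ (h.hEP hc), h.hEexp _ hc, mul_one]
  have hyp2 : y ^ p = (x ^ p)⁻¹ := by
    rw [hy, conj_pow]
    exact ht'E _ (h.hZE (h.hpowZ x hx))
  have hsq : x ^ p * x ^ p = 1 := by
    have e : x ^ p = (x ^ p)⁻¹ := hyp.symm.trans hyp2
    exact mul_eq_one_iff_eq_inv.mpr e
  have hpp : (x ^ p) ^ p = 1 := h.hEexp _ (h.hZE (h.hpowZ x hx))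
  apply hxp
  have hodd : Odd p := (Fact.out : p.Prime).odd_of_ne_two hp
  obtain ⟨m, hm⟩ := hodd
  have e : (x ^ p) ^ p = x ^ p := by
    nth_rewrite 2 [hm]
    rw [pow_succ, pow_mul, pow_two, hsq, one_pow, one_mul]
  rw [← e, hpp]

end P3Data

theorem mem_map_subtype_iff' {G : Type*} [Group G] (P : Subgroup G) (H : Subgroup P) (x : G) :
    x ∈ H.map P.subtype ↔ ∃ hx : x ∈ P, (⟨x, hx⟩ : P) ∈ H := by
  constructor
  · rintro ⟨y, hy, rfl⟩
    exact ⟨y.2, hy⟩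
  · rintro ⟨hx, hy⟩
    exact ⟨⟨x, hx⟩, hy, rfl⟩

theorem p3data_of_extraspecial {G : Type*} [Group G] [Finite G] {p : ℕ} [Fact p.Prime]
    (hp : p ≠ 2) (P : Subgroup G) (hE : Cfsg.IsExtraspecial p ↥P) (hcard : Nat.card P = p ^ 3)
    (hexp : Monoid.exponent ↥P = p ^ 2) :
    ∃ E : Subgroup G, P3Data p P ((Subgroup.center ↥P).map P.subtype) E := by
  have hsp : Cfsg.IsSpecial p ↥P := hE.1
  obtain ⟨⟨hpg, hfr, hcomm⟩, hZcard⟩ := hE
  have hpr : p.Prime := Fact.out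
  have hcc : ∀ a b : P, ⁅a, b⁆ ∈ Subgroup.center P := by
    intro a b
    rw [← hcomm]
    exact Subgroup.commutator_mem_commutator (Subgroup.mem_top a) (Subgroup.mem_top b)
  have hcen : ∀ a b g : P, Commute ⁅a, b⁆ g := fun a b g =>
    (Subgroup.mem_center_iff.mp (hcc a b) g).symm
  have hcp : ∀ a b : P, ⁅a, b⁆ ^ p = 1 := fun a b =>
    pow_eq_one_of_mem_center_of_special hsp _ (hcc a b)
  have hmul : ∀ x y : P, (x * y) ^ p = x ^ p * y ^ p := by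
    intro x y
    obtain ⟨t, ht, hpow⟩ := exists_mul_pow_eq x y (hcen y x) p
    have hpt : p ∣ t := by
      have h2 : p ∣ 2 * t := by rw [ht]; exact dvd_mul_right p (p - 1)
      have hcop : Nat.Coprime p 2 := (Nat.coprime_primes Fact.out Nat.prime_two).mpr hp
      exact hcop.dvd_of_dvd_mul_left h2
    obtain ⟨s, rfl⟩ := hpt
    rw [hpow, pow_mul, hcp, one_pow, one_mul]
  let φ : P →* P := { toFun := fun x => x ^ p, map_one' := one_pow p, map_mul' := hmul }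
  have hφ : ∀ x, φ x = x ^ p := fun x => rfl
  have hrange : φ.range ≤ Subgroup.center P := by
    rintro _ ⟨x, rfl⟩
    rw [hφ, ← hfr]; exact (Cfsg.Agent.S0012.result p hpg).2 x
  have hx₀ : ∃ x : P, x ^ p ≠ 1 := by
    by_contra hcon
    push Not at hcon
    have h1 : Monoid.exponent P ∣ p := Monoid.exponent_dvd_of_forall_pow_eq_one hcon
    rw [hexp] at h1
    have h2 : p ^ 2 ≤ p := Nat.le_of_dvd hpr.pos h1
    nlinarith [hpr.two_le]
  have hrange_eq : φ.range = Subgroup.center P := by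
    obtain ⟨x, hx⟩ := hx₀
    have hne : φ.range ≠ ⊥ := by
      intro hb
      have h1 : φ x ∈ φ.range := ⟨x, rfl⟩
      rw [hb, Subgroup.mem_bot] at h1
      exact hx h1
    have hd : Nat.card φ.range ∣ Nat.card (Subgroup.center P) := Subgroup.card_dvd_of_le hrange
    rw [hZcard] at hd
    rcases (Nat.dvd_prime hpr).mp hd with h1 | hp'
    · exact absurd (Subgroup.card_eq_one.mp h1) hne
    · exact Subgroup.eq_of_le_of_card_ge hrange (by rw [hp', hZcard])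
  have hker_card : Nat.card φ.ker = p ^ 2 := by
    have h1 : φ.ker.index = Nat.card φ.range := Subgroup.index_ker φ
    have h2 := Subgroup.card_mul_index φ.ker
    rw [h1, hrange_eq, hZcard] at h2
    have hP : Nat.card (↥P) = p ^ 3 := hcard
    rw [hP] at h2
    have h3 : Nat.card φ.ker * p = p ^ 2 * p := by rw [h2]; ring
    exact Nat.eq_of_mul_eq_mul_right hpr.pos h3
  have hker_comm : ∀ a b : φ.ker, a * b = b * a :=
    IsPGroup.commutative_of_card_eq_prime_sq hker_card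
  have hmemker : ∀ x : P, x ∈ φ.ker ↔ x ^ p = 1 := fun x => by
    rw [MonoidHom.mem_ker, hφ]
  refine ⟨φ.ker.map P.subtype, ?_⟩
  exact
    { hZE := by
        apply Subgroup.map_mono
        intro z hz
        rw [hmemker]
        exact pow_eq_one_of_mem_center_of_special hsp z hz
      hEP := Subgroup.map_subtype_le _
      hZc := by
        intro z hz x hx
        obtain ⟨hzP, hz'⟩ := (mem_map_subtype_iff' P _ z).mp hz
        have h1 := Subgroup.mem_center_iff.mp hz' ⟨x, hx⟩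
        exact congrArg Subtype.val h1
      hZcard := by
        rw [Subgroup.card_map_of_injective P.subtype_injective, hZcard]
      hEcard := by
        rw [Subgroup.card_map_of_injective P.subtype_injective, hker_card]
      hPcard := hcard
      hEexp := by
        intro e he
        obtain ⟨heP, he'⟩ := (mem_map_subtype_iff' P _ e).mp he
        rw [hmemker] at he'
        exact congrArg Subtype.val he'
      hEmem := by
        intro u hu hup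
        apply (mem_map_subtype_iff' P _ u).mpr
        refine ⟨hu, ?_⟩
        rw [hmemker]
        exact Subtype.ext hup
      hEcomm := by
        intro a ha b hb
        obtain ⟨haP, ha'⟩ := (mem_map_subtype_iff' P _ a).mp ha
        obtain ⟨hbP, hb'⟩ := (mem_map_subtype_iff' P _ b).mp hb
        have h1 := hker_comm ⟨⟨a, haP⟩, ha'⟩ ⟨⟨b, hbP⟩, hb'⟩
        exact congrArg (fun x : φ.ker => ((x : P) : G)) h1
      hcomm := by
        intro u hu v hv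
        apply (mem_map_subtype_iff' P _ _).mpr
        refine ⟨Subgroup.mul_mem _ (Subgroup.mul_mem _ (Subgroup.mul_mem _ hu hv)
          (Subgroup.inv_mem _ hu)) (Subgroup.inv_mem _ hv), ?_⟩
        exact hcc ⟨u, hu⟩ ⟨v, hv⟩
      hpowZ := by
        intro u hu
        apply (mem_map_subtype_iff' P _ _).mpr
        refine ⟨Subgroup.pow_mem _ hu p, ?_⟩
        exact hrange ⟨⟨u, hu⟩, rfl⟩
      hmul := by
        intro u hu v hv
        exact congrArg Subtype.val (hmul ⟨u, hu⟩ ⟨v, hv⟩)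
      hx₀ := by
        obtain ⟨x, hx⟩ := hx₀
        exact ⟨x, x.2, fun h => hx (Subtype.ext h)⟩
      hcenter := by
        intro u hu hall
        apply (mem_map_subtype_iff' P _ _).mpr
        refine ⟨hu, ?_⟩
        rw [Subgroup.mem_center_iff]
        intro x
        exact Subtype.ext (hall x x.2) }

/-- A Sylow `p`-subgroup (`p` odd) that is extraspecial of order `p ^ 3` and exponent `p ^ 2`
has strongly closed centre. -/
theorem extraspecial_p3_strongly_closed {G : Type*} [Group G] [Finite G] {p : ℕ} [Fact p.Prime]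
    (hp : p ≠ 2) (P : Sylow p G) (hE : Cfsg.IsExtraspecial p ↥P) (hcard : Nat.card P = p ^ 3)
    (hexp : Monoid.exponent ↥P = p ^ 2) :
    Cfsg.IsStronglyClosed ((Subgroup.center ↥P).map (P : Subgroup G).subtype)
      (P : Subgroup G) := by
  obtain ⟨E, h⟩ := p3data_of_extraspecial hp (P : Subgroup G) hE hcard hexp
  refine ⟨Subgroup.map_subtype_le _, ?_⟩
  intro x hx g hg
  by_contra hcon
  exact h.strongly_closed_aux hp P x g _ hx rfl hg hcon

end Cfsg.Agent.Helper1
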