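import Mathlib
import Cfsg.Prelude.Def_Transfer
import Cfsg.Prelude.Def_CaseTheorems
import Cfsg.Agent.S0012
import Cfsg.Agent.Helper22.FrattiniSq
import Cfsg.Agent.Helper1.ExtraIso
import Cfsg.Agent.Helper1.Extra2Iso
import Cfsg.Agent.Helper1.Extra2Rank
import Cfsg.Agent.Helper1.Extra2Count

/-!
Helper library (seat helper1): explicit extraspecial `2`-groups of both types (central
extensions of an elementary abelian `2`-group by `ZMod 2` given by a bilinear cocycle).
-/

set_option autoImplicit false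

namespace Cfsg.Agent.Helper1

open scoped commutatorElement

universe u

theorem zmod2_cases (c : ZMod 2) : c = 0 ∨ c = 1 := by
  revert c; decide

theorem zmod2_add_self (c : ZMod 2) : c + c = 0 := by
  revert c; decide

/-- a group with `ESData 2` that is not abelian is extraspecial -/
theorem extraspecial_of_esdata_two {E : Type*} [Group E] [Finite E] {z : E} (es : ESData 2 E z)
    (hna : ∃ x : E, x ∉ Subgroup.center E) : Cfsg.IsExtraspecial 2 E := by
  have hcomm : commutator E = Subgroup.center E := by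
    apply le_antisymm
    · rw [commutator_eq_closure, Subgroup.closure_le]
      rintro _ ⟨a, b, rfl⟩
      rw [es.hcen]; exact es.hcomm a b
    · rw [es.hcen, Subgroup.zpowers_le]
      obtain ⟨x, hx⟩ := hna
      obtain ⟨y, hy⟩ := es.exists_comm_eq x hx
      rw [← hy]
      exact Subgroup.commutator_mem_commutator (Subgroup.mem_top y) (Subgroup.mem_top x)
  have hpg : IsPGroup 2 E := by
    intro g
    refine ⟨2, ?_⟩
    rcases es.two_cases _ (es.hpow g) with h | h
    · rw [show (2 : ℕ) ^ 2 = 2 * 2 from rfl, pow_mul, h, one_pow]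
    · rw [show (2 : ℕ) ^ 2 = 2 * 2 from rfl, pow_mul, h, es.hzp]
  refine ⟨⟨hpg, ?_, hcomm⟩, es.card_center⟩
  apply le_antisymm
  · apply Cfsg.Agent.Helper22.frattini_le_of_sq_mem
    intro x; rw [es.hcen]; exact es.hpow x
  · rw [← hcomm]; exact (Cfsg.Agent.S0012.result 2 hpg).1

theorem big_of_mulEquiv {E F : Type*} [Group E] [Group F] (e : E ≃* F) (h : HasBigElemAb E) :
    HasBigElemAb F := by
  obtain ⟨A, hA2, hA⟩ := h
  refine ⟨A.map e.toMonoidHom, ?_, ?_⟩
  · rintro _ ⟨a, ha, rfl⟩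
    show (e a) ^ 2 = 1
    rw [← map_pow, hA2 a ha, map_one]
  · have h1 : Nat.card (A.map e.toMonoidHom) = Nat.card A :=
      Subgroup.card_map_of_injective e.injective
    rw [h1, ← Nat.card_congr e.toEquiv]
    exact hA

/-- for a dihedral pair `x, y`, largeness passes to the centralizer of the pair -/
theorem big_centralizer_of_big {E : Type u} [Group E] [Finite E] {z x y : E} (es : ESData 2 E z)
    (hxy : ⁅y, x⁆ = z) (hx2 : x ^ 2 = 1) (hy2 : y ^ 2 = 1) (h : HasBigElemAb E) :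
    HasBigElemAb (Subgroup.centralizer ({x, y} : Set E)) := by
  by_contra hC
  have hsplit := es2_count_split es hxy hx2 hy2
  obtain ⟨m, hm, hbig, _⟩ := es2_count _ E z rfl es
  obtain ⟨m', hm', _, hsmall⟩ :=
    es2_count _ (Subgroup.centralizer ({x, y} : Set E)) _ rfl (split_ES es hxy)
  have hcard := split_card es hxy
  rw [hbig h, hsmall hC, hm'] at hsplit
  have hmm : m = m' + 1 := by
    rw [hm, hm'] at hcard
    have h1 : 2 ^ (2 * m + 1) = 2 ^ (2 * m' + 1 + 2) := by rw [hcard]; ring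
    have h2 := Nat.pow_right_injective (le_refl 2) h1
    omega
  subst hmm
  have e1 : 2 ^ (2 * (m' + 1)) = 4 * 2 ^ (2 * m') := by ring
  have e2 : 2 ^ (m' + 1) = 2 * 2 ^ m' := by ring
  have e3 : 2 ^ (2 * m' + 1) = 2 * 2 ^ (2 * m') := by ring
  have e4 : 2 ^ m' ≤ 2 ^ (2 * m') := Nat.pow_le_pow_right (by norm_num) (by omega)
  have e5 : 0 < 2 ^ m' := by positivity
  rw [e1, e2, e3] at hsplit
  omega

/-- a biadditive form with values in `ZMod 2` -/
structure BiForm (V : Type) [AddCommGroup V] where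
  f : V → V → ZMod 2
  add_left : ∀ u u' v, f (u + u') v = f u v + f u' v
  add_right : ∀ u v v', f u (v + v') = f u v + f u v'

namespace BiForm

variable {V : Type} [AddCommGroup V] (β : BiForm V)

theorem zero_left (v : V) : β.f 0 v = 0 := by
  have h := β.add_left 0 0 v
  rw [add_zero] at h
  exact left_eq_add.mp h

theorem zero_right (u : V) : β.f u 0 = 0 := by
  have h := β.add_right u 0 0
  rw [add_zero] at h
  exact left_eq_add.mp h

theorem neg_left (u v : V) : β.f (-u) v = -β.f u v := by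
  have h := β.add_left (-u) u v
  rw [neg_add_cancel, β.zero_left] at h
  exact eq_neg_of_add_eq_zero_left h.symm

/-- adding a hyperbolic plane -/
def ext2 : BiForm (V × (ZMod 2 × ZMod 2)) where
  f a b := β.f a.1 b.1 + a.2.1 * b.2.2
  add_left a a' b := by
    show β.f (a.1 + a'.1) b.1 + (a.2.1 + a'.2.1) * b.2.2 =
      β.f a.1 b.1 + a.2.1 * b.2.2 + (β.f a'.1 b.1 + a'.2.1 * b.2.2)
    rw [β.add_left]; ring
  add_right a b b' := by
    show β.f a.1 (b.1 + b'.1) + a.2.1 * (b.2.2 + b'.2.2) =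
      β.f a.1 b.1 + a.2.1 * b.2.2 + (β.f a.1 b'.1 + a.2.1 * b'.2.2)
    rw [β.add_right]; ring

theorem ext2_f (a b : V × (ZMod 2 × ZMod 2)) :
    β.ext2.f a b = β.f a.1 b.1 + a.2.1 * b.2.2 := rfl

end BiForm

/-- the central extension of `V` by `ZMod 2` defined by the cocycle `β` -/
@[ext] structure Heis {V : Type} [AddCommGroup V] (β : BiForm V) where
  v : V
  c : ZMod 2

namespace Heis

variable {V : Type} [AddCommGroup V] {β : BiForm V}

instance : Group (Heis β) where
  mul a b := ⟨a.v + b.v, a.c + b.c + β.f a.v b.v⟩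
  one := ⟨0, 0⟩
  inv a := ⟨-a.v, -a.c + β.f a.v a.v⟩
  mul_assoc a b c := by
    apply Heis.ext
    · show a.v + b.v + c.v = a.v + (b.v + c.v)
      exact add_assoc _ _ _
    · show a.c + b.c + β.f a.v b.v + c.c + β.f (a.v + b.v) c.v =
        a.c + (b.c + c.c + β.f b.v c.v) + β.f a.v (b.v + c.v)
      rw [β.add_left, β.add_right]; ring
  one_mul a := by
    apply Heis.ext
    · show 0 + a.v = a.v
      exact zero_add _
    · show 0 + a.c + β.f 0 a.v = a.c
      rw [β.zero_left]; ring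
  mul_one a := by
    apply Heis.ext
    · show a.v + 0 = a.v
      exact add_zero _
    · show a.c + 0 + β.f a.v 0 = a.c
      rw [β.zero_right]; ring
  inv_mul_cancel a := by
    apply Heis.ext
    · show -a.v + a.v = 0
      exact neg_add_cancel _
    · show -a.c + β.f a.v a.v + a.c + β.f (-a.v) a.v = 0
      rw [β.neg_left]; ring

theorem mul_v (a b : Heis β) : (a * b).v = a.v + b.v := rfl
theorem mul_c (a b : Heis β) : (a * b).c = a.c + b.c + β.f a.v b.v := rfl
theorem one_v : (1 : Heis β).v = 0 := rfl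
theorem one_c : (1 : Heis β).c = 0 := rfl
theorem inv_v (a : Heis β) : (a⁻¹).v = -a.v := rfl

/-- the central involution -/
def z : Heis β := ⟨0, 1⟩

/-- the projection onto `V` -/
def proj : Heis β →* Multiplicative V where
  toFun g := Multiplicative.ofAdd g.v
  map_one' := rfl
  map_mul' _ _ := rfl

theorem mem_ker_proj (g : Heis β) : g ∈ (proj (β := β)).ker ↔ g.v = 0 := by
  rw [MonoidHom.mem_ker]
  exact Iff.rfl

theorem zpowers_z : Subgroup.zpowers (z : Heis β) = (proj (β := β)).ker := by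
  apply le_antisymm
  · rw [Subgroup.zpowers_le, mem_ker_proj]; rfl
  · intro g hg
    rw [mem_ker_proj] at hg
    rcases zmod2_cases g.c with hc | hc
    · have e : g = 1 := Heis.ext hg hc
      rw [e]; exact Subgroup.one_mem _
    · have e : g = z := Heis.ext hg hc
      rw [e]; exact Subgroup.mem_zpowers _

theorem sq_v (a : Heis β) : (a ^ 2).v = a.v + a.v := by rw [pow_two]; rfl
theorem sq_c (a : Heis β) : (a ^ 2).c = β.f a.v a.v := by
  rw [pow_two, mul_c, zmod2_add_self, zero_add]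

theorem esdata (hexp : ∀ u : V, u + u = 0)
    (hnd : ∀ u : V, u ≠ 0 → ∃ w, β.f u w ≠ β.f w u) : ESData 2 (Heis β) z := by
  refine ⟨?_, ?_, ?_, ?_, ?_⟩
  · intro h
    have h1 : (z : Heis β).c = (1 : Heis β).c := congrArg Heis.c h
    exact one_ne_zero h1
  · apply Heis.ext
    · rw [sq_v]; exact add_zero _
    · rw [sq_c]; exact β.zero_left _
  · rw [zpowers_z]
    ext g
    rw [Subgroup.mem_center_iff, mem_ker_proj]
    constructor
    · intro hg
      by_contra hv
      obtain ⟨w, hw⟩ := hnd g.v hv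
      have h1 := congrArg Heis.c (hg ⟨w, 0⟩)
      rw [mul_c, mul_c] at h1
      apply hw
      have h2 : (0 : ZMod 2) + g.c + β.f w g.v = g.c + 0 + β.f g.v w := h1
      linear_combination -h2
    · intro hv h
      apply Heis.ext
      · show h.v + g.v = g.v + h.v
        exact add_comm _ _
      · show h.c + g.c + β.f h.v g.v = g.c + h.c + β.f g.v h.v
        rw [hv, β.zero_left, β.zero_right]; ring
  · intro a b
    rw [zpowers_z, mem_ker_proj]
    show a.v + b.v + -a.v + -b.v = 0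
    abel
  · intro a
    rw [zpowers_z, mem_ker_proj, sq_v]
    exact hexp a.v

/-- the underlying set -/
def equivProd : Heis β ≃ V × ZMod 2 where
  toFun g := (g.v, g.c)
  invFun t := ⟨t.1, t.2⟩
  left_inv _ := rfl
  right_inv _ := rfl

instance [Finite V] : Finite (Heis β) := Finite.of_equiv _ (equivProd (β := β)).symm

theorem card [Finite V] : Nat.card (Heis β) = 2 * Nat.card V := by
  rw [Nat.card_congr (equivProd (β := β)), Nat.card_prod, Nat.card_zmod, mul_comm]

/-- the first generator of the new dihedral factor -/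
def x0 (β : BiForm V) : Heis β.ext2 := ⟨(0, (1, 0)), 0⟩

/-- the second generator of the new dihedral factor -/
def y0 (β : BiForm V) : Heis β.ext2 := ⟨(0, (0, 1)), 0⟩

/-- the inclusion of the smaller group -/
def incl (β : BiForm V) : Heis β →* Heis β.ext2 where
  toFun g := ⟨(g.v, 0), g.c⟩
  map_one' := rfl
  map_mul' a b := by
    apply Heis.ext
    · show ((a.v + b.v, (0 : ZMod 2 × ZMod 2)) : V × (ZMod 2 × ZMod 2)) = (a.v, 0) + (b.v, 0)
      simp
    · show a.c + b.c + β.f a.v b.v = a.c + b.c + (β.f a.v b.v + (0 : ZMod 2) * 0)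
      ring

theorem x0_sq : (x0 β) ^ 2 = 1 := by
  apply Heis.ext
  · rw [sq_v]
    show ((0 : V) + 0, ((1 : ZMod 2) + 1, (0 : ZMod 2) + 0)) = (0, (0, 0))
    rw [zmod2_add_self, add_zero, add_zero]
  · rw [sq_c]
    show β.f 0 0 + (1 : ZMod 2) * 0 = 0
    rw [β.zero_left]; ring

theorem y0_sq : (y0 β) ^ 2 = 1 := by
  apply Heis.ext
  · rw [sq_v]
    show ((0 : V) + 0, ((0 : ZMod 2) + 0, (1 : ZMod 2) + 1)) = (0, (0, 0))
    rw [add_zero, add_zero, zmod2_add_self]
  · rw [sq_c]
    show β.f 0 0 + (0 : ZMod 2) * 1 = 0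
    rw [β.zero_left]; ring

theorem comm_y0_x0 : ⁅y0 β, x0 β⁆ = (z : Heis β.ext2) := by
  have h : y0 β * x0 β = z * x0 β * y0 β := by
    apply Heis.ext
    · show (((0 : V) + 0, ((0 : ZMod 2) + 1, (1 : ZMod 2) + 0)) : V × (ZMod 2 × ZMod 2)) =
        ((0 + 0 + 0, ((0 + 1 + 0, 0 + 0 + 1))))
      simp
    · show (0 : ZMod 2) + 0 + (β.f 0 0 + 0 * 0) =
        1 + 0 + (β.f 0 0 + 0 * 0) + 0 + (β.f (0 + 0) 0 + (0 + 1) * 1)
      rw [add_zero (0 : V), β.zero_left]
      have := zmod2_add_self 1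
      linear_combination -this
  rw [commutatorElement_def, h]
  group

theorem mem_centralizer_x0y0 (g : Heis β.ext2) :
    g ∈ Subgroup.centralizer ({x0 β, y0 β} : Set (Heis β.ext2)) ↔ g.v.2 = 0 := by
  rw [Subgroup.mem_centralizer_iff]
  constructor
  · intro h
    have h1 := congrArg Heis.c (h (x0 β) (by simp))
    have h2 := congrArg Heis.c (h (y0 β) (by simp))
    have h1' : (0 : ZMod 2) + g.c + (β.f 0 g.v.1 + 1 * g.v.2.2) =
        g.c + 0 + (β.f g.v.1 0 + g.v.2.1 * 0) := h1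
    have h2' : (0 : ZMod 2) + g.c + (β.f 0 g.v.1 + 0 * g.v.2.2) =
        g.c + 0 + (β.f g.v.1 0 + g.v.2.1 * 1) := h2
    rw [β.zero_left, β.zero_right] at h1' h2'
    apply Prod.ext
    · show g.v.2.1 = 0
      linear_combination -h2'
    · show g.v.2.2 = 0
      linear_combination h1'
  · intro hv t ht
    have hv1 : g.v.2.1 = 0 := by rw [hv]; rfl
    have hv2 : g.v.2.2 = 0 := by rw [hv]; rfl
    rcases ht with ht | ht
    · rw [ht]
      apply Heis.ext
      · exact add_comm _ _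
      · show (0 : ZMod 2) + g.c + (β.f 0 g.v.1 + 1 * g.v.2.2) =
          g.c + 0 + (β.f g.v.1 0 + g.v.2.1 * 0)
        rw [β.zero_left, β.zero_right, hv2]; ring
    · rw [Set.mem_singleton_iff] at ht
      rw [ht]
      apply Heis.ext
      · exact add_comm _ _
      · show (0 : ZMod 2) + g.c + (β.f 0 g.v.1 + 0 * g.v.2.2) =
          g.c + 0 + (β.f g.v.1 0 + g.v.2.1 * 1)
        rw [β.zero_left, β.zero_right, hv1]; ring

theorem cent_equiv (β : BiForm V) :
    Nonempty (Heis β ≃* Subgroup.centralizer ({x0 β, y0 β} : Set (Heis β.ext2))) := by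
  let φ : Heis β →* Subgroup.centralizer ({x0 β, y0 β} : Set (Heis β.ext2)) :=
    (incl β).codRestrict _ (fun g => (mem_centralizer_x0y0 _).mpr rfl)
  have hφ : ∀ g, ((φ g : Heis β.ext2)) = incl β g := fun g => rfl
  refine ⟨MulEquiv.ofBijective φ ⟨?_, ?_⟩⟩
  · intro a b hab
    have h1 : incl β a = incl β b := by rw [← hφ, ← hφ, hab]
    have h2 : (incl β a).v.1 = (incl β b).v.1 := by rw [h1]
    have h3 : (incl β a).c = (incl β b).c := by rw [h1]
    exact Heis.ext h2 h3
  · rintro ⟨c, hc⟩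
    have hv := (mem_centralizer_x0y0 c).mp hc
    refine ⟨⟨c.v.1, c.c⟩, ?_⟩
    apply Subtype.ext
    rw [hφ]
    apply Heis.ext
    · show ((c.v.1, (0 : ZMod 2 × ZMod 2)) : V × (ZMod 2 × ZMod 2)) = c.v
      exact Prod.ext rfl hv.symm
    · rfl

theorem ext2_exp (hexp : ∀ u : V, u + u = 0) : ∀ u : V × (ZMod 2 × ZMod 2), u + u = 0 := by
  intro u
  refine Prod.ext (hexp u.1) (Prod.ext (zmod2_add_self _) (zmod2_add_self _))

theorem ext2_nd (hnd : ∀ u : V, u ≠ 0 → ∃ w, β.f u w ≠ β.f w u) :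
    ∀ u : V × (ZMod 2 × ZMod 2), u ≠ 0 → ∃ w, β.ext2.f u w ≠ β.ext2.f w u := by
  intro u hu
  by_cases h1 : u.1 = 0
  · by_cases h2 : u.2.1 = 0
    · have h3 : u.2.2 ≠ 0 := by
        intro h3
        exact hu (Prod.ext h1 (Prod.ext h2 h3))
      have h3' : u.2.2 = 1 := (zmod2_cases _).resolve_left h3
      refine ⟨(0, (1, 0)), ?_⟩
      rw [BiForm.ext2_f, BiForm.ext2_f]
      show β.f u.1 0 + u.2.1 * 0 ≠ β.f 0 u.1 + 1 * u.2.2
      rw [β.zero_left, β.zero_right, h3', h2]
      decide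
    · have h2' : u.2.1 = 1 := (zmod2_cases _).resolve_left h2
      refine ⟨(0, (0, 1)), ?_⟩
      rw [BiForm.ext2_f, BiForm.ext2_f]
      show β.f u.1 0 + u.2.1 * 1 ≠ β.f 0 u.1 + 0 * u.2.2
      rw [β.zero_left, β.zero_right, h2']
      rcases zmod2_cases u.2.2 with h | h <;> rw [h] <;> decide
  · obtain ⟨w, hw⟩ := hnd u.1 h1
    refine ⟨(w, 0), ?_⟩
    rw [BiForm.ext2_f, BiForm.ext2_f]
    show β.f u.1 w + u.2.1 * 0 ≠ β.f w u.1 + 0 * u.2.2
    intro h
    apply hw
    linear_combination h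

theorem ext2_card [Finite V] : Nat.card (V × (ZMod 2 × ZMod 2)) = 4 * Nat.card V := by
  rw [Nat.card_prod, Nat.card_prod, Nat.card_zmod, mul_comm]

theorem ext2_big [Finite V] (hexp : ∀ u : V, u + u = 0)
    (hnd : ∀ u : V, u ≠ 0 → ∃ w, β.f u w ≠ β.f w u) :
    HasBigElemAb (Heis β.ext2) ↔ HasBigElemAb (Heis β) := by
  have es' : ESData 2 (Heis β.ext2) z := esdata (ext2_exp hexp) (ext2_nd hnd)
  obtain ⟨e⟩ := cent_equiv β
  constructor
  · intro h
    exact big_of_mulEquiv e.symm (big_centralizer_of_big es' comm_y0_x0 x0_sq y0_sq h)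
  · intro h
    exact big_up es' comm_y0_x0 x0_sq (big_of_mulEquiv e h)

end Heis

/-- the zero form on the trivial group -/
def BiForm.triv : BiForm PUnit.{1} where
  f _ _ := 0
  add_left _ _ _ := (add_zero 0).symm
  add_right _ _ _ := (add_zero 0).symm

/-- the anisotropic form on the plane -/
def BiForm.aniso : BiForm (ZMod 2 × ZMod 2) where
  f s t := s.1 * t.1 + s.1 * t.2 + s.2 * t.2
  add_left s s' t := by
    show (s.1 + s'.1) * t.1 + (s.1 + s'.1) * t.2 + (s.2 + s'.2) * t.2 =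
      s.1 * t.1 + s.1 * t.2 + s.2 * t.2 + (s'.1 * t.1 + s'.1 * t.2 + s'.2 * t.2)
    ring
  add_right s t t' := by
    show s.1 * (t.1 + t'.1) + s.1 * (t.2 + t'.2) + s.2 * (t.2 + t'.2) =
      s.1 * t.1 + s.1 * t.2 + s.2 * t.2 + (s.1 * t'.1 + s.1 * t'.2 + s.2 * t'.2)
    ring

theorem exists_heis_plus (n : ℕ) :
    ∃ (V : Type) (_ : AddCommGroup V) (_ : Finite V) (β : BiForm V),
      (∀ u : V, u + u = 0) ∧ (∀ u : V, u ≠ 0 → ∃ w, β.f u w ≠ β.f w u) ∧
      Nat.card V = 4 ^ n ∧ HasBigElemAb (Heis β) := by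
  induction n with
  | zero =>
    refine ⟨PUnit.{1}, inferInstance, inferInstance, BiForm.triv, fun u => Subsingleton.elim _ _,
      fun u hu => absurd (Subsingleton.elim u 0) hu, by simp, ?_⟩
    refine ⟨⊤, ?_, ?_⟩
    · intro a _
      apply Heis.ext
      · exact Subsingleton.elim _ _
      · rw [Heis.sq_c]; rfl
    · rw [Subgroup.card_top, Heis.card, Nat.card_unique]; norm_num
  | succ n ih =>
    obtain ⟨V, _, _, β, hexp, hnd, hcard, hbig⟩ := ih
    refine ⟨V × (ZMod 2 × ZMod 2), inferInstance, inferInstance, β.ext2, Heis.ext2_exp hexp,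
      Heis.ext2_nd hnd, ?_, (Heis.ext2_big hexp hnd).mpr hbig⟩
    rw [Heis.ext2_card, hcard, pow_succ]; ring

theorem aniso_zero : ∀ s : ZMod 2 × ZMod 2, s.1 * s.1 + s.1 * s.2 + s.2 * s.2 = 0 → s = 0 := by
  decide

theorem aniso_nd : ∀ u : ZMod 2 × ZMod 2, u ≠ 0 →
    ∃ w : ZMod 2 × ZMod 2, u.1 * w.1 + u.1 * w.2 + u.2 * w.2 ≠ w.1 * u.1 + w.1 * u.2 + w.2 * u.2 := by
  decide

theorem exists_heis_minus (n : ℕ) :
    ∃ (V : Type) (_ : AddCommGroup V) (_ : Finite V) (β : BiForm V),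
      (∀ u : V, u + u = 0) ∧ (∀ u : V, u ≠ 0 → ∃ w, β.f u w ≠ β.f w u) ∧
      Nat.card V = 4 ^ (n + 1) ∧ ¬ HasBigElemAb (Heis β) := by
  induction n with
  | zero =>
    have hexp : ∀ u : ZMod 2 × ZMod 2, u + u = 0 := fun u =>
      Prod.ext (zmod2_add_self _) (zmod2_add_self _)
    have hnd : ∀ u : ZMod 2 × ZMod 2, u ≠ 0 → ∃ w, BiForm.aniso.f u w ≠ BiForm.aniso.f w u :=
      aniso_nd
    refine ⟨ZMod 2 × ZMod 2, inferInstance, inferInstance, BiForm.aniso, hexp, hnd, ?_, ?_⟩
    · rw [Nat.card_prod, Nat.card_zmod]; norm_num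
    · rintro ⟨A, hA2, hA⟩
      have es := Heis.esdata hexp hnd
      have hle : A ≤ Subgroup.zpowers (Heis.z : Heis BiForm.aniso) := by
        intro a ha
        rw [Heis.zpowers_z, Heis.mem_ker_proj]
        have h1 := congrArg Heis.c (hA2 a ha)
        rw [Heis.sq_c] at h1
        exact aniso_zero a.v h1
      have h2 := Subgroup.card_le_of_le hle
      rw [Nat.card_zpowers, es.orderOf_z] at h2
      rw [Heis.card, Nat.card_prod, Nat.card_zmod] at hA
      have h3 : Nat.card A ^ 2 ≤ 2 ^ 2 := Nat.pow_le_pow_left h2 2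
      omega
  | succ n ih =>
    obtain ⟨V, _, _, β, hexp, hnd, hcard, hbig⟩ := ih
    refine ⟨V × (ZMod 2 × ZMod 2), inferInstance, inferInstance, β.ext2, Heis.ext2_exp hexp,
      Heis.ext2_nd hnd, ?_, fun h => hbig ((Heis.ext2_big hexp hnd).mp h)⟩
    rw [Heis.ext2_card, hcard, pow_succ]; ring

/-- extraspecial `2`-groups of order `2 ^ (2n+1)` of both `2`-ranks exist -/
theorem extraspecial_two_exists (n : ℕ) (hn : 1 ≤ n) : ∀ r ∈ ({n, n + 1} : Set ℕ),
    ∃ (E : Type) (_ : Group E) (_ : Finite E), Cfsg.IsExtraspecial 2 E ∧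
      Nat.card E = 2 ^ (2 * n + 1) ∧
      sSup {k : ℕ | ∃ A : Subgroup E, Cfsg.IsElementaryAbelian 2 A ∧ Nat.card A = 2 ^ k} = r := by
  intro r hr
  rcases hr with hr | hr
  · -- rank n: minus type
    obtain ⟨m, rfl⟩ : ∃ m, n = m + 1 := ⟨n - 1, by omega⟩
    obtain ⟨V, _, _, β, hexp, hnd, hcard, hbig⟩ := exists_heis_minus m
    have es := Heis.esdata hexp hnd
    have hE : Nat.card (Heis β) = 2 ^ (2 * (m + 1) + 1) := by
      rw [Heis.card, hcard]
      have : (4 : ℕ) = 2 ^ 2 := by norm_num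
      rw [this, ← pow_mul, pow_succ]; ring
    have hna : ∃ x : Heis β, x ∉ Subgroup.center (Heis β) := by
      apply es.exists_noncentral
      rw [hE]
      have : 2 ^ (2 * (m + 1) + 1) = 2 * 2 ^ (2 * (m + 1)) := by ring
      have h1 : 1 < 2 ^ (2 * (m + 1)) := Nat.one_lt_two_pow (by omega)
      omega
    refine ⟨Heis β, inferInstance, inferInstance, extraspecial_of_esdata_two es hna, hE, ?_⟩
    rw [hr]
    apply IsGreatest.csSup_eq
    have hrk : Cfsg.PRankLE 2 (m + 1) (Heis β) := by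
      by_contra hcon
      exact hbig ((big_iff_not_prankLE (m + 1) hE).mpr hcon)
    constructor
    · obtain ⟨A, hA2, hA⟩ := es2_elab_exists _ (Heis β) _ rfl es
      have hc := isMulCommutative_of_exp_two A hA2
      refine ⟨A, ⟨hc, hA2⟩, ?_⟩
      have h1 := hrk A hc hA2
      rw [hE] at hA
      apply le_antisymm h1
      apply (Nat.pow_le_pow_iff_left (by norm_num : (2 : ℕ) ≠ 0)).mp
      have e : 2 ^ (2 * (m + 1) + 1) = 2 * (2 ^ (m + 1)) ^ 2 := by ring
      rw [e] at hA
      omega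
    · rintro k ⟨A, ⟨hc, hA2⟩, hA⟩
      have h1 := hrk A hc hA2
      rw [hA] at h1
      exact (Nat.pow_le_pow_iff_right (by norm_num)).mp h1
  · -- rank n + 1: plus type
    rw [Set.mem_singleton_iff] at hr
    obtain ⟨V, _, _, β, hexp, hnd, hcard, hbig⟩ := exists_heis_plus n
    have es := Heis.esdata hexp hnd
    have hE : Nat.card (Heis β) = 2 ^ (2 * n + 1) := by
      rw [Heis.card, hcard]
      have : (4 : ℕ) = 2 ^ 2 := by norm_num
      rw [this, ← pow_mul, pow_succ]; ring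
    have hna : ∃ x : Heis β, x ∉ Subgroup.center (Heis β) := by
      apply es.exists_noncentral
      rw [hE]
      have : 2 ^ (2 * n + 1) = 2 * 2 ^ (2 * n) := by ring
      have h1 : 1 < 2 ^ (2 * n) := Nat.one_lt_two_pow (by omega)
      omega
    refine ⟨Heis β, inferInstance, inferInstance, extraspecial_of_esdata_two es hna, hE, ?_⟩
    rw [hr]
    apply IsGreatest.csSup_eq
    have hub : ∀ A : Subgroup (Heis β), (∀ a ∈ A, a ^ 2 = 1) → Nat.card A ≤ 2 ^ (n + 1) := by
      intro A hA2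
      have h1 := es2_elab_le _ (Heis β) _ rfl es A hA2
      rw [hE] at h1
      apply le_two_pow_of_sq_le
      calc Nat.card A ^ 2 ≤ 2 * 2 ^ (2 * n + 1) := h1
        _ = (2 ^ (n + 1)) ^ 2 := by ring
    constructor
    · obtain ⟨A, hA2, hA⟩ := hbig
      have hc := isMulCommutative_of_exp_two A hA2
      refine ⟨A, ⟨hc, hA2⟩, ?_⟩
      apply le_antisymm (hub A hA2)
      apply (Nat.pow_le_pow_iff_left (by norm_num : (2 : ℕ) ≠ 0)).mp
      rw [hE] at hA
      calc (2 ^ (n + 1)) ^ 2 = 2 * 2 ^ (2 * n + 1) := by ring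
        _ ≤ Nat.card A ^ 2 := hA
    · rintro k ⟨A, ⟨hc, hA2⟩, hA⟩
      have h1 := hub A hA2
      rw [hA] at h1
      exact (Nat.pow_le_pow_iff_right (by norm_num)).mp h1

end Cfsg.Agent.Helper1
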