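import Mathlib
import Cfsg.Agent.Helper1.QdSyl
import Cfsg.Agent.Helper17.CharSub

/-!
Helper library (seat helper1): characteristic subgroups of a Sylow `p`-subgroup of `Qd(p)`
have the same normalizer as the Sylow subgroup.
-/

set_option autoImplicit false

namespace Cfsg.Agent.Helper1

open Matrix

namespace HeisP

variable {p n : ℕ}

/-- the quarter-turn automorphism `(a, b, c) ↦ (b, -a, c - a·b)` -/
def rot : HeisP p n ≃* HeisP p n where
  toFun g := ⟨g.b, -g.a, g.c - g.a ⬝ᵥ g.b⟩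
  invFun g := ⟨-g.b, g.a, g.c - g.a ⬝ᵥ g.b⟩
  left_inv g := by
    ext1
    · simp
    · simp
    · simp [dotProduct_comm g.b g.a]
  right_inv g := by
    ext1
    · simp
    · simp
    · simp [dotProduct_comm g.b g.a]
  map_mul' x y := by
    ext1
    · simp
    · simp [add_comm]
    · simp only [mul_c, mul_a, mul_b]
      rw [add_dotProduct, dotProduct_add, dotProduct_add, dotProduct_neg, dotProduct_comm x.b y.a]
      ring

theorem rot_a (g : HeisP p n) : (rot g).a = g.b := rfl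

/-- characteristic subgroups of the Heisenberg group of order `p^3` -/
theorem char_cases (T : Subgroup (HeisP p 1)) (hc : T.Characteristic) :
    (∃ h ∈ T, h.a 0 ≠ 0) ∨ (∀ h ∈ T, h.a 0 = 0 ∧ h.b 0 = 0) := by
  by_cases hex : ∃ h ∈ T, h.a 0 ≠ 0
  · exact Or.inl hex
  · right
    push Not at hex
    intro h hh
    refine ⟨hex h hh, ?_⟩
    have h1 := hc.fixed (rot (p := p) (n := 1))
    have h2 : rot h ∈ T := by
      have : h ∈ T.comap (rot (p := p) (n := 1)).toMonoidHom := by rw [h1]; exact hh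
      exact this
    have := hex _ h2
    rwa [rot_a] at this

theorem pow_eq_z [Fact p.Prime] (h : HeisP p 1) (ha : h.a 0 = 0) (hb : h.b 0 = 0) (h1 : h ≠ 1) :
    ∃ k : ℕ, h ^ k = z := by
  have hp : p.Prime := Fact.out
  have : NeZero p := ⟨hp.ne_zero⟩
  have ha' : h.a = 0 := by ext i; fin_cases i; exact ha
  have hb' : h.b = 0 := by ext i; fin_cases i; exact hb
  have hc : h.c ≠ 0 := by
    intro hc
    apply h1
    ext1
    · exact ha'
    · exact hb'
    · exact hc
  refine ⟨(h.c)⁻¹.val, ?_⟩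
  ext1
  · rw [pow_a, ha']; simp [z]
  · rw [pow_b, hb']; simp [z]
  · rw [pow_c, ha', ZMod.natCast_zmod_val]
    simp [z, inv_mul_cancel₀ hc]

theorem exists_pow_mul (h h₂ : HeisP p 1) [Fact p.Prime] (ha : h.a 0 ≠ 0) :
    ∃ k : ℕ, ((h ^ k)⁻¹ * h₂).a 0 = 0 := by
  have hp : p.Prime := Fact.out
  have : NeZero p := ⟨hp.ne_zero⟩
  refine ⟨(h₂.a 0 / h.a 0).val, ?_⟩
  rw [mul_a, inv_a, pow_a]
  show -(((h₂.a 0 / h.a 0).val • h.a) 0) + h₂.a 0 = 0
  rw [Pi.smul_apply, nsmul_eq_mul, ZMod.natCast_zmod_val, div_mul_cancel₀ _ ha]; ring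

theorem central_of (t : HeisP p n) (ha : t.a = 0) (hb : t.b = 0) (u : HeisP p n) :
    t * u = u * t := by
  ext1
  · simp [add_comm]
  · simp [add_comm]
  · simp [ha, hb, add_comm]

end HeisP

namespace Qd

variable {p : ℕ}

/-- the quotient map onto `SL₂(p)` -/
def blockHom (p : ℕ) : ↥(Cfsg.qd p) →* Matrix.SpecialLinearGroup (Fin 2) (ZMod p) where
  toFun M := (qdEquiv p M).1
  map_one' := by
    apply Subtype.ext
    ext i j
    fin_cases i <;> fin_cases j <;> simp [qdEquiv]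
  map_mul' M N := by
    obtain ⟨h0, h1, h2⟩ := mem_qd.mp N.2
    apply Matrix.SpecialLinearGroup.ext
    intro i j
    rw [Matrix.SpecialLinearGroup.coe_mul]
    fin_cases i <;> fin_cases j <;>
      simp [qdEquiv, Matrix.mul_apply, Fin.sum_univ_three, h0, h1]

theorem blockHom_apply (M : ↥(Cfsg.qd p)) :
    ((blockHom p M : Matrix.SpecialLinearGroup (Fin 2) (ZMod p)) : Matrix (Fin 2) (Fin 2) (ZMod p)) =
      !![(M.1 : Matrix (Fin 3) (Fin 3) (ZMod p)) 0 0, (M.1 : Matrix (Fin 3) (Fin 3) (ZMod p)) 0 1;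
      (M.1 : Matrix (Fin 3) (Fin 3) (ZMod p)) 1 0, (M.1 : Matrix (Fin 3) (Fin 3) (ZMod p)) 1 1] := rfl

/-- the translation subgroup -/
def V (p : ℕ) : Subgroup ↥(Cfsg.qd p) := (blockHom p).ker

instance V_normal : (V p).Normal := MonoidHom.normal_ker _

theorem heis_coe (h : HeisP p 1) :
    ((heisHom p h : ↥(Cfsg.qd p)).1 : Matrix (Fin 3) (Fin 3) (ZMod p)) = hmat h := rfl

theorem heis_mem_V (h : HeisP p 1) : heisHom p h ∈ V p ↔ h.a 0 = 0 := by
  unfold V
  rw [MonoidHom.mem_ker]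
  constructor
  · intro hh
    have h1 := congrArg (fun X : Matrix.SpecialLinearGroup (Fin 2) (ZMod p) =>
      (X : Matrix (Fin 2) (Fin 2) (ZMod p)) 0 1) hh
    simpa [blockHom_apply, heis_coe, hmat] using h1
  · intro ha
    apply Subtype.ext
    rw [blockHom_apply, heis_coe]
    ext i j
    fin_cases i <;> fin_cases j <;> simp [hmat, ha]

theorem V_le_range : V p ≤ (heisHom p).range := by
  intro M hM
  unfold V at hM
  rw [MonoidHom.mem_ker] at hM
  have hb : ∀ i j : Fin 2, ((blockHom p M : Matrix.SpecialLinearGroup (Fin 2) (ZMod p)) :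
      Matrix (Fin 2) (Fin 2) (ZMod p)) i j = (1 : Matrix (Fin 2) (Fin 2) (ZMod p)) i j := by
    intro i j; rw [hM]; rfl
  have h00 := hb 0 0
  have h01 := hb 0 1
  have h10 := hb 1 0
  have h11 := hb 1 1
  simp [blockHom_apply] at h00 h01 h10 h11
  obtain ⟨k0, k1, k2⟩ := mem_qd.mp M.2
  refine ⟨⟨fun _ => 0, fun _ => (M.1 : Matrix (Fin 3) (Fin 3) (ZMod p)) 1 2,
    (M.1 : Matrix (Fin 3) (Fin 3) (ZMod p)) 0 2⟩, ?_⟩
  apply Subtype.ext
  apply Subtype.ext
  rw [heis_coe]
  ext i j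
  fin_cases i <;> fin_cases j <;> simp [hmat, h00, h01, h10, h11, k0, k1, k2]

/-- the centralizer of the central translation is the Heisenberg subgroup -/
theorem cent_z (M : ↥(Cfsg.qd p)) (hM : M * heisHom p HeisP.z = heisHom p HeisP.z * M) :
    M ∈ (heisHom p).range := by
  have hcomm : (M.1 : Matrix (Fin 3) (Fin 3) (ZMod p)) * hmat (HeisP.z : HeisP p 1) =
      hmat (HeisP.z : HeisP p 1) * (M.1 : Matrix (Fin 3) (Fin 3) (ZMod p)) :=
    congrArg (fun X : ↥(Cfsg.qd p) => (X.1 : Matrix (Fin 3) (Fin 3) (ZMod p))) hM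
  obtain ⟨k0, k1, k2⟩ := mem_qd.mp M.2
  have h12 := congrFun (congrFun hcomm 1) 2
  have h02 := congrFun (congrFun hcomm 0) 2
  simp [hmat, HeisP.z, Matrix.mul_apply, Fin.sum_univ_three, k0, k1, k2] at h12 h02
  have hdet : (M.1 : Matrix (Fin 3) (Fin 3) (ZMod p)).det = 1 := M.1.2
  rw [eq_mk M.2, det_mk, Matrix.det_fin_two] at hdet
  simp [h12] at hdet
  have h00 : (M.1 : Matrix (Fin 3) (Fin 3) (ZMod p)) 0 0 = 1 := by linear_combination h02
  have h11 : (M.1 : Matrix (Fin 3) (Fin 3) (ZMod p)) 1 1 = 1 := by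
    rw [h00, one_mul] at hdet; exact hdet
  refine ⟨⟨fun _ => (M.1 : Matrix (Fin 3) (Fin 3) (ZMod p)) 0 1,
    fun _ => (M.1 : Matrix (Fin 3) (Fin 3) (ZMod p)) 1 2,
    (M.1 : Matrix (Fin 3) (Fin 3) (ZMod p)) 0 2⟩, ?_⟩
  apply Subtype.ext
  apply Subtype.ext
  rw [heis_coe]
  ext i j
  fin_cases i <;> fin_cases j <;> simp [hmat, h12, h00, h11, k0, k1, k2]

/-- conjugating a Heisenberg element with `a ≠ 0` into the Heisenberg group forces `M₁₀ = 0` -/
theorem conj_entry (M : ↥(Cfsg.qd p)) (h h' : HeisP p 1)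
    (hM : M * heisHom p h = heisHom p h' * M) :
    (M.1 : Matrix (Fin 3) (Fin 3) (ZMod p)) 1 0 * h.a 0 = 0 := by
  have hcomm : (M.1 : Matrix (Fin 3) (Fin 3) (ZMod p)) * hmat h =
      hmat h' * (M.1 : Matrix (Fin 3) (Fin 3) (ZMod p)) :=
    congrArg (fun X : ↥(Cfsg.qd p) => (X.1 : Matrix (Fin 3) (Fin 3) (ZMod p))) hM
  obtain ⟨k0, k1, k2⟩ := mem_qd.mp M.2
  have h11 := congrFun (congrFun hcomm 1) 1
  simp [hmat, Matrix.mul_apply, Fin.sum_univ_three, k0, k1, k2] at h11
  exact h11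

/-- an element with `M₁₀ = 1` -/
def w (p : ℕ) : ↥(Cfsg.qd p) :=
  (qdEquiv p).symm (⟨!![0, -1; 1, 0], by simp [Matrix.det_fin_two]⟩, (0, 0))

theorem w_entry : ((w p).1 : Matrix (Fin 3) (Fin 3) (ZMod p)) 1 0 = 1 := by
  simp [w, qdEquiv, mk]

theorem range_not_normal [Fact p.Prime] : ¬ ((heisHom p).range).Normal := by
  have hp : p.Prime := Fact.out
  have : Fact (1 < p) := ⟨hp.one_lt⟩
  intro hN
  have h1 := hN.conj_mem (heisHom p ⟨fun _ => 1, 0, 0⟩) ⟨_, rfl⟩ (w p)
  obtain ⟨h', hh'⟩ := h1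
  have h2 : w p * heisHom p ⟨fun _ => 1, 0, 0⟩ = heisHom p h' * w p := by
    rw [hh']; group
  have h3 := conj_entry (w p) _ h' h2
  rw [w_entry] at h3
  simp at h3

/-- coordinates on an arbitrary Sylow `p`-subgroup of `Qd(p)` -/
theorem coord [Fact p.Prime] (S : Sylow p ↥(Cfsg.qd p)) :
    ∃ e : HeisP p 1 ≃* ↥(S : Subgroup ↥(Cfsg.qd p)),
      (∀ h, ((e h : ↥(S : Subgroup ↥(Cfsg.qd p))) : ↥(Cfsg.qd p)) ∈ V p ↔ h.a 0 = 0) ∧
      (∀ M : ↥(Cfsg.qd p), M * ((e HeisP.z : ↥(S : Subgroup ↥(Cfsg.qd p))) : ↥(Cfsg.qd p)) =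
        ((e HeisP.z : ↥(S : Subgroup ↥(Cfsg.qd p))) : ↥(Cfsg.qd p)) * M →
        M ∈ (S : Subgroup ↥(Cfsg.qd p))) := by
  have hp : p.Prime := Fact.out
  have : NeZero p := ⟨hp.ne_zero⟩
  have : Finite ↥(Cfsg.qd p) := inferInstance
  obtain ⟨g, rfl⟩ := MulAction.exists_smul_eq ↥(Cfsg.qd p) (heisSylow p) S
  let e1 : HeisP p 1 ≃* ↥((heisSylow p : Sylow p ↥(Cfsg.qd p)) : Subgroup ↥(Cfsg.qd p)) :=
    MonoidHom.ofInjective heisHom_injective
  let e := e1.trans ((heisSylow p).equivSMul g)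
  have hcoe : ∀ h, ((e h : ↥((g • heisSylow p : Sylow p ↥(Cfsg.qd p)) : Subgroup ↥(Cfsg.qd p))) :
      ↥(Cfsg.qd p)) = g * heisHom p h * g⁻¹ := fun h => rfl
  refine ⟨e, ?_, ?_⟩
  · intro h
    rw [hcoe, ← heis_mem_V]
    constructor
    · intro hh
      have := (V_normal (p := p)).conj_mem _ hh g⁻¹
      have e2 : g⁻¹ * (g * heisHom p h * g⁻¹) * g⁻¹⁻¹ = heisHom p h := by group
      rwa [e2] at this
    · intro hh
      exact (V_normal (p := p)).conj_mem _ hh g
  · intro M hM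
    rw [hcoe] at hM
    have h1 : (g⁻¹ * M * g) * heisHom p HeisP.z = heisHom p HeisP.z * (g⁻¹ * M * g) := by
      have e2 : (g⁻¹ * M * g) * heisHom p HeisP.z = g⁻¹ * (M * (g * heisHom p HeisP.z * g⁻¹)) * g := by
        group
      rw [e2, hM]; group
    have h2 := cent_z _ h1
    rw [Sylow.coe_subgroup_smul, Subgroup.mem_pointwise_smul_iff_inv_smul_mem]
    have e3 : (MulAut.conj g)⁻¹ • M = g⁻¹ * M * g := by
      rw [← map_inv, MulAut.smul_def, MulAut.conj_apply, inv_inv]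
    rw [e3]
    exact h2

/-- main theorem: characteristic subgroups of a Sylow `p`-subgroup of `Qd(p)` -/
theorem char_normalizer {p : ℕ} [Fact p.Prime] (S : Sylow p ↥(Cfsg.qd p))
    (T : Subgroup ↥(S : Subgroup ↥(Cfsg.qd p))) (hT : T ≠ ⊥) (hTc : T.Characteristic) :
    Subgroup.normalizer ((T.map (S : Subgroup ↥(Cfsg.qd p)).subtype : Subgroup ↥(Cfsg.qd p)) :
        Set ↥(Cfsg.qd p)) =
      Subgroup.normalizer ((S : Subgroup ↥(Cfsg.qd p)) : Set ↥(Cfsg.qd p)) ∧
    Subgroup.normalizer ((S : Subgroup ↥(Cfsg.qd p)) : Set ↥(Cfsg.qd p)) ≠ ⊤ := by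
  have hp : p.Prime := Fact.out
  have : NeZero p := ⟨hp.ne_zero⟩
  have : Finite ↥(Cfsg.qd p) := inferInstance
  constructor
  · apply le_antisymm
    · obtain ⟨e, he1, he2⟩ := coord S
      -- V ≤ S
      have hVS : V p ≤ (S : Subgroup ↥(Cfsg.qd p)) := by
        have hVp : IsPGroup p (V p) := by
          have h1 : IsPGroup p ((heisSylow p : Sylow p ↥(Cfsg.qd p)) : Subgroup ↥(Cfsg.qd p)) :=
            (heisSylow p).isPGroup'
          exact h1.to_le V_le_range
        exact hVp.le_sylow_of_normal S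
      -- the pulled-back characteristic subgroup
      let T' : Subgroup (HeisP p 1) := T.comap e.toMonoidHom
      have hT'c : T'.Characteristic := by
        rw [Subgroup.characteristic_iff_comap_eq]
        intro ψ
        ext x
        have h1 := hTc.fixed (e.symm.trans (ψ.trans e))
        constructor
        · intro hx
          have h2 : e x ∈ T.comap (e.symm.trans (ψ.trans e)).toMonoidHom := by
            show e (ψ (e.symm (e x))) ∈ T
            rw [e.symm_apply_apply]; exact hx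
          rw [h1] at h2; exact h2
        · intro hx
          have h2 : e x ∈ T.comap (e.symm.trans (ψ.trans e)).toMonoidHom := by rw [h1]; exact hx
          have h3 : e (ψ (e.symm (e x))) ∈ T := h2
          rw [e.symm_apply_apply] at h3; exact h3
      -- key: every element of N(T_G) conjugates S into S (in the inverse direction)
      have key : ∀ M : ↥(Cfsg.qd p), M ∈ Subgroup.normalizer
          ((T.map (S : Subgroup ↥(Cfsg.qd p)).subtype : Subgroup ↥(Cfsg.qd p)) : Set ↥(Cfsg.qd p)) →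
          ∀ s ∈ (S : Subgroup ↥(Cfsg.qd p)), M⁻¹ * s * M ∈ (S : Subgroup ↥(Cfsg.qd p)) := by
        intro M hM s hs
        rw [Subgroup.mem_normalizer_iff] at hM
        rcases HeisP.char_cases T' hT'c with ⟨h, hh, ha⟩ | hall
        · -- X = e h ∈ T_G, not in V
          have hX : ((e h : ↥(S : Subgroup ↥(Cfsg.qd p))) : ↥(Cfsg.qd p)) ∈
              T.map (S : Subgroup ↥(Cfsg.qd p)).subtype := ⟨e h, hh, rfl⟩
          obtain ⟨y, hy, hyY⟩ := (hM _).mp hX
          -- y ∈ T, y = e h'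
          obtain ⟨h', rfl⟩ := e.surjective y
          have ha' : h'.a 0 ≠ 0 := by
            intro h0
            have h1 := (he1 h').mpr h0
            have hyY' : ((e h' : ↥(S : Subgroup ↥(Cfsg.qd p))) : ↥(Cfsg.qd p)) =
                M * ((e h : ↥(S : Subgroup ↥(Cfsg.qd p))) : ↥(Cfsg.qd p)) * M⁻¹ := hyY
            rw [hyY'] at h1
            have h2 := (V_normal (p := p)).conj_mem _ h1 M⁻¹
            have e2 : M⁻¹ * (M * ((e h : ↥(S : Subgroup ↥(Cfsg.qd p))) : ↥(Cfsg.qd p)) * M⁻¹) * M⁻¹⁻¹ =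
                ((e h : ↥(S : Subgroup ↥(Cfsg.qd p))) : ↥(Cfsg.qd p)) := by group
            rw [e2] at h2
            exact ha ((he1 h).mp h2)
          -- decompose s
          obtain ⟨h₂, hh₂⟩ := e.surjective ⟨s, hs⟩
          have hs' : s = ((e h₂ : ↥(S : Subgroup ↥(Cfsg.qd p))) : ↥(Cfsg.qd p)) := by rw [hh₂]
          obtain ⟨k, hk⟩ := HeisP.exists_pow_mul h' h₂ ha'
          have hdec : h₂ = h' ^ k * ((h' ^ k)⁻¹ * h₂) := by group
          have hv : ((e ((h' ^ k)⁻¹ * h₂) : ↥(S : Subgroup ↥(Cfsg.qd p))) : ↥(Cfsg.qd p)) ∈ V p :=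
            (he1 _).mpr hk
          have hyY' : ((e h' : ↥(S : Subgroup ↥(Cfsg.qd p))) : ↥(Cfsg.qd p)) =
              M * ((e h : ↥(S : Subgroup ↥(Cfsg.qd p))) : ↥(Cfsg.qd p)) * M⁻¹ := hyY
          have hs2 : s =
              (M * ((e h : ↥(S : Subgroup ↥(Cfsg.qd p))) : ↥(Cfsg.qd p)) * M⁻¹) ^ k *
                ((e ((h' ^ k)⁻¹ * h₂) : ↥(S : Subgroup ↥(Cfsg.qd p))) : ↥(Cfsg.qd p)) := by
            rw [hs']
            conv_lhs => rw [hdec]
            rw [map_mul, map_pow, Subgroup.coe_mul, Subgroup.coe_pow, hyY']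
          rw [hs2, conj_pow]
          have hXk : ((e h : ↥(S : Subgroup ↥(Cfsg.qd p))) : ↥(Cfsg.qd p)) ^ k ∈
              (S : Subgroup ↥(Cfsg.qd p)) := pow_mem (e h).2 k
          generalize ((e h : ↥(S : Subgroup ↥(Cfsg.qd p))) : ↥(Cfsg.qd p)) ^ k = Xk at hXk ⊢
          have e3 : M⁻¹ * (M * Xk * M⁻¹ *
              ((e ((h' ^ k)⁻¹ * h₂) : ↥(S : Subgroup ↥(Cfsg.qd p))) : ↥(Cfsg.qd p))) * M =
              Xk *
              (M⁻¹ * ((e ((h' ^ k)⁻¹ * h₂) : ↥(S : Subgroup ↥(Cfsg.qd p))) : ↥(Cfsg.qd p)) * M⁻¹⁻¹) := by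
            group
          rw [e3]
          exact mul_mem hXk (hVS ((V_normal (p := p)).conj_mem _ hv M⁻¹))
        · -- T ≤ centre
          obtain ⟨t, ht, ht1⟩ : ∃ t ∈ T', t ≠ 1 := by
            by_contra hcon
            push Not at hcon
            apply hT
            rw [eq_bot_iff]
            intro x hx
            have h1 : e.symm x ∈ T' := by
              show e (e.symm x) ∈ T
              rw [e.apply_symm_apply]; exact hx
            have h2 := hcon _ h1
            rw [Subgroup.mem_bot]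
            have := congrArg e h2
            rwa [e.apply_symm_apply, map_one] at this
          have hX : ((e t : ↥(S : Subgroup ↥(Cfsg.qd p))) : ↥(Cfsg.qd p)) ∈
              T.map (S : Subgroup ↥(Cfsg.qd p)).subtype := ⟨e t, ht, rfl⟩
          have hX' : M⁻¹ * ((e t : ↥(S : Subgroup ↥(Cfsg.qd p))) : ↥(Cfsg.qd p)) * M ∈
              T.map (S : Subgroup ↥(Cfsg.qd p)).subtype := by
            apply (hM _).mpr
            have e2 : M * (M⁻¹ * ((e t : ↥(S : Subgroup ↥(Cfsg.qd p))) : ↥(Cfsg.qd p)) * M) * M⁻¹ =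
                ((e t : ↥(S : Subgroup ↥(Cfsg.qd p))) : ↥(Cfsg.qd p)) := by group
            rw [e2]; exact hX
          obtain ⟨y, hy, hyY⟩ := hX'
          obtain ⟨t', rfl⟩ := e.surjective y
          have hyY' : ((e t' : ↥(S : Subgroup ↥(Cfsg.qd p))) : ↥(Cfsg.qd p)) =
              M⁻¹ * ((e t : ↥(S : Subgroup ↥(Cfsg.qd p))) : ↥(Cfsg.qd p)) * M := hyY
          have ht'1 : t' ≠ 1 := by
            intro h1
            rw [h1, map_one, Subgroup.coe_one] at hyY'
            have h2 : ((e t : ↥(S : Subgroup ↥(Cfsg.qd p))) : ↥(Cfsg.qd p)) = 1 := by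
              have : ((e t : ↥(S : Subgroup ↥(Cfsg.qd p))) : ↥(Cfsg.qd p)) =
                  M * (M⁻¹ * ((e t : ↥(S : Subgroup ↥(Cfsg.qd p))) : ↥(Cfsg.qd p)) * M) * M⁻¹ := by group
              rw [this, ← hyY']; group
            apply ht1
            have h3 : e t = 1 := Subtype.ext h2
            exact (MulEquiv.map_eq_one_iff e).mp h3
          obtain ⟨k', hk'⟩ := HeisP.pow_eq_z t' (hall t' hy).1 (hall t' hy).2 ht'1
          -- s commutes with e t
          have hta : t.a = 0 := by ext i; fin_cases i; exact (hall t ht).1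
          have htb : t.b = 0 := by ext i; fin_cases i; exact (hall t ht).2
          have hst : s * ((e t : ↥(S : Subgroup ↥(Cfsg.qd p))) : ↥(Cfsg.qd p)) =
              ((e t : ↥(S : Subgroup ↥(Cfsg.qd p))) : ↥(Cfsg.qd p)) * s := by
            obtain ⟨h₂, hh₂⟩ := e.surjective ⟨s, hs⟩
            have h1 := congrArg (fun x : ↥(S : Subgroup ↥(Cfsg.qd p)) => (x : ↥(Cfsg.qd p)))
              (congrArg e (HeisP.central_of t hta htb h₂))
            simp only [map_mul, Subgroup.coe_mul, hh₂] at h1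
            exact h1.symm
          apply he2
          have hz2 : ((e HeisP.z : ↥(S : Subgroup ↥(Cfsg.qd p))) : ↥(Cfsg.qd p)) =
              (M⁻¹ * ((e t : ↥(S : Subgroup ↥(Cfsg.qd p))) : ↥(Cfsg.qd p)) * M) ^ k' := by
            rw [← hk', map_pow, Subgroup.coe_pow, hyY']
          rw [hz2]
          have hc1 : Commute (M⁻¹ * s * M)
              (M⁻¹ * ((e t : ↥(S : Subgroup ↥(Cfsg.qd p))) : ↥(Cfsg.qd p)) * M) := by
            show M⁻¹ * s * M * (M⁻¹ * ((e t : ↥(S : Subgroup ↥(Cfsg.qd p))) : ↥(Cfsg.qd p)) * M) =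
              M⁻¹ * ((e t : ↥(S : Subgroup ↥(Cfsg.qd p))) : ↥(Cfsg.qd p)) * M * (M⁻¹ * s * M)
            have e4 : M⁻¹ * s * M * (M⁻¹ * ((e t : ↥(S : Subgroup ↥(Cfsg.qd p))) : ↥(Cfsg.qd p)) * M) =
                M⁻¹ * (s * ((e t : ↥(S : Subgroup ↥(Cfsg.qd p))) : ↥(Cfsg.qd p))) * M := by group
            rw [e4, hst]; group
          exact (hc1.pow_right k').eq
      intro M hM
      rw [Subgroup.mem_normalizer_iff]
      intro s
      constructor
      · intro hs
        have := key M⁻¹ (inv_mem hM) s hs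
        rwa [inv_inv] at this
      · intro hs
        have := key M hM _ hs
        have e2 : M⁻¹ * (M * s * M⁻¹) * M = s := by group
        rwa [e2] at this
    · have := hTc
      exact Cfsg.Agent.Helper17.normalizer_le_normalizer_map_char (S : Subgroup ↥(Cfsg.qd p)) T
  · intro htop
    have hn : (S : Subgroup ↥(Cfsg.qd p)).Normal := Subgroup.normalizer_eq_top_iff.mp htop
    obtain ⟨g, hg⟩ := MulAction.exists_smul_eq ↥(Cfsg.qd p) S (heisSylow p)
    have h1 : g • S = S := Sylow.smul_eq_of_normal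
    rw [h1] at hg
    apply range_not_normal (p := p)
    rw [← heisSylow_coe, ← hg]
    exact hn

end Qd

end Cfsg.Agent.Helper1
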