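import Mathlib
import Cfsg.Agent.Helper27.MetaEnd

set_option autoImplicit false

/-! Sections `N(D)/D` of a group, with images of subgroups. -/

namespace Cfsg.Agent.Helper1.QS

universe u

variable {G : Type u} [Group G]

/-- The section `N_G(D)/D`. -/
abbrev Q (D : Subgroup G) : Type u :=
  ↥(Subgroup.normalizer (D : Set G)) ⧸ D.subgroupOf (Subgroup.normalizer (D : Set G))

/-- The image of `H ∩ N(D)` in `N(D)/D`. -/
def im (D H : Subgroup G) : Subgroup (Q D) :=
  (H.subgroupOf (Subgroup.normalizer (D : Set G))).map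
    (QuotientGroup.mk' (D.subgroupOf (Subgroup.normalizer (D : Set G))))

/-- The class of an element of `N(D)`. -/
def cls (D : Subgroup G) (x : G) (hx : x ∈ Subgroup.normalizer (D : Set G)) : Q D :=
  QuotientGroup.mk' (D.subgroupOf (Subgroup.normalizer (D : Set G))) ⟨x, hx⟩

theorem cls_eq_one_iff (D : Subgroup G) (x : G) (hx : x ∈ Subgroup.normalizer (D : Set G)) :
    cls D x hx = 1 ↔ x ∈ D := by
  unfold cls
  rw [QuotientGroup.mk'_apply, QuotientGroup.eq_one_iff, Subgroup.mem_subgroupOf]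

theorem cls_mul (D : Subgroup G) (x y : G) (hx : x ∈ Subgroup.normalizer (D : Set G))
    (hy : y ∈ Subgroup.normalizer (D : Set G)) :
    cls D x hx * cls D y hy = cls D (x * y) (Subgroup.mul_mem _ hx hy) := by
  unfold cls
  rw [← map_mul]
  rfl

theorem cls_eq_iff (D : Subgroup G) (x y : G) (hx : x ∈ Subgroup.normalizer (D : Set G))
    (hy : y ∈ Subgroup.normalizer (D : Set G)) :
    cls D x hx = cls D y hy ↔ x⁻¹ * y ∈ D := by
  unfold cls
  rw [QuotientGroup.mk'_apply, QuotientGroup.mk'_apply, QuotientGroup.eq, Subgroup.mem_subgroupOf]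
  rfl

theorem mem_im_iff (D H : Subgroup G) (q : Q D) :
    q ∈ im D H ↔ ∃ (x : G) (hx : x ∈ Subgroup.normalizer (D : Set G)), x ∈ H ∧ cls D x hx = q := by
  unfold im cls
  rw [Subgroup.mem_map]
  constructor
  · rintro ⟨y, hy, rfl⟩
    exact ⟨y.1, y.2, Subgroup.mem_subgroupOf.mp hy, rfl⟩
  · rintro ⟨x, hx, hxH, rfl⟩
    exact ⟨⟨x, hx⟩, Subgroup.mem_subgroupOf.mpr hxH, rfl⟩

theorem cls_mem_im {D H : Subgroup G} (x : G) (hx : x ∈ Subgroup.normalizer (D : Set G))
    (hxH : x ∈ H) : cls D x hx ∈ im D H :=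
  (mem_im_iff D H _).mpr ⟨x, hx, hxH, rfl⟩

theorem cls_mem_im_iff {D H : Subgroup G} (hDH : D ≤ H) (x : G)
    (hx : x ∈ Subgroup.normalizer (D : Set G)) : cls D x hx ∈ im D H ↔ x ∈ H := by
  constructor
  · intro h
    obtain ⟨y, hy, hyH, hyx⟩ := (mem_im_iff D H _).mp h
    have h1 : y⁻¹ * x ∈ D := (cls_eq_iff D y x hy hx).mp hyx
    have h2 : x = y * (y⁻¹ * x) := by group
    rw [h2]
    exact H.mul_mem hyH (hDH h1)
  · exact cls_mem_im x hx

theorem im_eq_bot_iff {D H : Subgroup G} (hH : H ≤ Subgroup.normalizer (D : Set G)) :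
    im D H = ⊥ ↔ H ≤ D := by
  constructor
  · intro h x hx
    have h1 : cls D x (hH hx) ∈ im D H := cls_mem_im x (hH hx) hx
    rw [h, Subgroup.mem_bot] at h1
    exact (cls_eq_one_iff D x _).mp h1
  · intro h
    rw [eq_bot_iff]
    intro q hq
    obtain ⟨x, hx, hxH, rfl⟩ := (mem_im_iff D H q).mp hq
    rw [Subgroup.mem_bot]
    exact (cls_eq_one_iff D x hx).mpr (h hxH)

theorem im_commutator {D H K : Subgroup G} (hH : H ≤ Subgroup.normalizer (D : Set G))
    (hK : K ≤ Subgroup.normalizer (D : Set G)) : ⁅im D H, im D K⁆ = im D ⁅H, K⁆ := by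
  unfold im
  rw [← Subgroup.map_commutator]
  congr 1
  apply Subgroup.map_injective (Subgroup.subtype_injective (Subgroup.normalizer (D : Set G)))
  have hHK : ⁅H, K⁆ ≤ Subgroup.normalizer (D : Set G) := by
    rw [Subgroup.commutator_le]
    intro h hh k hk
    rw [commutatorElement_def]
    exact Subgroup.mul_mem _ (Subgroup.mul_mem _ (Subgroup.mul_mem _ (hH hh) (hK hk))
      (Subgroup.inv_mem _ (hH hh))) (Subgroup.inv_mem _ (hK hk))
  rw [Subgroup.map_commutator, Subgroup.map_subgroupOf_eq_of_le hH,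
    Subgroup.map_subgroupOf_eq_of_le hK, Subgroup.map_subgroupOf_eq_of_le hHK]

theorem im_sup {D H K : Subgroup G} (hH : H ≤ Subgroup.normalizer (D : Set G))
    (hK : K ≤ Subgroup.normalizer (D : Set G)) : im D (H ⊔ K) = im D H ⊔ im D K := by
  unfold im
  rw [Subgroup.subgroupOf_sup hH hK, Subgroup.map_sup]

theorem im_le_normalizer {D H A : Subgroup G} (hAH : A ≤ Subgroup.normalizer (H : Set G)) :
    im D A ≤ Subgroup.normalizer (im D H : Set (Q D)) := by
  unfold im
  refine le_trans (Subgroup.map_mono ?_) (Subgroup.le_normalizer_map _)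
  intro a ha
  rw [Subgroup.mem_normalizer_iff]
  intro h
  rw [Subgroup.mem_subgroupOf, Subgroup.mem_subgroupOf]
  exact (Subgroup.mem_normalizer_iff.mp (hAH (Subgroup.mem_subgroupOf.mp ha))) h

theorem card_im_dvd [Finite G] {D H : Subgroup G} (hH : H ≤ Subgroup.normalizer (D : Set G)) :
    Nat.card (im D H) ∣ Nat.card H := by
  unfold im
  have h1 := Subgroup.card_map_dvd (H := H.subgroupOf (Subgroup.normalizer (D : Set G)))
    (QuotientGroup.mk' (D.subgroupOf (Subgroup.normalizer (D : Set G))))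
  rwa [Nat.card_congr (Subgroup.subgroupOfEquivOfLe hH).toEquiv] at h1

theorem card_im_lt [Finite G] {D H : Subgroup G} (hD : D ≠ ⊥) (hDH : D ≤ H)
    (hH : H ≤ Subgroup.normalizer (D : Set G)) : Nat.card (im D H) < Nat.card H := by
  have hdvd := card_im_dvd (D := D) hH
  have hle : Nat.card (im D H) ≤ Nat.card H := Nat.le_of_dvd Nat.card_pos hdvd
  refine lt_of_le_of_ne hle ?_
  intro heq
  obtain ⟨d, hd1⟩ := (Subgroup.ne_bot_iff_exists_ne_one).mp hD
  -- the surjection H → im D H is then injective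
  let f : ↥H → ↥(im D H) := fun h => ⟨cls D h.1 (hH h.2), cls_mem_im h.1 (hH h.2) h.2⟩
  have hf : Function.Surjective f := by
    rintro ⟨q, hq⟩
    obtain ⟨x, hx, hxH, rfl⟩ := (mem_im_iff D H q).mp hq
    exact ⟨⟨x, hxH⟩, rfl⟩
  have hbij : Function.Bijective f :=
    (Nat.bijective_iff_surjective_and_card f).mpr ⟨hf, heq.symm⟩
  have h1 : f ⟨d.1, hDH d.2⟩ = f ⟨1, H.one_mem⟩ := by
    apply Subtype.ext
    show cls D d.1 _ = cls D 1 _
    rw [cls_eq_iff, mul_one]
    exact D.inv_mem d.2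
  have h2 := hbij.1 h1
  apply hd1
  apply Subtype.ext
  exact congrArg (fun z : ↥H => (z : G)) h2

theorem im_isPGroup [Finite G] {p : ℕ} [Fact p.Prime] {D H : Subgroup G} (hHp : IsPGroup p H) :
    IsPGroup p (im D H) := by
  unfold im
  exact IsPGroup.map (hHp.comap_subtype) _

theorem im_metacyclic {D H : Subgroup G} (hH : H ≤ Subgroup.normalizer (D : Set G))
    (hm : Cfsg.IsMetacyclic H) : Cfsg.IsMetacyclic (im D H) := by
  unfold im
  have h1 : Cfsg.IsMetacyclic ↥(H.subgroupOf (Subgroup.normalizer (D : Set G))) :=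
    Cfsg.Agent.Helper27.metacyclic_of_injective hm
      (Subgroup.subgroupOfEquivOfLe hH).toMonoidHom (Subgroup.subgroupOfEquivOfLe hH).injective
  exact Cfsg.Agent.Helper27.metacyclic_of_surjective h1
    ((QuotientGroup.mk' (D.subgroupOf (Subgroup.normalizer (D : Set G)))).subgroupMap _)
    (MonoidHom.subgroupMap_surjective _ _)

theorem cls_mem_centralizer_im {D A : Subgroup G} (x : G)
    (hx : x ∈ Subgroup.normalizer (D : Set G))
    (h : ∀ a ∈ A, x⁻¹ * a⁻¹ * x * a ∈ D) :
    cls D x hx ∈ Subgroup.centralizer (im D A : Set (Q D)) := by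
  rw [Subgroup.mem_centralizer_iff]
  intro q hq
  obtain ⟨a, ha, haA, rfl⟩ := (mem_im_iff D A q).mp hq
  rw [cls_mul, cls_mul, cls_eq_iff]
  have := h a haA
  have e : (a * x)⁻¹ * (x * a) = x⁻¹ * a⁻¹ * x * a := by group
  rw [e]
  exact this

end Cfsg.Agent.Helper1.QS
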