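import Mathlib
import Cfsg.Agent.Helper1.NormRank2
import Cfsg.Agent.Helper1.ExtraCent
import Cfsg.Agent.Helper1.Alperin

set_option autoImplicit false

namespace Cfsg.Agent.Helper1

/-- in a finite `p`-group, between normal subgroups `A < E` there is a normal subgroup `B` with
`A ≤ B ≤ E`, `|B : A| = p` and `[R, B] ≤ A` -/
theorem exists_normal_step' {R : Type*} [Group R] [Finite R] {p : ℕ} [hp : Fact p.Prime]
    (hR : IsPGroup p R) (A E : Subgroup R) (hA : A.Normal) (hE : E.Normal) (hAE : A ≤ E)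
    (hne : A ≠ E) :
    ∃ B : Subgroup R, B.Normal ∧ A ≤ B ∧ B ≤ E ∧ A.relIndex B = p ∧
      ∀ g : R, ∀ b ∈ B, g * b * g⁻¹ * b⁻¹ ∈ A := by
  have hQ : IsPGroup p (R ⧸ A) := hR.to_quotient A
  have hEn : (E.map (QuotientGroup.mk' A)).Normal := hE.map _ (QuotientGroup.mk'_surjective A)
  have hEne : E.map (QuotientGroup.mk' A) ≠ ⊥ := by
    intro h
    apply hne
    apply le_antisymm hAE
    intro x hx
    have : (QuotientGroup.mk' A) x ∈ E.map (QuotientGroup.mk' A) := Subgroup.mem_map_of_mem _ hx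
    rw [h, Subgroup.mem_bot] at this
    exact (QuotientGroup.eq_one_iff x).mp this
  obtain ⟨z, hzE, hz1, hzc⟩ := exists_mem_centerOmega hQ (E.map (QuotientGroup.mk' A)) hEne
  have hzord : orderOf z = p := orderOf_eq_prime hzc.2 hz1
  have hzn : (Subgroup.zpowers z).Normal := by
    constructor
    intro n hn g
    have hnc : n ∈ Subgroup.center (R ⧸ A) := (Subgroup.zpowers_le.mpr hzc.1) hn
    have h1 : g * n = n * g := (Subgroup.mem_center_iff.mp hnc g)
    rw [h1, mul_inv_cancel_right]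
    exact hn
  refine ⟨(Subgroup.zpowers z).comap (QuotientGroup.mk' A), hzn.comap _, ?_, ?_, ?_, ?_⟩
  · intro a ha
    rw [Subgroup.mem_comap]
    have : (QuotientGroup.mk' A) a = 1 := (QuotientGroup.eq_one_iff a).mpr ha
    rw [this]; exact one_mem _
  · intro x hx
    rw [Subgroup.mem_comap] at hx
    have h1 : (QuotientGroup.mk' A) x ∈ E.map (QuotientGroup.mk' A) :=
      (Subgroup.zpowers_le.mpr hzE) hx
    obtain ⟨e, he, hex⟩ := h1
    have h2 : e⁻¹ * x ∈ A := QuotientGroup.eq.mp hex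
    have : x = e * (e⁻¹ * x) := by group
    rw [this]; exact mul_mem he (hAE h2)
  · have hker : A = (⊥ : Subgroup (R ⧸ A)).comap (QuotientGroup.mk' A) := by
      rw [MonoidHom.comap_bot, QuotientGroup.ker_mk']
    have hrw : A.relIndex ((Subgroup.zpowers z).comap (QuotientGroup.mk' A)) =
        ((⊥ : Subgroup (R ⧸ A)).comap (QuotientGroup.mk' A)).relIndex
          ((Subgroup.zpowers z).comap (QuotientGroup.mk' A)) := by
      rw [← hker]
    rw [hrw, Subgroup.relIndex_comap,
      Subgroup.map_comap_eq_self_of_surjective (QuotientGroup.mk'_surjective A),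
      Subgroup.relIndex_bot_left, Nat.card_zpowers, hzord]
  · intro g b hb
    rw [Subgroup.mem_comap] at hb
    have hbc : (QuotientGroup.mk' A) b ∈ Subgroup.center (R ⧸ A) :=
      (Subgroup.zpowers_le.mpr hzc.1) hb
    have h1 : (QuotientGroup.mk' A) g * (QuotientGroup.mk' A) b =
        (QuotientGroup.mk' A) b * (QuotientGroup.mk' A) g := Subgroup.mem_center_iff.mp hbc _
    rw [← QuotientGroup.eq_one_iff]
    show (QuotientGroup.mk' A) (g * b * g⁻¹ * b⁻¹) = 1
    rw [map_mul, map_mul, map_mul, map_inv, map_inv, h1]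
    group

/-- the centraliser of a normal subgroup of order at most `p²` of a `p`-group has index at most
`p` -/
theorem index_centralizer_le_of_card_le_sq {R : Type*} [Group R] [Finite R] {p : ℕ}
    [hp : Fact p.Prime] (hR : IsPGroup p R) (A : Subgroup R) (hA : A.Normal)
    (hcard : Nat.card A ≤ p ^ 2) : (Subgroup.centralizer (A : Set R)).index ≤ p := by
  have hp1 := hp.out.one_lt
  by_cases hAbot : A = ⊥
  · have : Subgroup.centralizer (A : Set R) = ⊤ := by
      rw [eq_top_iff]
      intro g _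
      rw [Subgroup.mem_centralizer_iff]
      intro a ha
      rw [SetLike.mem_coe, hAbot, Subgroup.mem_bot] at ha
      rw [ha, one_mul, mul_one]
    rw [this, Subgroup.index_top]
    omega
  obtain ⟨B₁, hB₁n, -, hB₁A, hrel₁, hB₁c⟩ := exists_normal_step' hR ⊥ A inferInstance hA bot_le
    (fun h => hAbot h.symm)
  rw [Subgroup.relIndex_bot_left] at hrel₁
  have hB₁cen : ∀ g : R, ∀ b ∈ B₁, g * b = b * g := by
    intro g b hb
    have h1 := hB₁c g b hb
    rw [Subgroup.mem_bot] at h1
    calc g * b = (g * b * g⁻¹ * b⁻¹) * b * g := by group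
      _ = b * g := by rw [h1, one_mul]
  by_cases hB₁eq : B₁ = A
  · have : Subgroup.centralizer (A : Set R) = ⊤ := by
      rw [eq_top_iff]
      intro g _
      rw [Subgroup.mem_centralizer_iff]
      intro a ha
      rw [SetLike.mem_coe, ← hB₁eq] at ha
      exact (hB₁cen g a ha).symm
    rw [this, Subgroup.index_top]
    omega
  obtain ⟨B₂, hB₂n, hB₁₂, hB₂A, hrel₂, hB₂c⟩ := exists_normal_step' hR B₁ A hB₁n hA hB₁A hB₁eq
  have hB₂card : Nat.card B₂ = p ^ 2 := by
    rw [← Subgroup.relIndex_bot_left, ← Subgroup.relIndex_mul_relIndex ⊥ B₁ B₂ bot_le hB₁₂,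
      Subgroup.relIndex_bot_left, hrel₁, hrel₂, sq]
  have hB₂eq : B₂ = A := Subgroup.eq_of_le_of_card_ge hB₂A (by rw [hB₂card]; exact hcard)
  have hAcard : Nat.card A = p ^ 2 := by rw [← hB₂eq]; exact hB₂card
  obtain ⟨a, haA, haB⟩ := SetLike.not_le_iff_exists.mp
    (fun h : A ≤ B₁ => hB₁eq (le_antisymm hB₁A h))
  have hle : Subgroup.centralizer {a} ≤ Subgroup.centralizer (A : Set R) := by
    intro c hc
    have hca : c * a = a * c := Subgroup.mem_centralizer_singleton_iff.mp hc
    have hD : A ⊓ Subgroup.centralizer {c} = A := by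
      apply Subgroup.eq_of_le_of_card_ge inf_le_left
      have h1 : B₁ ≤ A ⊓ Subgroup.centralizer {c} := by
        intro b hb
        exact Subgroup.mem_inf.mpr ⟨hB₁A hb,
          Subgroup.mem_centralizer_singleton_iff.mpr (hB₁cen c b hb).symm⟩
      have h2 : a ∈ A ⊓ Subgroup.centralizer {c} :=
        Subgroup.mem_inf.mpr ⟨haA, Subgroup.mem_centralizer_singleton_iff.mpr hca.symm⟩
      have h3 : Nat.card ↥(A ⊓ Subgroup.centralizer {c}) ∣ p ^ 2 := by
        rw [← hAcard]; exact Subgroup.card_dvd_of_le inf_le_left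
      obtain ⟨j, hj2, hj⟩ := (Nat.dvd_prime_pow hp.out).mp h3
      have h4 : p ∣ Nat.card ↥(A ⊓ Subgroup.centralizer {c}) := by
        rw [← hrel₁]; exact Subgroup.card_dvd_of_le h1
      have h5 : j ≠ 1 := by
        intro hj1
        rw [hj1, pow_one] at hj
        have : B₁ = A ⊓ Subgroup.centralizer {c} :=
          Subgroup.eq_of_le_of_card_ge h1 (by rw [hj, hrel₁])
        exact haB (this ▸ h2)
      have h6 : j ≠ 0 := by
        intro hj0
        rw [hj0, pow_zero] at hj
        rw [hj, Nat.dvd_one] at h4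
        omega
      have h7 : j = 2 := by omega
      rw [hAcard, hj, h7]
    rw [Subgroup.mem_centralizer_iff]
    intro y hy
    have hy' : y ∈ A ⊓ Subgroup.centralizer {c} := by rw [hD]; exact hy
    exact (Subgroup.mem_centralizer_singleton_iff.mp (Subgroup.mem_inf.mp hy').2)
  have h1 : (Subgroup.centralizer {a}).index ≤ Nat.card B₁ := by
    apply index_centralizer_singleton_le
    intro g
    exact hB₂c g a (hB₂eq ▸ haA)
  rw [hrel₁] at h1
  exact le_trans (Nat.le_of_dvd (Nat.pos_of_ne_zero Subgroup.index_ne_zero_of_finite)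
    (Subgroup.index_dvd_of_le hle)) h1

/-- for odd `p`, a `p`-group without normal elementary abelian subgroups of order `p³` has no
elementary abelian subgroup of order exceeding `p²` -/
theorem card_le_sq_of_no_normal_cube {P : Type*} [Group P] [Finite P] {p : ℕ} [hp : Fact p.Prime]
    (hp2 : p ≠ 2) (hP : IsPGroup p P)
    (h : ∀ A : Subgroup P, A.Normal → (∀ x ∈ A, ∀ y ∈ A, x * y = y * x) → (∀ a ∈ A, a ^ p = 1) →
      Nat.card A ≠ p ^ 3)
    (E : Subgroup P) (hE : ∀ x ∈ E, ∀ y ∈ E, x * y = y * x) (hEe : ∀ e ∈ E, e ^ p = 1) :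
    Nat.card E ≤ p ^ 2 := by
  have hp1 := hp.out.one_lt
  obtain ⟨A, -, hAmax⟩ := Finite.exists_le_maximal
    (p := fun M : Subgroup P => M.Normal ∧ (∀ x ∈ M, ∀ y ∈ M, x * y = y * x) ∧ ∀ a ∈ M, a ^ p = 1)
    (a := ⊥) ⟨inferInstance, by
      intro x hx y hy
      rw [Subgroup.mem_bot] at hx hy
      rw [hx, hy], by
      intro a ha
      rw [Subgroup.mem_bot] at ha
      rw [ha, one_pow]⟩
  obtain ⟨⟨hAn, hAc, hAe⟩, hAmax'⟩ := hAmax
  obtain ⟨k, hk⟩ := IsPGroup.iff_card.mp (hP.to_subgroup A)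
  have hk2 : k ≤ 2 := by
    by_contra hk3
    have hk3' : 3 ≤ k := by omega
    have hlt : ∀ j : ℕ, j < 3 → ∀ B : Subgroup P, Nat.card B = p ^ j → B ≠ A := by
      intro j hj B hB heq
      rw [heq, hk] at hB
      have := Nat.pow_right_injective hp.out.two_le hB
      omega
    obtain ⟨B₁, hB₁n, -, hB₁A, hrel₁⟩ := exists_normal_step hP ⊥ A inferInstance hAn bot_le
      (hlt 0 (by omega) ⊥ (by rw [Subgroup.card_bot, pow_zero]))
    rw [Subgroup.relIndex_bot_left] at hrel₁
    obtain ⟨B₂, hB₂n, hB₁₂, hB₂A, hrel₂⟩ := exists_normal_step hP B₁ A hB₁n hAn hB₁A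
      (hlt 1 (by omega) B₁ (by rw [hrel₁, pow_one]))
    have hB₂card : Nat.card B₂ = p ^ 2 := by
      rw [← Subgroup.relIndex_bot_left, ← Subgroup.relIndex_mul_relIndex ⊥ B₁ B₂ bot_le hB₁₂,
        Subgroup.relIndex_bot_left, hrel₁, hrel₂, sq]
    obtain ⟨B₃, hB₃n, hB₂₃, hB₃A, hrel₃⟩ := exists_normal_step hP B₂ A hB₂n hAn hB₂A
      (hlt 2 (by omega) B₂ hB₂card)
    have hB₃card : Nat.card B₃ = p ^ 3 := by
      rw [← Subgroup.relIndex_bot_left, ← Subgroup.relIndex_mul_relIndex ⊥ B₂ B₃ bot_le hB₂₃,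
        Subgroup.relIndex_bot_left, hB₂card, hrel₃]
      ring
    exact h B₃ hB₃n (fun x hx y hy => hAc x (hB₃A hx) y (hB₃A hy)) (fun a ha => hAe a (hB₃A ha))
      hB₃card
  have hAle : Nat.card A ≤ p ^ 2 := by
    rw [hk]; exact Nat.pow_le_pow_right hp.out.pos hk2
  have hAcomm : IsMulCommutative A := ⟨⟨fun a b => Subtype.ext (hAc a a.2 b b.2)⟩⟩
  have hS130 : ∀ x ∈ Subgroup.centralizer (A : Set P), x ^ p = 1 → x ∈ A := by
    intro x hx hxp
    haveI := hAn
    refine mem_of_maximal_normal_abelian_exp hP 1 (by rw [pow_one]; exact hp2) A hAcomm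
      (fun a ha => by rw [pow_one]; exact hAe a ha) ?_ x hx (by rw [pow_one]; exact hxp)
    intro B hBn hBc hBe hAB
    apply le_antisymm _ hAB
    apply hAmax' ⟨hBn, fun x hx y hy => ?_, fun b hb => ?_⟩ hAB
    · have := hBc.is_comm.comm (⟨x, hx⟩ : B) ⟨y, hy⟩
      exact congrArg Subtype.val this
    · have := hBe b hb
      rwa [pow_one] at this
  have hCn : (Subgroup.centralizer (A : Set P)).Normal := by
    haveI := hAn
    exact Subgroup.normal_centralizer
  have hCidx := index_centralizer_le_of_card_le_sq hP A hAn hAle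
  have hrel : (Subgroup.centralizer (A : Set P)).relIndex E ≤ p :=
    le_trans (Nat.le_of_dvd (Nat.pos_of_ne_zero Subgroup.index_ne_zero_of_finite)
      (Subgroup.relIndex_dvd_index_of_normal _ E)) hCidx
  have hcardE : Nat.card E = Nat.card ↥(E ⊓ Subgroup.centralizer (A : Set P)) *
      (Subgroup.centralizer (A : Set P)).relIndex E := by
    rw [← Subgroup.card_mul_index ((Subgroup.centralizer (A : Set P)).subgroupOf E)]
    congr 1
    rw [← Subgroup.inf_subgroupOf_left]
    exact (Nat.card_congr (Subgroup.subgroupOfEquivOfLe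
      (inf_le_left : E ⊓ Subgroup.centralizer (A : Set P) ≤ E)).toEquiv)
  have hEC : E ⊓ Subgroup.centralizer (A : Set P) ≤ A ⊓ E := by
    intro x hx
    have hx' := Subgroup.mem_inf.mp hx
    exact Subgroup.mem_inf.mpr ⟨hS130 x hx'.2 (hEe x hx'.1), hx'.1⟩
  by_cases hAE : A ≤ E
  · have hEA : E ≤ A := by
      intro e he
      apply hS130 e _ (hEe e he)
      rw [Subgroup.mem_centralizer_iff]
      intro a ha
      exact hE a (hAE ha) e he
    exact le_trans (Subgroup.card_le_of_le hEA) hAle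
  · have hlt : Nat.card ↥(A ⊓ E) ≤ p := by
      have h1 : Nat.card ↥(A ⊓ E) ∣ p ^ k := by
        rw [← hk]; exact Subgroup.card_dvd_of_le inf_le_left
      obtain ⟨j, hjk, hj⟩ := (Nat.dvd_prime_pow hp.out).mp h1
      have hjne : j ≠ k := by
        intro hjk'
        apply hAE
        have : A ⊓ E = A := Subgroup.eq_of_le_of_card_ge inf_le_left (by rw [hj, hk, hjk'])
        rw [← this]; exact inf_le_right
      have hj1 : j ≤ 1 := by omega
      rw [hj]
      calc p ^ j ≤ p ^ 1 := Nat.pow_le_pow_right hp.out.pos hj1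
        _ = p := pow_one p
    rw [hcardE, sq]
    exact Nat.mul_le_mul (le_trans (Subgroup.card_le_of_le hEC) hlt) hrel

end Cfsg.Agent.Helper1
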