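import Mathlib
import Cfsg.Agent.Helper1.Rank2
import Cfsg.Agent.Helper1.MaxAb
import Cfsg.Agent.Helper1.Rank2Exp

set_option autoImplicit false
open scoped commutatorElement
open scoped Pointwise

namespace Cfsg.Agent.Helper1

/-- class-two power formula, local form -/
theorem exists_mul_pow_eq_of_commute {G : Type*} [Group G] (x y : G) (hx : Commute ⁅y, x⁆ x)
    (hy : Commute ⁅y, x⁆ y) (n : ℕ) :
    ∃ t : ℕ, 2 * t = n * (n - 1) ∧ (x * y) ^ n = ⁅y, x⁆ ^ t * x ^ n * y ^ n := by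
  have hyx : ∀ m : ℕ, y ^ m * x = ⁅y, x⁆ ^ m * x * y ^ m := by
    intro m
    induction m with
    | zero => simp
    | succ m ih =>
      have e : y * x = ⁅y, x⁆ * x * y := by rw [commutatorElement_def]; group
      have hcm : y * ⁅y, x⁆ ^ m = ⁅y, x⁆ ^ m * y := ((hy.pow_left m).eq).symm
      calc y ^ (m + 1) * x = y * (y ^ m * x) := by rw [pow_succ', mul_assoc]
        _ = y * (⁅y, x⁆ ^ m * x * y ^ m) := by rw [ih]
        _ = (y * ⁅y, x⁆ ^ m) * x * y ^ m := by simp only [mul_assoc]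
        _ = (⁅y, x⁆ ^ m * y) * x * y ^ m := by rw [hcm]
        _ = ⁅y, x⁆ ^ m * (y * x) * y ^ m := by simp only [mul_assoc]
        _ = ⁅y, x⁆ ^ m * (⁅y, x⁆ * x * y) * y ^ m := by rw [e]
        _ = (⁅y, x⁆ ^ m * ⁅y, x⁆) * x * (y * y ^ m) := by simp only [mul_assoc]
        _ = ⁅y, x⁆ ^ (m + 1) * x * y ^ (m + 1) := by rw [← pow_succ, ← pow_succ']
  induction n with
  | zero => exact ⟨0, by simp, by simp⟩
  | succ n ih =>
    obtain ⟨t, ht, hpow⟩ := ih
    refine ⟨t + n, ?_, ?_⟩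
    · rw [Nat.add_sub_cancel, mul_add, ht]
      cases n with
      | zero => simp
      | succ k => simp; ring
    · have h1 : x ^ n * ⁅y, x⁆ ^ n = ⁅y, x⁆ ^ n * x ^ n :=
        (((hx.pow_right n).pow_left n).eq).symm
      calc (x * y) ^ (n + 1) = (x * y) ^ n * (x * y) := pow_succ _ _
        _ = ⁅y, x⁆ ^ t * x ^ n * y ^ n * (x * y) := by rw [hpow]
        _ = ⁅y, x⁆ ^ t * x ^ n * (y ^ n * x) * y := by simp only [mul_assoc]
        _ = ⁅y, x⁆ ^ t * x ^ n * (⁅y, x⁆ ^ n * x * y ^ n) * y := by rw [hyx]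
        _ = ⁅y, x⁆ ^ t * (x ^ n * ⁅y, x⁆ ^ n) * x * y ^ n * y := by simp only [mul_assoc]
        _ = ⁅y, x⁆ ^ t * (⁅y, x⁆ ^ n * x ^ n) * x * y ^ n * y := by rw [h1]
        _ = (⁅y, x⁆ ^ t * ⁅y, x⁆ ^ n) * (x ^ n * x) * (y ^ n * y) := by simp only [mul_assoc]
        _ = ⁅y, x⁆ ^ (t + n) * x ^ (n + 1) * y ^ (n + 1) := by
            rw [← pow_add, ← pow_succ, ← pow_succ]

/-- a subgroup `L` centralising a hyperplane `B₂` of the abelian group `A = ⟨B₂, a₀⟩`, with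
`[L, a₀] ⊆ B₂ ⊓ B'`: then `|L| ≤ |C_L(A)| |B'|` -/
theorem card_le_card_inf_centralizer_mul {G : Type*} [Group G] [Finite G]
    (A B₂ L B' : Subgroup G) (a₀ : G) (hA : ∀ a ∈ A, ∀ b ∈ A, a * b = b * a) (hB₂A : B₂ ≤ A)
    (ha₀ : a₀ ∈ A) (hgen : A ≤ Subgroup.closure ((B₂ : Set G) ∪ {a₀}))
    (hLK : L ≤ Subgroup.centralizer (B₂ : Set G))
    (hφ : ∀ t ∈ L, t * a₀ * t⁻¹ * a₀⁻¹ ∈ B₂ ⊓ B') :
    Nat.card L ≤ Nat.card ↥(L ⊓ Subgroup.centralizer (A : Set G)) * Nat.card B' := by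
  let φ : L →* G :=
    { toFun := fun t => (t : G) * a₀ * (t : G)⁻¹ * a₀⁻¹
      map_one' := by simp
      map_mul' := by
        intro t t'
        have h1 : (t' : G) * a₀ * (t' : G)⁻¹ * a₀⁻¹ ∈ B₂ := (hφ t' t'.2).1
        have h2 : (t : G) * a₀ * (t : G)⁻¹ * a₀⁻¹ ∈ B₂ := (hφ t t.2).1
        have h3 : ((t' : G) * a₀ * (t' : G)⁻¹ * a₀⁻¹) * (t : G) =
            (t : G) * ((t' : G) * a₀ * (t' : G)⁻¹ * a₀⁻¹) :=
          Subgroup.mem_centralizer_iff.mp (hLK t.2) _ h1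
        have h4 := hA _ (hB₂A h1) _ (hB₂A h2)
        show ((t : G) * (t' : G)) * a₀ * ((t : G) * (t' : G))⁻¹ * a₀⁻¹ =
          (t : G) * a₀ * (t : G)⁻¹ * a₀⁻¹ * ((t' : G) * a₀ * (t' : G)⁻¹ * a₀⁻¹)
        calc ((t : G) * (t' : G)) * a₀ * ((t : G) * (t' : G))⁻¹ * a₀⁻¹
            = ((t : G) * ((t' : G) * a₀ * (t' : G)⁻¹ * a₀⁻¹)) * (t : G)⁻¹ *
                ((t : G) * a₀ * (t : G)⁻¹ * a₀⁻¹) := by group
          _ = (((t' : G) * a₀ * (t' : G)⁻¹ * a₀⁻¹) * (t : G)) * (t : G)⁻¹ *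
                ((t : G) * a₀ * (t : G)⁻¹ * a₀⁻¹) := by rw [h3]
          _ = ((t' : G) * a₀ * (t' : G)⁻¹ * a₀⁻¹) * ((t : G) * a₀ * (t : G)⁻¹ * a₀⁻¹) := by
              rw [mul_inv_cancel_right]
          _ = _ := h4 }
  have hφdef : ∀ t : L, φ t = (t : G) * a₀ * (t : G)⁻¹ * a₀⁻¹ := fun _ => rfl
  have hrange : φ.range ≤ B' := by
    rintro _ ⟨t, rfl⟩
    exact (hφ t t.2).2
  have hker : Nat.card ↥(L ⊓ Subgroup.centralizer (A : Set G)) = Nat.card φ.ker := by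
    have h1 : φ.ker.map L.subtype = L ⊓ Subgroup.centralizer (A : Set G) := by
      ext g
      simp only [Subgroup.mem_map, MonoidHom.mem_ker, Subgroup.mem_inf, Subgroup.coe_subtype]
      constructor
      · rintro ⟨t, ht, rfl⟩
        refine ⟨t.2, ?_⟩
        rw [hφdef] at ht
        have hta : (t : G) * a₀ = a₀ * (t : G) := by
          have : (t : G) * a₀ * (t : G)⁻¹ = a₀ := by
            rw [← mul_inv_eq_one]; exact ht
          calc (t : G) * a₀ = (t : G) * a₀ * (t : G)⁻¹ * (t : G) := by group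
            _ = a₀ * (t : G) := by rw [this]
        have hcl : Subgroup.closure ((B₂ : Set G) ∪ {a₀}) ≤ Subgroup.centralizer {(t : G)} := by
          rw [Subgroup.closure_le]
          rintro z (hz | hz)
          · rw [SetLike.mem_coe, Subgroup.mem_centralizer_singleton_iff]
            exact Subgroup.mem_centralizer_iff.mp (hLK t.2) z hz
          · rw [Set.mem_singleton_iff] at hz
            rw [hz, SetLike.mem_coe, Subgroup.mem_centralizer_singleton_iff]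
            exact hta.symm
        rw [Subgroup.mem_centralizer_iff]
        intro a ha
        exact Subgroup.mem_centralizer_singleton_iff.mp (hcl (hgen ha))
      · rintro ⟨hg, hgA⟩
        refine ⟨⟨g, hg⟩, ?_, rfl⟩
        rw [hφdef]
        show g * a₀ * g⁻¹ * a₀⁻¹ = 1
        have : a₀ * g = g * a₀ := Subgroup.mem_centralizer_iff.mp hgA a₀ ha₀
        rw [← this]; group
    rw [← h1, Subgroup.card_map_of_injective (Subgroup.subtype_injective L)]
  have h1 : Nat.card φ.ker * φ.ker.index = Nat.card L := Subgroup.card_mul_index _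
  rw [Subgroup.index_ker] at h1
  have h2 : Nat.card φ.range ≤ Nat.card B' := Subgroup.card_le_of_le hrange
  rw [hker, ← h1]
  exact Nat.mul_le_mul_left _ h2

/-- for odd `p`, a `p`-group with an elementary abelian subgroup of order `p ^ 4` has a normal
one -/
theorem exists_normal_elem_abelian_four {G : Type*} [Group G] [Finite G] {p : ℕ}
    [hp : Fact p.Prime] (hp2 : p ≠ 2) (hG : IsPGroup p G) (E : Subgroup G)
    (hEc : ∀ x ∈ E, ∀ y ∈ E, x * y = y * x) (hEe : ∀ x ∈ E, x ^ p = 1)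
    (hE4 : Nat.card E = p ^ 4) :
    ∃ A : Subgroup G, A.Normal ∧ (∀ x ∈ A, ∀ y ∈ A, x * y = y * x) ∧ (∀ x ∈ A, x ^ p = 1) ∧
      Nat.card A = p ^ 4 := by
  have hp1 := hp.out.one_lt
  by_contra hno
  push Not at hno
  -- a normal elementary abelian subgroup of order p^3
  obtain ⟨A₀, hA₀n, hA₀c, hA₀e, hA₀card⟩ : ∃ A₀ : Subgroup G, A₀.Normal ∧
      (∀ x ∈ A₀, ∀ y ∈ A₀, x * y = y * x) ∧ (∀ a ∈ A₀, a ^ p = 1) ∧ Nat.card A₀ = p ^ 3 := by
    by_contra h
    push Not at h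
    have := card_le_sq_of_no_normal_cube hp2 hG h E hEc hEe
    rw [hE4] at this
    have := (Nat.pow_le_pow_iff_right hp1).mp this
    omega
  obtain ⟨A, hA₀A, hAmax⟩ := Finite.exists_le_maximal
    (p := fun M : Subgroup G => M.Normal ∧ (∀ x ∈ M, ∀ y ∈ M, x * y = y * x) ∧ ∀ a ∈ M, a ^ p = 1)
    (a := A₀) ⟨hA₀n, hA₀c, hA₀e⟩
  obtain ⟨⟨hAn, hAc, hAe⟩, hAmax'⟩ := hAmax
  obtain ⟨k, hk⟩ := IsPGroup.iff_card.mp (hG.to_subgroup A)
  have hk3 : 3 ≤ k := by
    have := Subgroup.card_le_of_le hA₀A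
    rw [hA₀card, hk] at this
    exact (Nat.pow_le_pow_iff_right hp1).mp this
  have hk3' : k = 3 := by
    by_contra hne
    obtain ⟨B, hBn, hBA, hBcard, -⟩ := exists_normal_chain_centralizer hG A hAn k hk 4 (by omega)
    exact hno B hBn (fun x hx y hy => hAc x (hBA hx) y (hBA hy)) (fun x hx => hAe x (hBA hx))
      hBcard
  subst hk3'
  have hAcomm : IsMulCommutative A := ⟨⟨fun a b => Subtype.ext (hAc a a.2 b b.2)⟩⟩
  have hAlp : ∀ x ∈ Subgroup.centralizer (A : Set G), x ^ p = 1 → x ∈ A := by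
    intro x hx hxp
    haveI := hAn
    refine mem_of_maximal_normal_abelian_exp hG 1 (by rw [pow_one]; exact hp2) A hAcomm
      (fun a ha => by rw [pow_one]; exact hAe a ha) ?_ x hx (by rw [pow_one]; exact hxp)
    intro B hBn hBc hBe hAB
    apply le_antisymm _ hAB
    apply hAmax' ⟨hBn, fun x hx y hy => ?_, fun b hb => ?_⟩ hAB
    · have := hBc.is_comm.comm (⟨x, hx⟩ : B) ⟨y, hy⟩
      exact congrArg Subtype.val this
    · have := hBe b hb
      rwa [pow_one] at this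
  -- a normal hyperplane of A
  obtain ⟨B₂, hB₂n, hB₂A, hB₂card, -⟩ := exists_normal_chain_centralizer hG A hAn 3 hk 2 (by omega)
  have hB₂ne : B₂ ≠ A := by
    intro h
    rw [h, hk] at hB₂card
    have := Nat.pow_right_injective hp.out.two_le hB₂card
    omega
  obtain ⟨B₃, hB₃n, hB₂₃, hB₃A, hrel, hcomm3⟩ := exists_normal_step' hG B₂ A hB₂n hAn hB₂A hB₂ne
  have hB₃ : B₃ = A := by
    apply Subgroup.eq_of_le_of_card_ge hB₃A
    rw [hk, ← Subgroup.relIndex_bot_left, ← Subgroup.relIndex_mul_relIndex ⊥ B₂ B₃ bot_le hB₂₃,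
      Subgroup.relIndex_bot_left, hB₂card, hrel]
    exact le_of_eq (by ring)
  have hGA : ∀ g : G, ∀ a ∈ A, g * a * g⁻¹ * a⁻¹ ∈ B₂ := fun g a ha => hcomm3 g a (hB₃ ▸ ha)
  obtain ⟨a₀, ha₀A, ha₀B⟩ : ∃ a₀ ∈ A, a₀ ∉ B₂ := by
    by_contra h
    push Not at h
    exact hB₂ne (le_antisymm hB₂A (fun a ha => h a ha))
  have hgen : A ≤ Subgroup.closure ((B₂ : Set G) ∪ {a₀}) := by
    have h1 : B₂ ≤ Subgroup.closure ((B₂ : Set G) ∪ {a₀}) :=
      fun b hb => Subgroup.subset_closure (Or.inl hb)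
    have h2 : Subgroup.closure ((B₂ : Set G) ∪ {a₀}) ≤ A := by
      rw [Subgroup.closure_le]
      rintro z (hz | hz)
      · exact hB₂A hz
      · rw [Set.mem_singleton_iff] at hz; rw [hz]; exact ha₀A
    obtain ⟨j, hj⟩ := IsPGroup.iff_card.mp
      (hG.to_subgroup (Subgroup.closure ((B₂ : Set G) ∪ {a₀})))
    have hj2 : 2 ≤ j := by
      have := Subgroup.card_le_of_le h1
      rw [hB₂card, hj] at this
      exact (Nat.pow_le_pow_iff_right hp1).mp this
    have hjne : j ≠ 2 := by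
      intro hj2'
      apply ha₀B
      have : B₂ = Subgroup.closure ((B₂ : Set G) ∪ {a₀}) :=
        Subgroup.eq_of_le_of_card_ge h1 (by rw [hj, hj2', hB₂card])
      rw [this]; exact Subgroup.subset_closure (Or.inr rfl)
    have : Subgroup.closure ((B₂ : Set G) ∪ {a₀}) = A := by
      apply Subgroup.eq_of_le_of_card_ge h2
      rw [hk, hj]
      exact Nat.pow_le_pow_right hp.out.pos (by omega)
    rw [this]
  have hKidx := index_centralizer_le_of_card_le_sq hG B₂ hB₂n (le_of_eq hB₂card)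
  have hKn : (Subgroup.centralizer (B₂ : Set G)).Normal := by
    haveI := hB₂n
    exact Subgroup.normal_centralizer
  have hT : ∀ (L B' : Subgroup G), L ≤ Subgroup.centralizer (B₂ : Set G) →
      (∀ t ∈ L, t * a₀ * t⁻¹ * a₀⁻¹ ∈ B') →
      Nat.card L ≤ Nat.card ↥(L ⊓ Subgroup.centralizer (A : Set G)) * Nat.card B' := by
    intro L B' hL hB'
    exact card_le_card_inf_centralizer_mul A B₂ L B' a₀ hAc hB₂A ha₀A hgen hL
      (fun t ht => ⟨hGA t a₀ ha₀A, hB' t ht⟩)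
  -- elementary abelian subgroups of order p^4 centralise B₂
  have h7 : ∀ F : Subgroup G, (∀ x ∈ F, ∀ y ∈ F, x * y = y * x) → (∀ x ∈ F, x ^ p = 1) →
      Nat.card F = p ^ 4 → F ≤ Subgroup.centralizer (B₂ : Set G) := by
    intro F hFc hFe hF4
    by_contra hFK
    obtain ⟨f, hfF, hfK⟩ := SetLike.not_le_iff_exists.mp hFK
    have hF₁card : p ^ 3 ≤ Nat.card ↥(F ⊓ Subgroup.centralizer (B₂ : Set G)) := by
      have h1 := card_eq_card_inf_mul_relIndex F (Subgroup.centralizer (B₂ : Set G))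
      have h2 : (Subgroup.centralizer (B₂ : Set G)).relIndex F ≤ p :=
        le_trans (Nat.le_of_dvd (Nat.pos_of_ne_zero Subgroup.index_ne_zero_of_finite)
          (Subgroup.relIndex_dvd_index_of_normal _ F)) hKidx
      rw [hF4] at h1
      by_contra hlt
      push Not at hlt
      have : p ^ 4 < p ^ 4 := calc
        p ^ 4 = Nat.card ↥(F ⊓ Subgroup.centralizer (B₂ : Set G)) *
            (Subgroup.centralizer (B₂ : Set G)).relIndex F := h1
        _ ≤ Nat.card ↥(F ⊓ Subgroup.centralizer (B₂ : Set G)) * p := Nat.mul_le_mul_left _ h2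
        _ < p ^ 3 * p := (Nat.mul_lt_mul_right hp.out.pos).mpr hlt
        _ = p ^ 4 := by ring
      exact lt_irrefl _ this
    have h7a : ¬ (F ⊓ Subgroup.centralizer (B₂ : Set G) ≤ Subgroup.centralizer (A : Set G)) := by
      intro hle
      have hF₁A : F ⊓ Subgroup.centralizer (B₂ : Set G) ≤ A :=
        fun z hz => hAlp z (hle hz) (hFe z hz.1)
      have heq : F ⊓ Subgroup.centralizer (B₂ : Set G) = A :=
        Subgroup.eq_of_le_of_card_ge hF₁A (by rw [hk]; exact hF₁card)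
      apply hfK
      rw [Subgroup.mem_centralizer_iff]
      intro b hb
      have hbF : b ∈ F := by
        have : b ∈ F ⊓ Subgroup.centralizer (B₂ : Set G) := heq ▸ hB₂A hb
        exact this.1
      exact hFc b hbF f hfF
    obtain ⟨b₀, hb₀, hb₀f⟩ : ∃ b ∈ B₂, b * f ≠ f * b := by
      by_contra h
      push Not at h
      apply hfK
      rw [Subgroup.mem_centralizer_iff]
      exact h
    have hBf : Nat.card ↥(B₂ ⊓ Subgroup.centralizer {f}) ≤ p := by
      have h1 : Nat.card ↥(B₂ ⊓ Subgroup.centralizer {f}) ∣ p ^ 2 :=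
        hB₂card ▸ Subgroup.card_dvd_of_le inf_le_left
      obtain ⟨j, hj2, hj⟩ := (Nat.dvd_prime_pow hp.out).mp h1
      have hjne : j ≠ 2 := by
        intro hj2'
        apply hb₀f
        have : B₂ ⊓ Subgroup.centralizer {f} = B₂ :=
          Subgroup.eq_of_le_of_card_ge inf_le_left (by rw [hj, hj2', hB₂card])
        have hb : b₀ ∈ B₂ ⊓ Subgroup.centralizer {f} := by rw [this]; exact hb₀
        exact Subgroup.mem_centralizer_singleton_iff.mp hb.2
      rw [hj]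
      calc p ^ j ≤ p ^ 1 := Nat.pow_le_pow_right hp.out.pos (by omega)
        _ = p := pow_one p
    have h7c : ∀ t ∈ F ⊓ Subgroup.centralizer (B₂ : Set G),
        t * a₀ * t⁻¹ * a₀⁻¹ ∈ B₂ ⊓ Subgroup.centralizer {f} := by
      intro t ht
      have hφB : t * a₀ * t⁻¹ * a₀⁻¹ ∈ B₂ := hGA t a₀ ha₀A
      refine Subgroup.mem_inf.mpr ⟨hφB, ?_⟩
      rw [Subgroup.mem_centralizer_singleton_iff]
      have hft : f * t = t * f := hFc f hfF t ht.1
      have hβ : f * a₀ * f⁻¹ * a₀⁻¹ ∈ B₂ := hGA f a₀ ha₀A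
      have htβ : (f * a₀ * f⁻¹ * a₀⁻¹) * t = t * (f * a₀ * f⁻¹ * a₀⁻¹) :=
        Subgroup.mem_centralizer_iff.mp ht.2 _ hβ
      have hβφ := hAc _ (hB₂A hβ) _ (hB₂A hφB)
      have e1 : f * (t * a₀ * t⁻¹ * a₀⁻¹) * f⁻¹ =
          (f * t * f⁻¹) * ((f * a₀ * f⁻¹ * a₀⁻¹) * a₀) * (f * t * f⁻¹)⁻¹ *
            ((f * a₀ * f⁻¹ * a₀⁻¹) * a₀)⁻¹ := by group
      have e2 : f * t * f⁻¹ = t := by rw [hft, mul_inv_cancel_right]
      have e3 : t * ((f * a₀ * f⁻¹ * a₀⁻¹) * a₀) * t⁻¹ * ((f * a₀ * f⁻¹ * a₀⁻¹) * a₀)⁻¹ =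
          (f * a₀ * f⁻¹ * a₀⁻¹) * (t * a₀ * t⁻¹ * a₀⁻¹) * (f * a₀ * f⁻¹ * a₀⁻¹)⁻¹ := by
        calc t * ((f * a₀ * f⁻¹ * a₀⁻¹) * a₀) * t⁻¹ * ((f * a₀ * f⁻¹ * a₀⁻¹) * a₀)⁻¹
            = (t * (f * a₀ * f⁻¹ * a₀⁻¹)) * a₀ * t⁻¹ * a₀⁻¹ * (f * a₀ * f⁻¹ * a₀⁻¹)⁻¹ := by group
          _ = ((f * a₀ * f⁻¹ * a₀⁻¹) * t) * a₀ * t⁻¹ * a₀⁻¹ * (f * a₀ * f⁻¹ * a₀⁻¹)⁻¹ := by
              rw [← htβ]
          _ = _ := by group
      have e4 : f * (t * a₀ * t⁻¹ * a₀⁻¹) * f⁻¹ = t * a₀ * t⁻¹ * a₀⁻¹ := by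
        rw [e1, e2, e3, hβφ, mul_inv_cancel_right]
      calc t * a₀ * t⁻¹ * a₀⁻¹ * f = (f * (t * a₀ * t⁻¹ * a₀⁻¹) * f⁻¹) * f := by rw [e4]
        _ = f * (t * a₀ * t⁻¹ * a₀⁻¹) := by group
    have h7d := hT (F ⊓ Subgroup.centralizer (B₂ : Set G)) (B₂ ⊓ Subgroup.centralizer {f})
      inf_le_right (fun t ht => (h7c t ht))
    obtain ⟨H₁, hH₁⟩ : ∃ H₁ : Subgroup G, H₁ = (F ⊓ Subgroup.centralizer (B₂ : Set G)) ⊓
        Subgroup.centralizer (A : Set G) := ⟨_, rfl⟩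
    rw [← hH₁] at h7d
    have hH₁card : p ^ 2 ≤ Nat.card H₁ := by
      by_contra hlt
      push Not at hlt
      have : p ^ 3 < p ^ 3 := calc
        p ^ 3 ≤ Nat.card ↥(F ⊓ Subgroup.centralizer (B₂ : Set G)) := hF₁card
        _ ≤ Nat.card H₁ * Nat.card ↥(B₂ ⊓ Subgroup.centralizer {f}) := h7d
        _ ≤ Nat.card H₁ * p := Nat.mul_le_mul_left _ hBf
        _ < p ^ 2 * p := (Nat.mul_lt_mul_right hp.out.pos).mpr hlt
        _ = p ^ 3 := by ring
      exact lt_irrefl _ this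
    have hH₁A : H₁ ≤ A := by
      intro z hz
      rw [hH₁] at hz
      exact hAlp z hz.2 (hFe z hz.1.1)
    have hH₁F : H₁ ≤ F := by
      intro z hz
      rw [hH₁] at hz
      exact hz.1.1
    have hsup_le : H₁ ⊔ B₂ ≤ A := sup_le hH₁A hB₂A
    obtain ⟨j, hj⟩ := IsPGroup.iff_card.mp (hG.to_subgroup (H₁ ⊔ B₂))
    have hj3 : j ≤ 3 := by
      have := Subgroup.card_le_of_le hsup_le
      rw [hj, hk] at this
      exact (Nat.pow_le_pow_iff_right hp1).mp this
    have hj2 : 2 ≤ j := by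
      have := Subgroup.card_le_of_le (le_sup_right : B₂ ≤ H₁ ⊔ B₂)
      rw [hj, hB₂card] at this
      exact (Nat.pow_le_pow_iff_right hp1).mp this
    rcases Nat.lt_or_ge j 3 with hj' | hj'
    · have hj2' : j = 2 := by omega
      have h1 : B₂ = H₁ ⊔ B₂ :=
        Subgroup.eq_of_le_of_card_ge le_sup_right (by rw [hj, hj2', hB₂card])
      have h2 : H₁ ≤ B₂ := h1 ▸ le_sup_left
      have h3 : H₁ = B₂ := Subgroup.eq_of_le_of_card_ge h2 (by rw [hB₂card]; exact hH₁card)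
      apply hfK
      rw [Subgroup.mem_centralizer_iff]
      intro b hb
      exact hFc b (hH₁F (h3 ▸ hb)) f hfF
    · have hj3' : j = 3 := by omega
      have h1 : H₁ ⊔ B₂ = A := Subgroup.eq_of_le_of_card_ge hsup_le (by rw [hj, hj3', hk])
      apply h7a
      intro t ht
      have hcen : H₁ ⊔ B₂ ≤ Subgroup.centralizer {t} := by
        apply sup_le
        · intro z hz
          rw [Subgroup.mem_centralizer_singleton_iff]
          exact hFc z (hH₁F hz) t ht.1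
        · intro b hb
          rw [Subgroup.mem_centralizer_singleton_iff]
          exact Subgroup.mem_centralizer_iff.mp ht.2 b hb
      rw [Subgroup.mem_centralizer_iff]
      intro a ha
      have : a ∈ Subgroup.centralizer {t} := hcen (h1 ▸ ha)
      exact Subgroup.mem_centralizer_singleton_iff.mp this
  -- E is not normal
  have hEnn : Subgroup.normalizer (E : Set G) ≠ ⊤ := by
    intro h
    exact hno E (Subgroup.normalizer_eq_top_iff.mp h) hEc hEe hE4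
  haveI : Group.IsNilpotent G := hG.isNilpotent
  have hlt := Group.normalizerCondition_of_isNilpotent (G := G) (Subgroup.normalizer (E : Set G))
    (lt_top_iff_ne_top.mpr hEnn)
  obtain ⟨g, hgN, hgE⟩ := SetLike.exists_of_lt hlt
  obtain ⟨E', hE'def⟩ : ∃ E' : Subgroup G, E' = E.map (MulAut.conj g).toMonoidHom := ⟨_, rfl⟩
  have hE'mem : ∀ x, x ∈ E' ↔ ∃ e ∈ E, g * e * g⁻¹ = x := by
    intro x
    rw [hE'def, Subgroup.mem_map]
    rfl
  have hE'c : ∀ x ∈ E', ∀ y ∈ E', x * y = y * x := by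
    intro x hx y hy
    obtain ⟨a, ha, rfl⟩ := (hE'mem x).mp hx
    obtain ⟨b, hb, rfl⟩ := (hE'mem y).mp hy
    have := hEc a ha b hb
    calc g * a * g⁻¹ * (g * b * g⁻¹) = g * (a * b) * g⁻¹ := by group
      _ = g * (b * a) * g⁻¹ := by rw [this]
      _ = _ := by group
  have hE'e : ∀ x ∈ E', x ^ p = 1 := by
    intro x hx
    obtain ⟨a, ha, rfl⟩ := (hE'mem x).mp hx
    rw [conj_pow, hEe a ha, mul_one, mul_inv_cancel]
  have hE'4 : Nat.card E' = p ^ 4 := by
    rw [hE'def, Subgroup.card_map_of_injective (MulEquiv.injective _), hE4]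
  have hE'N : E' ≤ Subgroup.normalizer (E : Set G) := by
    intro x hx
    obtain ⟨a, ha, rfl⟩ := (hE'mem x).mp hx
    exact (Subgroup.mem_normalizer_iff.mp hgN a).mp (Subgroup.le_normalizer ha)
  have hE'ne : E' ≠ E := by
    intro h
    apply hgE
    have h2 : g⁻¹ ∈ Subgroup.normalizer (E : Set G) := by
      apply mem_normalizer_of_conj_mem
      intro e he
      rw [inv_inv, ← h]
      exact (hE'mem _).mpr ⟨e, he, rfl⟩
    simpa using Subgroup.inv_mem _ h2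
  have hEN' : ∀ e ∈ E, ∀ x ∈ E', e * x * e⁻¹ ∈ E' := by
    intro e he x hx
    obtain ⟨a, ha, rfl⟩ := (hE'mem x).mp hx
    rw [hE'mem]
    have h1 : g⁻¹ * e * g ∈ Subgroup.normalizer (E : Set G) := by
      have hg' : g⁻¹ ∈ Subgroup.normalizer (Subgroup.normalizer (E : Set G) : Set G) :=
        Subgroup.inv_mem _ hgN
      have := (Subgroup.mem_normalizer_iff.mp hg' e).mp (Subgroup.le_normalizer he)
      simpa using this
    exact ⟨(g⁻¹ * e * g) * a * (g⁻¹ * e * g)⁻¹, (Subgroup.mem_normalizer_iff.mp h1 a).mp ha,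
      by group⟩
  have hE'N' : ∀ x ∈ E', ∀ e ∈ E, x * e * x⁻¹ ∈ E :=
    fun x hx e he => (Subgroup.mem_normalizer_iff.mp (hE'N hx) e).mp he
  have hEK := h7 E hEc hEe hE4
  have hE'K := h7 E' hE'c hE'e hE'4
  obtain ⟨W, hWdef⟩ : ∃ W : Subgroup G, W = E ⊔ E' := ⟨_, rfl⟩
  have hEW : E ≤ W := hWdef ▸ le_sup_left
  have hE'W : E' ≤ W := hWdef ▸ le_sup_right
  have hWK : W ≤ Subgroup.centralizer (B₂ : Set G) := hWdef ▸ sup_le hEK hE'K
  have hWrep : ∀ w ∈ W, ∃ e ∈ E, ∃ e' ∈ E', w = e * e' := by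
    intro w hw
    have h1 : ((E ⊔ E' : Subgroup G) : Set G) = (E : Set G) * (E' : Set G) :=
      Subgroup.coe_mul_of_right_le_normalizer_left E E' hE'N
    have h2 : w ∈ (E : Set G) * (E' : Set G) := by rw [← h1, ← hWdef]; exact hw
    obtain ⟨e, he, e', he', rfl⟩ := Set.mem_mul.mp h2
    exact ⟨e, he, e', he', rfl⟩
  have hWe : ∀ w ∈ W, w ^ p = 1 := by
    intro w hw
    obtain ⟨e, he, e', he', rfl⟩ := hWrep w hw
    have hcE : ⁅e', e⁆ ∈ E := by
      rw [commutatorElement_def]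
      exact E.mul_mem (hE'N' e' he' e he) (E.inv_mem he)
    have hcE' : ⁅e', e⁆ ∈ E' := by
      have : ⁅e', e⁆ = e' * (e * e'⁻¹ * e⁻¹) := by rw [commutatorElement_def]; group
      rw [this]
      exact E'.mul_mem he' (hEN' e he e'⁻¹ (E'.inv_mem he'))
    obtain ⟨t, ht, hpow⟩ := exists_mul_pow_eq_of_commute e e' (hEc _ hcE e he)
      (hE'c _ hcE' e' he') p
    have hpt : p ∣ t := by
      have h2 : p ∣ 2 * t := by rw [ht]; exact dvd_mul_right p (p - 1)
      have hcop : Nat.Coprime p 2 := (Nat.coprime_primes hp.out Nat.prime_two).mpr hp2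
      exact hcop.dvd_of_dvd_mul_left h2
    obtain ⟨s, rfl⟩ := hpt
    rw [hpow, pow_mul, hEe _ hcE, one_pow, hEe e he, hE'e e' he', one_mul, one_mul]
  have hWC : W ⊓ Subgroup.centralizer (A : Set G) ≤ A := fun z hz => hAlp z hz.2 (hWe z hz.1)
  have hWcard1 := hT W B₂ hWK (fun t _ => hGA t a₀ ha₀A)
  obtain ⟨m, hm⟩ := IsPGroup.iff_card.mp (hG.to_subgroup W)
  have hm4 : 4 ≤ m := by
    have := Subgroup.card_le_of_le hEW
    rw [hE4, hm] at this
    exact (Nat.pow_le_pow_iff_right hp1).mp this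
  have hmne : m ≠ 4 := by
    intro hm4'
    have h1 : E = W := Subgroup.eq_of_le_of_card_ge hEW (by rw [hm, hm4', hE4])
    have h2 : E' ≤ E := h1 ▸ hE'W
    exact hE'ne (Subgroup.eq_of_le_of_card_ge h2 (by rw [hE4, hE'4]))
  have hWC3 : p ^ 3 ≤ Nat.card ↥(W ⊓ Subgroup.centralizer (A : Set G)) := by
    by_contra hlt
    push Not at hlt
    have : p ^ 5 < p ^ 5 := calc
      p ^ 5 ≤ p ^ m := Nat.pow_le_pow_right hp.out.pos (by omega)
      _ = Nat.card W := hm.symm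
      _ ≤ Nat.card ↥(W ⊓ Subgroup.centralizer (A : Set G)) * Nat.card B₂ := hWcard1
      _ = Nat.card ↥(W ⊓ Subgroup.centralizer (A : Set G)) * p ^ 2 := by rw [hB₂card]
      _ < p ^ 3 * p ^ 2 := (Nat.mul_lt_mul_right (pow_pos hp.out.pos 2)).mpr hlt
      _ = p ^ 5 := by ring
    exact lt_irrefl _ this
  have hWCA : W ⊓ Subgroup.centralizer (A : Set G) = A :=
    Subgroup.eq_of_le_of_card_ge hWC (by rw [hk]; exact hWC3)
  have hAW : A ≤ W := by
    intro a ha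
    have : a ∈ W ⊓ Subgroup.centralizer (A : Set G) := by rw [hWCA]; exact ha
    exact this.1
  have hm5 : m = 5 := by
    have h1 : Nat.card W ≤ p ^ 3 * p ^ 2 := by
      calc Nat.card W ≤ Nat.card ↥(W ⊓ Subgroup.centralizer (A : Set G)) * Nat.card B₂ := hWcard1
        _ ≤ Nat.card A * Nat.card B₂ := Nat.mul_le_mul_right _ (Subgroup.card_le_of_le hWC)
        _ = p ^ 3 * p ^ 2 := by rw [hk, hB₂card]
    rw [hm, ← pow_add] at h1
    have := (Nat.pow_le_pow_iff_right hp1).mp h1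
    omega
  have hDcard : p ^ 3 ≤ Nat.card ↥(E ⊓ E') := by
    have h1 := card_eq_card_inf_mul_relIndex E E'
    have h3 : Nat.card E' * E'.relIndex W = Nat.card W := by
      have := Subgroup.relIndex_mul_relIndex ⊥ E' W bot_le hE'W
      rw [Subgroup.relIndex_bot_left, Subgroup.relIndex_bot_left] at this
      exact this
    rw [hE'4, hm, hm5] at h3
    have h4 : E'.relIndex W = p := by
      have : p ^ 5 = p ^ 4 * p := by ring
      rw [this] at h3
      exact Nat.eq_of_mul_eq_mul_left (pow_pos hp.out.pos 4) h3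
    have h2 : E'.relIndex E ≤ p := by
      rw [← h4]
      exact Subgroup.relIndex_le_of_le_right hEW (by rw [h4]; exact hp.out.ne_zero)
    rw [hE4] at h1
    by_contra hlt
    push Not at hlt
    have : p ^ 4 < p ^ 4 := calc
      p ^ 4 = Nat.card ↥(E ⊓ E') * E'.relIndex E := h1
      _ ≤ Nat.card ↥(E ⊓ E') * p := Nat.mul_le_mul_left _ h2
      _ < p ^ 3 * p := (Nat.mul_lt_mul_right hp.out.pos).mpr hlt
      _ = p ^ 4 := by ring
    exact lt_irrefl _ this
  have hDA : E ⊓ E' ≤ A := by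
    intro d hd
    apply hAlp d _ (hEe d hd.1)
    rw [Subgroup.mem_centralizer_iff]
    intro a ha
    obtain ⟨e, he, e', he', rfl⟩ := hWrep a (hAW ha)
    have h1 := hEc e he d hd.1
    have h2 := hE'c e' he' d hd.2
    rw [mul_assoc, h2, ← mul_assoc, h1, mul_assoc]
  have hDeq : E ⊓ E' = A := Subgroup.eq_of_le_of_card_ge hDA (by rw [hk]; exact hDcard)
  have hAE : A ≤ E := hDeq ▸ inf_le_left
  have hEA : E ≤ A := by
    intro e he
    apply hAlp e _ (hEe e he)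
    rw [Subgroup.mem_centralizer_iff]
    intro a ha
    exact hEc a (hAE ha) e he
  have := Subgroup.card_le_of_le hEA
  rw [hE4, hk] at this
  have := (Nat.pow_le_pow_iff_right hp1).mp this
  omega

end Cfsg.Agent.Helper1
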