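import Mathlib

set_option autoImplicit false

namespace Cfsg.Agent.Helper1.XSp

section norm
variable {W : Type*} [CommGroup W]

/-- the norm map `w ↦ ∏_{j<p} a^j w` -/
def nrm (p : ℕ) (a : MulAut W) (w : W) : W := ∏ j ∈ Finset.range p, (a ^ j) w

theorem nrm_mul (p : ℕ) (a : MulAut W) (w w' : W) :
    nrm p a (w * w') = nrm p a w * nrm p a w' := by
  simp [nrm, Finset.prod_mul_distrib]

theorem nrm_inv (p : ℕ) (a : MulAut W) (w : W) : nrm p a w⁻¹ = (nrm p a w)⁻¹ := by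
  simp [nrm, Finset.prod_inv_distrib]

theorem nrm_prod {ι : Type*} (p : ℕ) (a : MulAut W) (s : Finset ι) (f : ι → W) :
    nrm p a (∏ i ∈ s, f i) = ∏ i ∈ s, nrm p a (f i) := by
  unfold nrm
  rw [Finset.prod_comm]
  exact Finset.prod_congr rfl (fun j _ => map_prod (a ^ j) f s)

theorem pow_fix (a : MulAut W) (w : W) (h : a w = w) (j : ℕ) : (a ^ j) w = w := by
  induction j with
  | zero => simp
  | succ j ih => rw [pow_succ, MulAut.mul_apply, h, ih]

theorem nrm_fixed (p : ℕ) (a : MulAut W) (w : W) (h : a w = w) : nrm p a w = w ^ p := by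
  unfold nrm
  rw [Finset.prod_congr rfl (fun j _ => pow_fix a w h j)]
  simp

theorem nrm_fix (p : ℕ) (a : MulAut W) (ha : a ^ p = 1) (w : W) :
    a (nrm p a w) = nrm p a w := by
  unfold nrm
  rw [map_prod]
  have h1 := Finset.prod_range_succ (fun j => (a ^ j) w) p
  have h2 := Finset.prod_range_succ' (fun j => (a ^ j) w) p
  simp only [ha, pow_zero, MulAut.one_apply] at h1 h2
  have h3 : ∏ j ∈ Finset.range p, a ((a ^ j) w) = ∏ j ∈ Finset.range p, (a ^ (j + 1)) w :=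
    Finset.prod_congr rfl (fun j _ => by rw [pow_succ', MulAut.mul_apply])
  rw [h3]
  exact mul_right_cancel (h2.symm.trans h1)

theorem pow_inv_mem (a : MulAut W) (U : Subgroup W) (hU : ∀ u ∈ U, a u ∈ U) (j : ℕ) :
    ∀ u ∈ U, (a ^ j) u ∈ U := by
  induction j with
  | zero => intro u hu; simpa using hu
  | succ j ih => intro u hu; rw [pow_succ, MulAut.mul_apply]; exact ih _ (hU u hu)

theorem nrm_mem (p : ℕ) (a : MulAut W) (U : Subgroup W) (hU : ∀ u ∈ U, a u ∈ U) :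
    ∀ u ∈ U, nrm p a u ∈ U :=
  fun u hu => Subgroup.prod_mem U (fun j _ => pow_inv_mem a U hU j u hu)

theorem nrm_fpf (p : ℕ) (a : MulAut W) (ha : a ^ p = 1) (U : Subgroup W)
    (hU : ∀ u ∈ U, a u ∈ U) (hf : ∀ u ∈ U, a u = u → u = 1) : ∀ u ∈ U, nrm p a u = 1 :=
  fun u hu => hf _ (nrm_mem p a U hU u hu) (nrm_fix p a ha u)

/-- the fixed points of `a` in `U` -/
def fixS (a : MulAut W) (U : Subgroup W) : Subgroup W where
  carrier := {w | w ∈ U ∧ a w = w}
  mul_mem' := by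
    rintro x y ⟨hx, hx'⟩ ⟨hy, hy'⟩
    exact ⟨U.mul_mem hx hy, by rw [map_mul, hx', hy']⟩
  one_mem' := ⟨U.one_mem, map_one a⟩
  inv_mem' := by
    rintro x ⟨hx, hx'⟩
    exact ⟨U.inv_mem hx, by rw [map_inv, hx']⟩

theorem mem_fixS {a : MulAut W} {U : Subgroup W} {w : W} :
    w ∈ fixS a U ↔ w ∈ U ∧ a w = w := Iff.rfl

theorem fixS_le (a : MulAut W) (U : Subgroup W) : fixS a U ≤ U := fun _ h => h.1

theorem conj_pow (cx cy cz : MulAut W) (hyz : cy * cz = cz * cy)
    (hyx : cy * cx = cx * cz * cy) (m : ℕ) : cy ^ m * cx = cx * cz ^ m * cy ^ m := by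
  induction m with
  | zero => simp
  | succ m ih =>
    have h1 : cy ^ m * cz = cz * cy ^ m := ((show Commute cy cz from hyz).pow_left m).eq
    calc cy ^ (m + 1) * cx = cy ^ m * (cy * cx) := by rw [pow_succ, mul_assoc]
      _ = cy ^ m * cx * cz * cy := by rw [hyx]; simp only [mul_assoc]
      _ = cx * cz ^ m * (cy ^ m * cz) * cy := by rw [ih]; simp only [mul_assoc]
      _ = cx * cz ^ (m + 1) * cy ^ (m + 1) := by
        rw [h1, pow_succ, pow_succ]; simp only [mul_assoc]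

theorem step (p : ℕ) [Fact p.Prime] [Finite W] (cx cy cz : MulAut W)
    (hx : cx ^ p = 1) (hz : cz ^ p = 1) (hxz : cx * cz = cz * cx) (hyz : cy * cz = cz * cy)
    (hyx : cy * cx = cx * cz * cy)
    (U : Subgroup W) (hUx : ∀ u ∈ U, cx u ∈ U) (hUy : ∀ u ∈ U, cy u ∈ U)
    (hUy' : ∀ u ∈ U, cy⁻¹ u ∈ U) (hUz : ∀ u ∈ U, cz u ∈ U)
    (hfpf : ∀ m : ℕ, ¬ p ∣ m → ∀ u ∈ U, (cz ^ m) u = u → u = 1)
    (hcop : ∀ u ∈ U, u ^ p = 1 → u = 1) :
    Nat.card U = Nat.card (fixS cx U) ^ p := by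
  have hp : p.Prime := Fact.out
  have hcxz : Commute cx cz := hxz
  have hapow : ∀ i : ℕ, (cx * cz ^ i) ^ p = 1 := by
    intro i
    rw [(hcxz.pow_right i).mul_pow, hx, ← pow_mul, mul_comm, pow_mul, hz, one_pow, one_mul]
  have hUa : ∀ i : ℕ, ∀ u ∈ U, (cx * cz ^ i) u ∈ U := by
    intro i u hu
    rw [MulAut.mul_apply]
    exact hUx _ (pow_inv_mem cz U hUz i u hu)
  have hczm_pow : ∀ m : ℕ, (cz ^ m) ^ p = 1 := by
    intro m; rw [← pow_mul, mul_comm, pow_mul, hz, one_pow]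
  -- K1
  have K1 : ∀ i0 i : ℕ, i < p → i0 < p → ∀ v ∈ fixS (cx * cz ^ i) U,
      nrm p (cx * cz ^ i0) v = if i = i0 then v ^ p else 1 := by
    intro i0 i hi hi0 v hv
    by_cases hii : i = i0
    · subst hii
      rw [if_pos rfl]
      exact nrm_fixed p _ v hv.2
    · rw [if_neg hii]
      have hm : ¬ p ∣ i0 + (p - i) := by
        intro hdvd
        have h1 : p ≤ i0 + (p - i) := Nat.le_of_dvd (by omega) hdvd
        have h2 : p ∣ i0 + (p - i) - p := Nat.dvd_sub hdvd dvd_rfl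
        have h3 : i0 + (p - i) - p = 0 := Nat.eq_zero_of_dvd_of_lt h2 (by omega)
        omega
      have hc : cx * cz ^ i0 = cz ^ (i0 + (p - i)) * (cx * cz ^ i) := by
        have e1 : cz ^ (i0 + (p - i)) * (cx * cz ^ i) = cx * (cz ^ (i0 + (p - i)) * cz ^ i) := by
          rw [← mul_assoc, ← (hcxz.pow_right (i0 + (p - i))).eq, mul_assoc]
        rw [e1, ← pow_add, show i0 + (p - i) + i = i0 + p by omega, pow_add, hz, mul_one]
      have hcomm : Commute (cz ^ (i0 + (p - i))) (cx * cz ^ i) :=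
        Commute.mul_right (hcxz.pow_right _).symm ((Commute.refl cz).pow_pow _ _)
      have hj : ∀ j : ℕ, ((cx * cz ^ i0) ^ j) v = ((cz ^ (i0 + (p - i))) ^ j) v := by
        intro j
        rw [hc, hcomm.mul_pow, MulAut.mul_apply, pow_fix _ v hv.2 j]
      have h1 : nrm p (cx * cz ^ i0) v = nrm p (cz ^ (i0 + (p - i))) v :=
        Finset.prod_congr rfl (fun j _ => hj j)
      rw [h1]
      exact nrm_fpf p _ (hczm_pow _) U (pow_inv_mem cz U hUz _) (hfpf _ hm) v hv.1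
  -- K2
  have K2 : ∀ u ∈ U, ∏ i ∈ Finset.range p, nrm p (cx * cz ^ i) u = u ^ p := by
    intro u hu
    unfold nrm
    rw [Finset.prod_comm]
    have h1 : ∀ j ∈ Finset.range p, ∏ i ∈ Finset.range p, ((cx * cz ^ i) ^ j) u
        = (cx ^ j) (nrm p (cz ^ j) u) := by
      intro j _
      unfold nrm
      rw [map_prod]
      refine Finset.prod_congr rfl (fun i _ => ?_)
      rw [(hcxz.pow_right i).mul_pow, MulAut.mul_apply, ← pow_mul, ← pow_mul, mul_comm]
    rw [Finset.prod_congr rfl h1]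
    rw [Finset.prod_eq_single 0]
    · simp only [pow_zero, MulAut.one_apply]
      exact nrm_fixed p 1 u rfl
    · intro j hj hj0
      have hjp : ¬ p ∣ j := by
        intro hd
        have := Nat.le_of_dvd (Nat.pos_of_ne_zero hj0) hd
        have := Finset.mem_range.mp hj
        omega
      rw [nrm_fpf p _ (hczm_pow j) U (pow_inv_mem cz U hUz j) (hfpf j hjp) u hu, map_one]
    · intro h0
      exact absurd (Finset.mem_range.mpr hp.pos) h0
  -- the conjugation bijections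
  have hcard : ∀ i : ℕ, Nat.card (fixS (cx * cz ^ i) U) = Nat.card (fixS cx U) := by
    intro i
    have hci := conj_pow cx cy cz hyz hyx i
    have hUyi : ∀ u ∈ U, (cy ^ i) u ∈ U := pow_inv_mem cy U hUy i
    have hUyi' : ∀ u, (cy ^ i) u ∈ U → u ∈ U := by
      intro u hu
      have h1 := pow_inv_mem cy⁻¹ U hUy' i _ hu
      have h2 : (cy⁻¹ ^ i) ((cy ^ i) u) = u := by
        rw [← MulAut.mul_apply, inv_pow, inv_mul_cancel, MulAut.one_apply]
      rwa [h2] at h1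
    refine (Nat.card_congr (Equiv.subtypeEquiv (cy ^ i).toEquiv ?_)).symm
    intro w
    show w ∈ fixS cx U ↔ (cy ^ i) w ∈ fixS (cx * cz ^ i) U
    rw [mem_fixS, mem_fixS]
    have h3 : (cx * cz ^ i) ((cy ^ i) w) = (cy ^ i) (cx w) := by
      rw [← MulAut.mul_apply, ← hci, MulAut.mul_apply]
    rw [h3]
    constructor
    · rintro ⟨h1, h2⟩
      exact ⟨hUyi w h1, by rw [h2]⟩
    · rintro ⟨h1, h2⟩
      exact ⟨hUyi' w h1, (cy ^ i).injective h2⟩
  -- the two injections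
  have hΨ : Nat.card (∀ i : Fin p, fixS (cx * cz ^ (i : ℕ)) U) ≤ Nat.card U := by
    refine Nat.card_le_card_of_injective
      (fun f => (⟨∏ i : Fin p, ((f i : W)), Subgroup.prod_mem U (fun i _ => (f i).2.1)⟩ : U)) ?_
    intro f f' hff
    have hff' : ∏ i : Fin p, ((f i : W)) = ∏ i : Fin p, ((f' i : W)) := congrArg Subtype.val hff
    funext i0
    have h1 := congrArg (nrm p (cx * cz ^ (i0 : ℕ))) hff'
    rw [nrm_prod, nrm_prod] at h1
    have h2 : ∀ g : (∀ i : Fin p, fixS (cx * cz ^ (i : ℕ)) U),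
        ∏ i : Fin p, nrm p (cx * cz ^ (i0 : ℕ)) (g i : W) = (g i0 : W) ^ p := by
      intro g
      rw [Finset.prod_eq_single i0]
      · rw [K1 i0 i0 i0.2 i0.2 _ (g i0).2, if_pos rfl]
      · intro b _ hb
        rw [K1 i0 b b.2 i0.2 _ (g b).2, if_neg (fun h => hb (Fin.ext h))]
      · intro h; exact absurd (Finset.mem_univ _) h
    rw [h2 f, h2 f'] at h1
    have h3 : ((f i0 : W) * (f' i0 : W)⁻¹) ^ p = 1 := by
      rw [mul_pow, inv_pow, h1, mul_inv_cancel]
    have h4 := hcop _ (U.mul_mem (f i0).2.1 (U.inv_mem (f' i0).2.1)) h3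
    exact Subtype.ext (mul_inv_eq_one.mp h4)
  have hΦ : Nat.card U ≤ Nat.card (∀ i : Fin p, fixS (cx * cz ^ (i : ℕ)) U) := by
    refine Nat.card_le_card_of_injective
      (fun (u : U) (i : Fin p) => (⟨nrm p (cx * cz ^ (i : ℕ)) (u : W),
        ⟨nrm_mem p _ U (hUa i) u u.2, nrm_fix p _ (hapow i) u⟩⟩ : fixS (cx * cz ^ (i : ℕ)) U)) ?_
    intro u u' huu
    have h1 : ∀ i : ℕ, i < p → nrm p (cx * cz ^ i) (u : W) = nrm p (cx * cz ^ i) (u' : W) := by
      intro i hi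
      exact congrArg Subtype.val (congrFun huu ⟨i, hi⟩)
    have h2 : (u : W) ^ p = (u' : W) ^ p := by
      rw [← K2 u u.2, ← K2 u' u'.2]
      exact Finset.prod_congr rfl (fun i hi => h1 i (Finset.mem_range.mp hi))
    have h3 : ((u : W) * (u' : W)⁻¹) ^ p = 1 := by
      rw [mul_pow, inv_pow, h2, mul_inv_cancel]
    have h4 := hcop _ (U.mul_mem u.2 (U.inv_mem u'.2)) h3
    exact Subtype.ext (mul_inv_eq_one.mp h4)
  have h5 : Nat.card (∀ i : Fin p, fixS (cx * cz ^ (i : ℕ)) U) = Nat.card (fixS cx U) ^ p := by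
    rw [Nat.card_pi]
    simp only [hcard]
    simp
  rw [← h5]
  exact le_antisymm hΦ hΨ

end norm

end Cfsg.Agent.Helper1.XSp
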