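import Cfsg.Agent.Helper1.XSpA
import Cfsg.Agent.Helper1.Class2
import Mathlib

set_option autoImplicit false

namespace Cfsg.Agent.Helper1.XSp

open scoped commutatorElement

section grp
variable {P : Type*} [Group P]

theorem commHom_aux (Z : Subgroup P) (hZcent : ∀ c ∈ Z, ∀ g : P, c * g = g * c)
    (hcomm : ∀ g h : P, ⁅g, h⁆ ∈ Z) (w a b : P) : ⁅a * b, w⁆ = ⁅a, w⁆ * ⁅b, w⁆ := by
  have hk := hZcent _ (hcomm b w)
  have e1 : ⁅a * b, w⁆ = a * ⁅b, w⁆ * a⁻¹ * ⁅a, w⁆ := by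
    simp only [commutatorElement_def]; group
  rw [e1, ← hk a, mul_inv_cancel_right]
  exact hk _

/-- the commutator map `u ↦ ⁅u, w⁆` as a homomorphism (class two) -/
def commHom (Z : Subgroup P) (hZcent : ∀ c ∈ Z, ∀ g : P, c * g = g * c)
    (hcomm : ∀ g h : P, ⁅g, h⁆ ∈ Z) (w : P) : P →* P :=
  MonoidHom.mk' (fun u => ⁅u, w⁆) (fun a b => commHom_aux Z hZcent hcomm w a b)

theorem commHom_apply (Z : Subgroup P) (hZcent : ∀ c ∈ Z, ∀ g : P, c * g = g * c)
    (hcomm : ∀ g h : P, ⁅g, h⁆ ∈ Z) (w u : P) : commHom Z hZcent hcomm w u = ⁅u, w⁆ := rfl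

theorem mem_ker_commHom (Z : Subgroup P) (hZcent : ∀ c ∈ Z, ∀ g : P, c * g = g * c)
    (hcomm : ∀ g h : P, ⁅g, h⁆ ∈ Z) (w u : P) :
    u ∈ (commHom Z hZcent hcomm w).ker ↔ u * w = w * u := by
  rw [MonoidHom.mem_ker, commHom_apply, commutatorElement_eq_one_iff_mul_comm]

theorem card_le_cent [Finite P] (Z : Subgroup P) (hZcent : ∀ c ∈ Z, ∀ g : P, c * g = g * c)
    (hcomm : ∀ g h : P, ⁅g, h⁆ ∈ Z) (x y : P) (Q : Subgroup P) :
    Nat.card Q ≤ Nat.card Z * Nat.card Z *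
      Nat.card (Q ⊓ ((commHom Z hZcent hcomm x).ker ⊓ (commHom Z hZcent hcomm y).ker) :
        Subgroup P) := by
  obtain ⟨K, hK⟩ : ∃ K : Subgroup P,
      K = (commHom Z hZcent hcomm x).ker ⊓ (commHom Z hZcent hcomm y).ker := ⟨_, rfl⟩
  rw [← hK]
  have h1 : ∀ w : P, (commHom Z hZcent hcomm w).ker.relIndex Q ≤ Nat.card Z := by
    intro w
    rw [Subgroup.relIndex_ker]
    refine Subgroup.card_le_of_le ?_
    rintro _ ⟨u, _, rfl⟩
    exact hcomm u w
  have h2 : K.relIndex Q ≤ Nat.card Z * Nat.card Z := by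
    rw [hK]
    exact (Subgroup.relIndex_inf_le).trans (Nat.mul_le_mul (h1 x) (h1 y))
  have h3 : Nat.card (K.subgroupOf Q) * K.relIndex Q = Nat.card Q := Subgroup.card_mul_index _
  have h4 : Nat.card (K.subgroupOf Q) = Nat.card (Q ⊓ K : Subgroup P) := by
    have e : K.subgroupOf Q = (Q ⊓ K).subgroupOf Q := by
      rw [inf_comm, Subgroup.inf_subgroupOf_right]
    rw [e]
    exact Nat.card_congr (Subgroup.subgroupOfEquivOfLe inf_le_left).toEquiv
  rw [← h3, h4, mul_comm]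
  exact Nat.mul_le_mul_right _ h2

theorem pow_card_Z [Finite P] (Z : Subgroup P) (c : P) (hc : c ∈ Z) : c ^ Nat.card Z = 1 := by
  have h := pow_card_eq_one' (G := Z) (x := ⟨c, hc⟩)
  exact (Subgroup.coe_pow Z ⟨c, hc⟩ (Nat.card Z)).symm.trans (congrArg Subtype.val h)

theorem exists_zpow_Z {p : ℕ} [Fact p.Prime] (Z : Subgroup P) (hZc : Nat.card Z = p) (c c' : P)
    (hc : c ∈ Z) (hc1 : c ≠ 1) (hc' : c' ∈ Z) : ∃ k : ℤ, c ^ k = c' := by
  have h := mem_zpowers_of_prime_card (G := Z) hZc (g := ⟨c, hc⟩) (g' := ⟨c', hc'⟩)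
    (fun h => hc1 (congrArg Subtype.val h))
  obtain ⟨k, hk⟩ := Subgroup.mem_zpowers_iff.mp h
  exact ⟨k, by simpa using congrArg Subtype.val hk⟩

theorem exists_order_p_odd {p : ℕ} [Fact p.Prime] [Finite P] (Z : Subgroup P)
    (hZc : Nat.card Z = p) (hZcent : ∀ c ∈ Z, ∀ g : P, c * g = g * c)
    (hcomm : ∀ g h : P, ⁅g, h⁆ ∈ Z) (hpow : ∀ g : P, g ^ p ∈ Z) (hp2 : p ≠ 2)
    (Q : Subgroup P) (g h : P) (hg : g ∈ Q) (hh : h ∈ Q) (hgh : g * h ≠ h * g) :
    ∃ x ∈ Q, x ∉ Z ∧ x ^ p = 1 := by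
  have hp : p.Prime := Fact.out
  by_cases hgp : g ^ p = 1
  · exact ⟨g, hg, fun hz => hgh (hZcent g hz h), hgp⟩
  · obtain ⟨k, hk⟩ := exists_zpow_Z Z hZc (g ^ p) (h ^ p)⁻¹ (hpow g) hgp (Z.inv_mem (hpow h))
    refine ⟨h * g ^ k, Q.mul_mem hh (Q.zpow_mem hg k), ?_, ?_⟩
    · intro hz
      have h1 := hZcent _ hz g
      apply hgh
      have h2 : g ^ k * g = g * g ^ k := ((Commute.refl g).zpow_left k).eq
      have h3 : h * g * g ^ k = g * h * g ^ k := by
        rw [mul_assoc, ← h2, ← mul_assoc, h1, mul_assoc]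
      exact (mul_right_cancel h3).symm
    · obtain ⟨t, ht, hpw⟩ := Cfsg.Agent.Helper1.exists_mul_pow_eq h (g ^ k)
        (fun u => (hZcent _ (hcomm _ _) u)) p
      have hpt : p ∣ t := by
        have h2 : p ∣ 2 * t := by rw [ht]; exact dvd_mul_right p (p - 1)
        have hcop : Nat.Coprime p 2 := (Nat.coprime_primes hp Nat.prime_two).mpr hp2
        exact hcop.dvd_of_dvd_mul_left h2
      obtain ⟨s, rfl⟩ := hpt
      have hc : ⁅g ^ k, h⁆ ^ p = 1 := by rw [← hZc]; exact pow_card_Z Z _ (hcomm _ _)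
      rw [hpw, pow_mul, hc, one_pow, one_mul]
      have e : (g ^ k) ^ p = (g ^ p) ^ k := by
        rw [← zpow_natCast (g ^ k) p, ← zpow_mul, mul_comm, zpow_mul, zpow_natCast]
      rw [e, hk, mul_inv_cancel]

theorem exists_invol [Finite P] (Z : Subgroup P) (hZc : Nat.card Z = 2)
    (hZcent : ∀ c ∈ Z, ∀ g : P, c * g = g * c)
    (hcomm : ∀ g h : P, ⁅g, h⁆ ∈ Z) (hpow : ∀ g : P, g ^ 2 ∈ Z)
    (Q : Subgroup P) (hcard : 2 ^ 5 ≤ Nat.card Q) (g h : P) (hg : g ∈ Q) (_hh : h ∈ Q)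
    (hgh : g * h ≠ h * g) : ∃ x ∈ Q, x ∉ Z ∧ x ^ 2 = 1 := by
  have h1 := card_le_cent Z hZcent hcomm g h Q
  rw [hZc] at h1
  obtain ⟨Q1, hQ1⟩ : ∃ Q1 : Subgroup P,
      Q1 = Q ⊓ ((commHom Z hZcent hcomm g).ker ⊓ (commHom Z hZcent hcomm h).ker) := ⟨_, rfl⟩
  rw [← hQ1] at h1
  have h2 : 8 ≤ Nat.card Q1 := by omega
  obtain ⟨g1, hg1, hg1Z⟩ : ∃ g1 ∈ Q1, g1 ∉ Z := by
    by_contra hcon
    push Not at hcon
    have h3 : Q1 ≤ Z := hcon
    have h4 := Subgroup.card_le_of_le h3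
    omega
  rw [hQ1] at hg1
  have hg1Q : g1 ∈ Q := hg1.1
  have hg1g : g1 * g = g * g1 := (mem_ker_commHom Z hZcent hcomm g g1).mp hg1.2.1
  have hg1h : g1 * h = h * g1 := (mem_ker_commHom Z hZcent hcomm h g1).mp hg1.2.2
  by_cases hg2 : g ^ 2 = 1
  · exact ⟨g, hg, fun hz => hgh (hZcent g hz h), hg2⟩
  by_cases hg12 : g1 ^ 2 = 1
  · exact ⟨g1, hg1Q, hg1Z, hg12⟩
  have heq : g ^ 2 = g1 ^ 2 := by
    obtain ⟨y, _, hy⟩ := (Nat.card_eq_two_iff' (1 : Z)).mp hZc
    have e1 := hy ⟨g ^ 2, hpow g⟩ (fun h => hg2 (congrArg Subtype.val h))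
    have e2 := hy ⟨g1 ^ 2, hpow g1⟩ (fun h => hg12 (congrArg Subtype.val h))
    exact congrArg Subtype.val (e1.trans e2.symm)
  refine ⟨g * g1, Q.mul_mem hg hg1Q, ?_, ?_⟩
  · intro hz
    have h3 := hZcent _ hz h
    apply hgh
    have h4 : g * h * g1 = h * g * g1 := by
      rw [mul_assoc, ← hg1h, ← mul_assoc, h3, mul_assoc]
    exact mul_right_cancel h4
  · have hc : Commute g g1 := hg1g.symm
    rw [hc.mul_pow, ← heq, ← pow_add]
    have h5 := pow_card_Z Z _ (hpow g)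
    rw [hZc, ← pow_mul] at h5
    exact h5

end grp

section bounds
variable {W : Type*} [CommGroup W] [Finite W]

theorem base_bound (p r n : ℕ) [Fact p.Prime] [Fact r.Prime]
    (hW : ∀ w : W, w ^ r = 1) (hmin : ∀ k : ℕ, 1 ≤ k → p ∣ r ^ k - 1 → n ≤ k)
    (U : Subgroup W) (hU : U ≠ ⊥) (a : MulAut W) (ha : a ^ p = 1) (hUa : ∀ u ∈ U, a u ∈ U)
    (hf : ∀ u ∈ U, a u = u → u = 1) : r ^ n ≤ Nat.card U := by
  classical
  have hr : r.Prime := Fact.out
  have hpg : IsPGroup r U := by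
    intro u
    exact ⟨1, by rw [pow_one]; exact Subtype.ext (by simpa using hW (u : W))⟩
  obtain ⟨k, hk⟩ := IsPGroup.iff_card.mp hpg
  have hk1 : 1 ≤ k := by
    rcases Nat.eq_zero_or_pos k with h0 | h0
    · exfalso
      apply hU
      rw [h0, pow_zero] at hk
      exact Subgroup.card_eq_one.mp hk
    · exact h0
  let _ : Fintype U := Fintype.ofFinite U
  obtain ⟨f, hf'⟩ : ∃ f : Function.End U, ∀ u : U, ((f u : U) : W) = a (u : W) :=
    ⟨fun u => ⟨a u, hUa u u.2⟩, fun u => rfl⟩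
  have hfj : ∀ j : ℕ, ∀ u : U, (((f ^ j) u : U) : W) = (a ^ j) (u : W) := by
    intro j
    induction j with
    | zero => intro u; rfl
    | succ j ih =>
      intro u
      have e : (f ^ (j + 1)) u = (f ^ j) (f u) := by rw [pow_succ]; rfl
      rw [e, ih, hf', pow_succ, MulAut.mul_apply]
  have hfp : f ^ p ^ 1 = 1 := by
    rw [pow_one]
    funext u
    apply Subtype.ext
    rw [hfj, ha]
    rfl
  have hmod := Equiv.Perm.card_fixedPoints_modEq (p := p) (n := 1) hfp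
  simp only [Fintype.card_eq_nat_card] at hmod
  have hfix : Nat.card (Function.fixedPoints f) = 1 := by
    rw [Nat.card_eq_one_iff_exists]
    refine ⟨⟨1, ?_⟩, ?_⟩
    · show f 1 = 1
      apply Subtype.ext
      rw [hf']
      exact map_one a
    · rintro ⟨u, hu⟩
      apply Subtype.ext
      have h1 : a (u : W) = u := by
        rw [← hf']
        exact congrArg Subtype.val hu
      exact Subtype.ext (hf u u.2 h1)
  rw [hfix, hk] at hmod
  have hdvd : p ∣ r ^ k - 1 := (Nat.modEq_iff_dvd' (Nat.one_le_pow _ _ hr.pos)).mp hmod.symm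
  have hnk : n ≤ k := hmin k hk1 hdvd
  rw [hk]
  exact Nat.pow_le_pow_right hr.pos hnk

theorem terminal_bound (r : ℕ) [Fact r.Prime]
    (hW : ∀ w : W, w ^ r = 1) (U : Subgroup W) (hU : U ≠ ⊥) (a b c : MulAut W)
    (habc : a * b = c * (b * a)) (hUa : ∀ u ∈ U, a u ∈ U) (hUb : ∀ u ∈ U, b u ∈ U)
    (hf : ∀ u ∈ U, c u = u → u = 1) : r ^ 2 ≤ Nat.card U := by
  have hr : r.Prime := Fact.out
  have hpg : IsPGroup r U := by
    intro u
    exact ⟨1, by rw [pow_one]; exact Subtype.ext (by simpa using hW (u : W))⟩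
  obtain ⟨k, hk⟩ := IsPGroup.iff_card.mp hpg
  have hk0 : k ≠ 0 := by
    intro h0
    apply hU
    rw [h0, pow_zero] at hk
    exact Subgroup.card_eq_one.mp hk
  have hk1 : k ≠ 1 := by
    intro h1
    rw [h1, pow_one] at hk
    obtain ⟨u, huU, hu1⟩ : ∃ u ∈ U, u ≠ 1 := by
      by_contra hcon
      push Not at hcon
      exact hU ((Subgroup.eq_bot_iff_forall U).mpr hcon)
    have hgen : ∀ v ∈ U, ∃ m : ℤ, u ^ m = v := by
      intro v hv
      have h := mem_zpowers_of_prime_card (G := U) hk (g := ⟨u, huU⟩) (g' := ⟨v, hv⟩)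
        (fun h => hu1 (congrArg Subtype.val h))
      obtain ⟨m, hm⟩ := Subgroup.mem_zpowers_iff.mp h
      exact ⟨m, by simpa using congrArg Subtype.val hm⟩
    obtain ⟨i, hi⟩ := hgen _ (hUa u huU)
    obtain ⟨j, hj⟩ := hgen _ (hUb u huU)
    have e1 : a (b u) = b (a u) := by
      rw [← hi, ← hj, map_zpow, map_zpow, ← hi, ← hj, ← zpow_mul, ← zpow_mul, mul_comm]
    have e2 : a (b u) = c (b (a u)) := by
      have h2 := congrArg (fun t : MulAut W => t u) habc
      simpa [MulAut.mul_apply] using h2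
    have e3 : b (a u) = 1 := hf _ (hUb _ (hUa u huU)) (by rw [← e2, e1])
    apply hu1
    have e4 : a u = 1 := by simpa using e3
    simpa using e4
  have h2 : 2 ≤ k := by omega
  rw [hk]
  exact Nat.pow_le_pow_right hr.pos h2

end bounds

theorem core {P W : Type*} [Group P] [Finite P] [CommGroup W] [Finite W] (p r n : ℕ)
    [Fact p.Prime] [Fact r.Prime] (hpr : p ≠ r)
    (φ : P →* MulAut W) (hW : ∀ w : W, w ^ r = 1)
    (Z : Subgroup P) (hZc : Nat.card Z = p) (hZcent : ∀ c ∈ Z, ∀ g : P, c * g = g * c)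
    (hcomm : ∀ g h : P, ⁅g, h⁆ ∈ Z) (hpow : ∀ g : P, g ^ p ∈ Z)
    (hn : 1 ≤ n) (hmin : ∀ k : ℕ, 1 ≤ k → p ∣ r ^ k - 1 → n ≤ k) :
    ∀ (d : ℕ) (Q : Subgroup P), Z ≤ Q → (∀ g ∈ Q, (∀ h ∈ Q, g * h = h * g) → g ∈ Z) →
      p ^ (2 * d + 1) ≤ Nat.card Q →
      ∀ U : Subgroup W, (∀ g ∈ Q, ∀ u ∈ U, φ g u ∈ U) → U ≠ ⊥ →
        (∀ c ∈ Z, c ≠ 1 → ∀ u ∈ U, φ c u = u → u = 1) → r ^ (n * p ^ d) ≤ Nat.card U := by
  have hp : p.Prime := Fact.out
  have hr : r.Prime := Fact.out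
  have hZpow : ∀ c ∈ Z, c ^ p = 1 := fun c hc => by rw [← hZc]; exact pow_card_Z Z c hc
  have hcop : ∀ w : W, w ^ p = 1 → w = 1 := by
    intro w hw
    have h1 := pow_gcd_eq_one.mpr ⟨hw, hW w⟩
    rwa [(Nat.coprime_primes hp hr).mpr hpr, pow_one] at h1
  intro d
  induction d with
  | zero =>
    intro Q hZQ hcen hcard U hUinv hUne hfpf
    obtain ⟨c, hcZ, hc1⟩ : ∃ c ∈ Z, c ≠ 1 := by
      by_contra hcon
      push Not at hcon
      have h1 : Z = ⊥ := (Subgroup.eq_bot_iff_forall Z).mpr hcon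
      rw [h1, Subgroup.card_bot] at hZc
      exact hp.one_lt.ne hZc
    have h2 := base_bound p r n hW hmin U hUne (φ c)
      (by rw [← map_pow, hZpow c hcZ, map_one]) (hUinv c (hZQ hcZ)) (hfpf c hcZ hc1)
    simpa using h2
  | succ d ih =>
    intro Q hZQ hcen hcard U hUinv hUne hfpf
    obtain ⟨g, hgQ, hgZ⟩ : ∃ g ∈ Q, g ∉ Z := by
      by_contra hcon
      push Not at hcon
      have h1 : Q ≤ Z := hcon
      have h2 := Subgroup.card_le_of_le h1
      rw [hZc] at h2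
      have h3 : p < p ^ (2 * (d + 1) + 1) := by
        calc p = p ^ 1 := (pow_one p).symm
          _ < p ^ (2 * (d + 1) + 1) := Nat.pow_lt_pow_right hp.one_lt (by omega)
      omega
    obtain ⟨h, hhQ, hgh⟩ : ∃ h ∈ Q, g * h ≠ h * g := by
      by_contra hcon
      push Not at hcon
      exact hgZ (hcen g hgQ hcon)
    by_cases hex : ∃ x ∈ Q, x ∉ Z ∧ x ^ p = 1
    · obtain ⟨x, hxQ, hxZ, hxp⟩ := hex
      obtain ⟨y, hyQ, hxy⟩ : ∃ y ∈ Q, x * y ≠ y * x := by
        by_contra hcon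
        push Not at hcon
        exact hxZ (hcen x hxQ hcon)
      obtain ⟨c, hcdef⟩ : ∃ c : P, c = x⁻¹ * y * x * y⁻¹ := ⟨_, rfl⟩
      have hcZ : c ∈ Z := by
        have h1 := hcomm x⁻¹ y
        rw [commutatorElement_def, inv_inv] at h1
        rw [hcdef]
        exact h1
      have hyxc : y * x = x * c * y := by rw [hcdef]; group
      have hc1 : c ≠ 1 := by
        intro h1
        apply hxy
        rw [h1, mul_one] at hyxc
        exact hyxc.symm
      have hstep := step p (φ x) (φ y) (φ c) (by rw [← map_pow, hxp, map_one])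
        (by rw [← map_pow, hZpow c hcZ, map_one])
        (by rw [← map_mul, ← map_mul, hZcent c hcZ x])
        (by rw [← map_mul, ← map_mul, hZcent c hcZ y])
        (by rw [← map_mul, ← map_mul, ← map_mul, hyxc])
        U (hUinv x hxQ) (hUinv y hyQ)
        (by rw [← map_inv]; exact hUinv y⁻¹ (Q.inv_mem hyQ))
        (hUinv c (hZQ hcZ))
        (by
          intro m hm u hu hfix
          rw [← map_pow] at hfix
          refine hfpf (c ^ m) (Z.pow_mem hcZ m) ?_ u hu hfix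
          intro h1
          have h2 : orderOf c = p := orderOf_eq_prime (hZpow c hcZ) hc1
          exact hm (h2 ▸ orderOf_dvd_of_pow_eq_one h1))
        (fun u _ hu => hcop u hu)
      obtain ⟨Q1, hQ1⟩ : ∃ Q1 : Subgroup P,
          Q1 = Q ⊓ ((commHom Z hZcent hcomm x).ker ⊓ (commHom Z hZcent hcomm y).ker) := ⟨_, rfl⟩
      have hmemQ1 : ∀ u : P, u ∈ Q1 ↔ u ∈ Q ∧ u * x = x * u ∧ u * y = y * u := by
        intro u
        rw [hQ1, Subgroup.mem_inf, Subgroup.mem_inf, mem_ker_commHom, mem_ker_commHom]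
      have hcardQ1 : p ^ (2 * d + 1) ≤ Nat.card Q1 := by
        have h1 := card_le_cent Z hZcent hcomm x y Q
        rw [← hQ1, hZc] at h1
        have h2 : p ^ (2 * (d + 1) + 1) = p * p * p ^ (2 * d + 1) := by ring
        rw [h2] at hcard
        exact Nat.le_of_mul_le_mul_left (hcard.trans h1) (Nat.mul_pos hp.pos hp.pos)
      have hZQ1 : Z ≤ Q1 := by
        intro c' hc'
        rw [hmemQ1]
        exact ⟨hZQ hc', hZcent c' hc' x, hZcent c' hc' y⟩
      have hcomyx : ⁅y, x⁆ = c := by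
        have e : ⁅y, x⁆ = x * c * x⁻¹ := by rw [hcdef, commutatorElement_def]; group
        rw [e, ← hZcent c hcZ x, mul_inv_cancel_right]
      have hcomxy : ⁅x, y⁆ = c⁻¹ := by
        have e : ⁅x, y⁆ = x * c⁻¹ * x⁻¹ := by rw [hcdef, commutatorElement_def]; group
        rw [e, ← hZcent c⁻¹ (Z.inv_mem hcZ) x, mul_inv_cancel_right]
      have hcenQ1 : ∀ g' ∈ Q1, (∀ h' ∈ Q1, g' * h' = h' * g') → g' ∈ Z := by
        intro g' hg' hall
        obtain ⟨hg'Q, hg'x, hg'y⟩ := (hmemQ1 g').mp hg'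
        refine hcen g' hg'Q ?_
        intro h' hh'
        obtain ⟨s, hs⟩ := exists_zpow_Z Z hZc c (⁅h', x⁆)⁻¹ hcZ hc1 (Z.inv_mem (hcomm _ _))
        obtain ⟨t, ht⟩ := exists_zpow_Z Z hZc c (⁅h', y⁆) hcZ hc1 (hcomm _ _)
        have hh1 : h' * y ^ s * x ^ t ∈ Q1 := by
          rw [hmemQ1]
          refine ⟨Q.mul_mem (Q.mul_mem hh' (Q.zpow_mem hyQ s)) (Q.zpow_mem hxQ t), ?_, ?_⟩
          · rw [← mem_ker_commHom Z hZcent hcomm, MonoidHom.mem_ker, map_mul, map_mul,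
              map_zpow, map_zpow]
            simp only [commHom_apply]
            rw [hcomyx, hs, commutatorElement_self, one_zpow, mul_one, mul_inv_cancel]
          · rw [← mem_ker_commHom Z hZcent hcomm, MonoidHom.mem_ker, map_mul, map_mul,
              map_zpow, map_zpow]
            simp only [commHom_apply]
            rw [commutatorElement_self, one_zpow, mul_one, hcomxy, inv_zpow, ht,
              mul_inv_cancel]
        have hc1' : Commute g' (h' * y ^ s * x ^ t) := hall _ hh1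
        have hc2 : Commute g' (x ^ t) := (show Commute g' x from hg'x).zpow_right t
        have hc3 : Commute g' (y ^ s) := (show Commute g' y from hg'y).zpow_right s
        have e : h' = h' * y ^ s * x ^ t * (x ^ t)⁻¹ * (y ^ s)⁻¹ := by
          rw [mul_inv_cancel_right, mul_inv_cancel_right]
        have h6 := (hc1'.mul_right hc2.inv_right).mul_right hc3.inv_right
        rw [← e] at h6
        exact h6.eq
      obtain ⟨U1, hU1⟩ : ∃ U1 : Subgroup W, U1 = fixS (φ x) U := ⟨_, rfl⟩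
      have hU1inv : ∀ g' ∈ Q1, ∀ u ∈ U1, φ g' u ∈ U1 := by
        intro g' hg' u hu
        obtain ⟨hg'Q, hg'x, hg'y⟩ := (hmemQ1 g').mp hg'
        rw [hU1] at hu ⊢
        refine ⟨hUinv g' hg'Q u hu.1, ?_⟩
        rw [← MulAut.mul_apply, ← map_mul, ← hg'x, map_mul, MulAut.mul_apply, hu.2]
      have hU1ne : U1 ≠ ⊥ := by
        intro hbot
        apply hUne
        rw [← hU1, hbot, Subgroup.card_bot, one_pow] at hstep
        exact Subgroup.card_eq_one.mp hstep
      have hU1f : ∀ c' ∈ Z, c' ≠ 1 → ∀ u ∈ U1, φ c' u = u → u = 1 := by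
        intro c' hc' hc'1 u hu hfix
        rw [hU1] at hu
        exact hfpf c' hc' hc'1 u hu.1 hfix
      have hih := ih Q1 hZQ1 hcenQ1 hcardQ1 U1 hU1inv hU1ne hU1f
      rw [hstep, ← hU1]
      calc r ^ (n * p ^ (d + 1)) = (r ^ (n * p ^ d)) ^ p := by
            rw [← pow_mul, pow_succ, mul_assoc]
        _ ≤ Nat.card U1 ^ p := Nat.pow_le_pow_left hih p
    · by_cases hp2 : p = 2
      · rw [hp2] at hZc hpow hex hcard hmin ⊢
        have hd0 : d = 0 := by
          by_contra hd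
          have h5 : 2 ^ 5 ≤ Nat.card Q := by
            refine le_trans ?_ hcard
            exact Nat.pow_le_pow_right (by norm_num) (by omega)
          exact hex (exists_invol Z hZc hZcent hcomm hpow Q h5 g h hgQ hhQ hgh)
        have hn1 : n = 1 := by
          have h2 : 2 ∣ r ^ 1 - 1 := by
            rw [pow_one]
            rcases hr.eq_two_or_odd' with h | h
            · exact absurd (hp2.trans h.symm) hpr
            · obtain ⟨m, hm⟩ := h
              exact ⟨m, by omega⟩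
          have h3 := hmin 1 le_rfl h2
          omega
        rw [hd0, hn1]
        have hcgh : ⁅g, h⁆ ∈ Z := hcomm g h
        have hcgh1 : ⁅g, h⁆ ≠ 1 := fun h1 => hgh (commutatorElement_eq_one_iff_mul_comm.mp h1)
        have hterm := terminal_bound r hW U hUne (φ g) (φ h) (φ ⁅g, h⁆)
          (by
            rw [← map_mul, ← map_mul, ← map_mul]
            congr 1
            rw [commutatorElement_def]; group)
          (hUinv g hgQ) (hUinv h hhQ) (hfpf _ hcgh hcgh1)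
        simpa using hterm
      · exact absurd (exists_order_p_odd Z hZc hZcent hcomm hpow hp2 Q g h hgQ hhQ hgh) hex

end Cfsg.Agent.Helper1.XSp
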